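import Mathlib
import Cfsg.Agent.LieClassical.SLGen

/-!
# The group `SL₃(F)` (helper438, S3727)

* `tv v φ` : the transvection `w ↦ w + φ(w) v`;
* `top_of`, `ax_of`, `ce_of` : overgroups of the group of upper unitriangular matrices;
-/

set_option autoImplicit false
set_option linter.unusedSectionVars false
set_option linter.unusedSimpArgs false

namespace Cfsg.Agent.H438.SLThree

open Matrix

variable {F : Type*} [Field F]

/-- `SL₃(F)` -/
abbrev S (F : Type*) [Field F] := SpecialLinearGroup (Fin 3) F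

/-- Right action on row vectors. -/
def row (φ : Fin 3 → F) (g : S F) : Fin 3 → F := φ ᵥ* g.1

theorem smul_eq (g : S F) (v : Fin 3 → F) : g • v = g.1 *ᵥ v := rfl

theorem row_one (φ : Fin 3 → F) : row φ (1 : S F) = φ := by
  exact vecMul_one φ

theorem row_mul (φ : Fin 3 → F) (g h : S F) : row φ (g * h) = row (row φ g) h := by
  change φ ᵥ* (g.1 * h.1) = (φ ᵥ* g.1) ᵥ* h.1
  rw [vecMul_vecMul]

theorem row_dot (φ v : Fin 3 → F) (g : S F) : row φ g ⬝ᵥ v = φ ⬝ᵥ (g • v) := by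
  rw [smul_eq]
  unfold row
  rw [dotProduct_mulVec]

theorem row_smul (c : F) (φ : Fin 3 → F) (g : S F) : row (c • φ) g = c • row φ g := by
  unfold row
  rw [smul_vecMul]

theorem row_add (φ ψ : Fin 3 → F) (g : S F) : row (φ + ψ) g = row φ g + row ψ g := by
  unfold row
  rw [add_vecMul]

theorem smul_smul_comm' (c : F) (v : Fin 3 → F) (g : S F) : g • (c • v) = c • (g • v) := by
  rw [smul_eq, smul_eq, mulVec_smul]

theorem dot_inv (φ v : Fin 3 → F) (g : S F) : row φ g⁻¹ ⬝ᵥ (g • v) = φ ⬝ᵥ v := by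
  rw [row_dot, inv_smul_smul]

theorem ext_smul {g h : S F} (H : ∀ v : Fin 3 → F, g • v = h • v) : g = h :=
  Cfsg.Agent.LieClassical.SLGen.smul_ext H

theorem det_tv {v φ : Fin 3 → F} (h : φ ⬝ᵥ v = 0) : (1 + vecMulVec v φ).det = 1 := by
  rw [det_fin_three]
  simp only [dotProduct, Fin.sum_univ_three] at h
  simp only [Matrix.add_apply, vecMulVec_apply, one_apply, Fin.isValue, Fin.reduceEq, if_false, if_true, zero_add]
  linear_combination h

/-- The transvection as an element of `SL₃(F)`. -/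
def tvm {v φ : Fin 3 → F} (h : φ ⬝ᵥ v = 0) : S F := ⟨1 + vecMulVec v φ, det_tv h⟩

open Classical in
/-- The transvection `w ↦ w + φ(w) v` if `φ(v) = 0` (and `1` otherwise). -/
noncomputable def tv (v φ : Fin 3 → F) : S F :=
  if h : φ ⬝ᵥ v = 0 then tvm h else 1

theorem tv_coe {v φ : Fin 3 → F} (h : φ ⬝ᵥ v = 0) : (tv v φ).1 = 1 + vecMulVec v φ := by
  have : tv v φ = tvm h := by
    unfold tv
    rw [dif_pos h]
  rw [this]
  rfl

theorem tv_smul {v φ : Fin 3 → F} (h : φ ⬝ᵥ v = 0) (w : Fin 3 → F) : tv v φ • w = w + (φ ⬝ᵥ w) • v := by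
  rw [smul_eq, tv_coe h, add_mulVec, one_mulVec]
  congr 1
  ext i
  rw [vecMulVec_mulVec]
  simp [mul_comm]

theorem row_tv {v φ : Fin 3 → F} (h : φ ⬝ᵥ v = 0) (ψ : Fin 3 → F) : row ψ (tv v φ) = ψ + (ψ ⬝ᵥ v) • φ := by
  unfold row
  rw [tv_coe h, vecMul_add, vecMul_one, vecMul_vecMulVec]

theorem conj_tv {v φ : Fin 3 → F} (h : φ ⬝ᵥ v = 0) (g : S F) : g * tv v φ * g⁻¹ = tv (g • v) (row φ g⁻¹) := by
  apply ext_smul
  intro w
  rw [tv_smul (by rw [dot_inv, h]), mul_smul, mul_smul, tv_smul h, smul_add, smul_inv_smul, smul_smul_comm', row_dot]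

/-- `X` contains all transvections with axis `φ`. -/
def Ax (X : Subgroup (S F)) (φ : Fin 3 → F) : Prop := ∀ w, φ ⬝ᵥ w = 0 → tv w φ ∈ X

/-- `X` contains all transvections with centre `v`. -/
def Ce (X : Subgroup (S F)) (v : Fin 3 → F) : Prop := ∀ ψ, ψ ⬝ᵥ v = 0 → tv v ψ ∈ X

theorem Ax.conj {X : Subgroup (S F)} {φ : Fin 3 → F} (h : Ax X φ) {g : S F} (hg : g ∈ X) : Ax X (row φ g) := by
  intro w hw
  have h1 : φ ⬝ᵥ (g • w) = 0 := by rw [← row_dot, hw]
  have h2 := X.mul_mem (X.mul_mem (X.inv_mem hg) (h _ h1)) hg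
  have h3 := conj_tv h1 g⁻¹
  rw [inv_inv, inv_smul_smul] at h3
  rwa [h3] at h2

theorem Ce.conj {X : Subgroup (S F)} {v : Fin 3 → F} (h : Ce X v) {g : S F} (hg : g ∈ X) : Ce X (g • v) := by
  intro ψ hψ
  have h1 : row ψ g ⬝ᵥ v = 0 := by rw [row_dot, hψ]
  have h2 := X.mul_mem (X.mul_mem hg (h _ h1)) (X.inv_mem hg)
  have h3 := conj_tv h1 g
  rw [← row_mul, mul_inv_cancel, row_one] at h3
  rwa [h3] at h2

theorem tv_smul_left {v φ : Fin 3 → F} (h : φ ⬝ᵥ v = 0) (c : F) : tv (c • v) φ = tv v (c • φ) := by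
  have h1 : φ ⬝ᵥ (c • v) = 0 := by rw [dotProduct_smul, h, smul_zero]
  have h2 : (c • φ) ⬝ᵥ v = 0 := by rw [smul_dotProduct, h, smul_zero]
  apply ext_smul
  intro w
  rw [tv_smul h1, tv_smul h2, smul_dotProduct, smul_smul, smul_eq_mul, mul_comm]

theorem Ax.smul {X : Subgroup (S F)} {φ : Fin 3 → F} (h : Ax X φ) (c : F) : Ax X (c • φ) := by
  intro w hw
  by_cases hc : c = 0
  · subst hc
    have : tv w ((0 : F) • φ) = 1 := by
      apply ext_smul
      intro u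
      rw [tv_smul hw, one_smul, zero_smul, zero_dotProduct, zero_smul, add_zero]
    rw [this]
    exact X.one_mem
  · have h1 : φ ⬝ᵥ w = 0 := by
      rw [smul_dotProduct, smul_eq_mul] at hw
      exact (mul_eq_zero.1 hw).resolve_left hc
    rw [← tv_smul_left h1]
    apply h
    rw [dotProduct_smul, h1, smul_zero]

theorem Ce.smul {X : Subgroup (S F)} {v : Fin 3 → F} (h : Ce X v) (c : F) : Ce X (c • v) := by
  intro ψ hψ
  by_cases hc : c = 0
  · subst hc
    have : tv ((0 : F) • v) ψ = 1 := by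
      apply ext_smul
      intro u
      rw [tv_smul hψ, one_smul, zero_smul, smul_zero, add_zero]
    rw [this]
    exact X.one_mem
  · have h1 : ψ ⬝ᵥ v = 0 := by
      rw [dotProduct_smul, smul_eq_mul] at hψ
      exact (mul_eq_zero.1 hψ).resolve_left hc
    rw [tv_smul_left h1]
    apply h
    rw [smul_dotProduct, h1, smul_zero]

/-! ### generation -/

/-- `X = SL₃(F)` if `X` contains all transvections. -/
theorem top_of_ax {X : Subgroup (S F)} (h : ∀ φ, Ax X φ) : X = ⊤ := by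
  rw [eq_top_iff, ← Cfsg.Agent.LieClassical.SLGen.closure_transvections, Subgroup.closure_le]
  rintro _ ⟨i, j, hij, b, rfl⟩
  have h1 : (Pi.single j (1 : F)) ⬝ᵥ (Pi.single i b : Fin 3 → F) = 0 := by
    rw [single_dotProduct, Pi.single_eq_of_ne' hij, mul_zero]
  have h2 := h _ _ h1
  have h3 : SpecialLinearGroup.transvection hij b = tv (Pi.single i b) (Pi.single j 1) := by
    apply ext_smul
    intro w
    rw [tv_smul h1, Cfsg.Agent.LieClassical.SLGen.transvection_smul, single_dotProduct, one_mul]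
    congr 1
    ext k
    by_cases hk : k = i
    · subst hk
      simp [mul_comm]
    · simp [hk]
  rw [h3]
  exact h2

/-- Elements of `SL₃(F)` fixing the first basis vector and acting trivially modulo it. -/
theorem eq_tv {g : S F} (h1 : ∀ w : Fin 3 → F, ∃ c : F, g • w = w + c • ![1, 0, 0])
    (h2 : g • (![1, 0, 0] : Fin 3 → F) = ![1, 0, 0]) : ∃ ψ : Fin 3 → F, ψ ⬝ᵥ ![1, 0, 0] = 0 ∧ g = tv ![1, 0, 0] ψ := by
  choose c hc using h1
  have hg : ∀ w : Fin 3 → F, g • w = w + (![0, c ![0, 1, 0], c ![0, 0, 1]] ⬝ᵥ w) • ![1, 0, 0] := by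
    intro w
    have e : w = w 0 • ![1, 0, 0] + w 1 • ![0, 1, 0] + w 2 • ![0, 0, 1] := by
      ext i
      fin_cases i <;> simp
    conv_lhs => rw [e]
    rw [smul_add, smul_add, smul_smul_comm', smul_smul_comm', smul_smul_comm', h2, hc ![0, 1, 0], hc ![0, 0, 1]]
    ext i
    fin_cases i <;> simp [dotProduct, Fin.sum_univ_three]
    ring
  have h0 : (![0, c ![0, 1, 0], c ![0, 0, 1]] : Fin 3 → F) ⬝ᵥ ![1, 0, 0] = 0 := by
    simp [dotProduct, Fin.sum_univ_three]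
  refine ⟨_, h0, ?_⟩
  apply ext_smul
  intro w
  rw [tv_smul h0, hg w]

theorem tv_apply {v φ : Fin 3 → F} (h : φ ⬝ᵥ v = 0) (w : Fin 3 → F) (i : Fin 3) :
    (tv v φ • w) i = w i + (φ 0 * w 0 + φ 1 * w 1 + φ 2 * w 2) * v i := by
  rw [tv_smul h, Pi.add_apply, Pi.smul_apply, smul_eq_mul]
  simp [dotProduct, Fin.sum_univ_three]

theorem smul_apply (g : S F) (w : Fin 3 → F) (i : Fin 3) :
    (g • w) i = g.1 i 0 * w 0 + g.1 i 1 * w 1 + g.1 i 2 * w 2 := by
  rw [smul_eq]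
  simp [mulVec, dotProduct, Fin.sum_univ_three]

theorem row_apply (g : S F) (φ : Fin 3 → F) (i : Fin 3) :
    row φ g i = φ 0 * g.1 0 i + φ 1 * g.1 1 i + φ 2 * g.1 2 i := by
  unfold row
  simp [vecMul, dotProduct, Fin.sum_univ_three]

theorem dot_apply (φ w : Fin 3 → F) : φ ⬝ᵥ w = φ 0 * w 0 + φ 1 * w 1 + φ 2 * w 2 := by
  simp [dotProduct, Fin.sum_univ_three]

theorem col_zero {g : S F} (hg : g • (![1, 0, 0] : Fin 3 → F) = ![1, 0, 0]) :
    g.1 0 0 = 1 ∧ g.1 1 0 = 0 ∧ g.1 2 0 = 0 := by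
  have h0 := congrFun hg 0
  have h1 := congrFun hg 1
  have h2 := congrFun hg 2
  rw [smul_apply] at h0 h1 h2
  refine ⟨by simpa using h0, by simpa using h1, by simpa using h2⟩

theorem mem_of_c_ne {X : Subgroup (S F)} (h : ∀ φ, φ ⬝ᵥ ![1, 0, 0] = 0 → Ax X φ) {g : S F}
    (hg : g • (![1, 0, 0] : Fin 3 → F) = ![1, 0, 0]) (hc : g.1 2 1 ≠ 0) : g ∈ X := by
  obtain ⟨h0, h1, h2⟩ := col_zero hg
  have hdet : g.1 1 1 * g.1 2 2 - g.1 1 2 * g.1 2 1 = 1 := by
    have := g.2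
    rw [det_fin_three, h0, h1, h2] at this
    linear_combination this
  have hL : ∀ c : F, (![0, 0, 1] : Fin 3 → F) ⬝ᵥ ![0, c, 0] = 0 := by
    intro c; simp [dot_apply]
  have hM : ∀ c : F, (![0, 1, 0] : Fin 3 → F) ⬝ᵥ ![0, 0, c] = 0 := by
    intro c; simp [dot_apply]
  set k : S F := tv ![0, -((g.1 2 2 - 1) / g.1 2 1), 0] ![0, 0, 1] * tv ![0, 0, - g.1 2 1] ![0, 1, 0] *
    tv ![0, -((g.1 1 1 - 1) / g.1 2 1), 0] ![0, 0, 1] with hk
  have hkX : k ∈ X := by
    refine X.mul_mem (X.mul_mem ?_ ?_) ?_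
    · exact h _ (by simp [dot_apply]) _ (hL _)
    · exact h _ (by simp [dot_apply]) _ (hM _)
    · exact h _ (by simp [dot_apply]) _ (hL _)
  have hk1 : (k * g) • (![1, 0, 0] : Fin 3 → F) = ![1, 0, 0] := by
    rw [mul_smul, hg, hk, mul_smul, mul_smul, tv_smul (hL _), tv_smul (hM _), tv_smul (hL _)]
    ext i
    fin_cases i <;> simp [dot_apply]
  have key : ∀ w : Fin 3 → F, ((k * g) • w) 1 = w 1 ∧ ((k * g) • w) 2 = w 2 := by
    intro w
    have e1 : (g • w) 1 = g.1 1 1 * w 1 + g.1 1 2 * w 2 := by rw [smul_apply, h1]; ring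
    have e2 : (g • w) 2 = g.1 2 1 * w 1 + g.1 2 2 * w 2 := by rw [smul_apply, h2]; ring
    rw [mul_smul, hk, mul_smul, mul_smul]
    simp only [tv_apply (hL _), tv_apply (hM _), e1, e2]
    constructor
    · simp
      field_simp
      linear_combination (-(w 2) * g.1 2 2) * hdet
    · simp
      field_simp
      linear_combination (w 2) * hdet
  obtain ⟨ψ, hψ, hψ2⟩ := eq_tv (g := k * g) (fun w => ⟨((k * g) • w) 0 - w 0, by
    obtain ⟨e1, e2⟩ := key w
    funext i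
    rw [Pi.add_apply, Pi.smul_apply]
    fin_cases i
    · simp
    · simpa using e1
    · simpa using e2⟩) hk1
  have h3 : k * g ∈ X := by
    rw [hψ2]
    exact h ψ hψ _ hψ
  have h4 := X.mul_mem (X.inv_mem hkX) h3
  rwa [inv_mul_cancel_left] at h4

theorem stab_of_ax {X : Subgroup (S F)} (h : ∀ φ, φ ⬝ᵥ ![1, 0, 0] = 0 → Ax X φ) {g : S F}
    (hg : g • (![1, 0, 0] : Fin 3 → F) = ![1, 0, 0]) : g ∈ X := by
  by_cases hc : g.1 2 1 = 0
  · obtain ⟨h0, h1, h2⟩ := col_zero hg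
    have hM : (![0, 1, 0] : Fin 3 → F) ⬝ᵥ ![0, 0, 1] = 0 := by simp [dot_apply]
    have hmX : tv ![0, 0, 1] ![0, 1, 0] ∈ X := h _ (by simp [dot_apply]) _ hM
    have h3 : (tv ![0, 0, 1] ![0, 1, 0] * g) • (![1, 0, 0] : Fin 3 → F) = ![1, 0, 0] := by
      rw [mul_smul, hg, tv_smul hM]
      ext i
      fin_cases i <;> simp [dot_apply]
    have hdet : g.1 1 1 * g.1 2 2 - g.1 1 2 * g.1 2 1 = 1 := by
      have := g.2
      rw [det_fin_three, h0, h1, h2] at this
      linear_combination this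
    have h4 : (tv ![0, 0, 1] ![0, 1, 0] * g).1 2 1 ≠ 0 := by
      have h5 : ((tv ![0, 0, 1] ![0, 1, 0] * g) • ![0, 1, 0]) 2 = (tv ![0, 0, 1] ![0, 1, 0] * g).1 2 1 := by
        rw [smul_apply]
        simp only [cons_val_zero, cons_val_one, cons_val_two, mul_zero, mul_one, zero_add, tail_cons, head_cons]
        simp
      rw [← h5, mul_smul, tv_apply hM]
      simp only [smul_apply]
      simp [hc]
      intro h6
      rw [h6, hc] at hdet
      simp at hdet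
    have h5 := mem_of_c_ne h h3 h4
    have h6 := X.mul_mem (X.inv_mem hmX) h5
    rwa [inv_mul_cancel_left] at h6
  · exact mem_of_c_ne h hg hc

/-! ### overgroups of the group of upper unitriangular matrices -/

/-- the first basis vector -/
def e1 : Fin 3 → F := ![1, 0, 0]

/-- the last row vector -/
def e3 : Fin 3 → F := ![0, 0, 1]

@[simp] theorem e1_zero : (e1 : Fin 3 → F) 0 = 1 := rfl
@[simp] theorem e1_one : (e1 : Fin 3 → F) 1 = 0 := rfl
@[simp] theorem e1_two : (e1 : Fin 3 → F) 2 = 0 := rfl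
@[simp] theorem e3_zero : (e3 : Fin 3 → F) 0 = 0 := rfl
@[simp] theorem e3_one : (e3 : Fin 3 → F) 1 = 0 := rfl
@[simp] theorem e3_two : (e3 : Fin 3 → F) 2 = 1 := rfl

theorem ext3 {u v : Fin 3 → F} (h0 : u 0 = v 0) (h1 : u 1 = v 1) (h2 : u 2 = v 2) : u = v := by
  funext i
  fin_cases i
  · exact h0
  · exact h1
  · exact h2

theorem row_tv_apply {v φ : Fin 3 → F} (h : φ ⬝ᵥ v = 0) (ψ : Fin 3 → F) (i : Fin 3) :
    row ψ (tv v φ) i = ψ i + (ψ 0 * v 0 + ψ 1 * v 1 + ψ 2 * v 2) * φ i := by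
  rw [row_tv h, Pi.add_apply, Pi.smul_apply, smul_eq_mul, dot_apply]

theorem dot_e1 (φ : Fin 3 → F) : φ ⬝ᵥ e1 = φ 0 := by simp [dot_apply]

theorem e3_dot (v : Fin 3 → F) : e3 ⬝ᵥ v = v 2 := by simp [dot_apply]

theorem e1_ne : (e1 : Fin 3 → F) ≠ 0 := fun h => by simpa using congrFun h 0

theorem e3_ne : (e3 : Fin 3 → F) ≠ 0 := fun h => by simpa using congrFun h 2

theorem smul_ap (c : F) (v : Fin 3 → F) (i : Fin 3) : (c • v) i = c * v i := rfl

theorem ax_of {X : Subgroup (S F)} (hL : Ax X (e3 : Fin 3 → F))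
    (hfix : ∀ g ∈ X, ∃ μ : F, g • (e1 : Fin 3 → F) = μ • e1)
    (hmove : ∃ g ∈ X, ¬ ∃ μ : F, row e3 g = μ • e3) : ∀ φ : Fin 3 → F, φ ⬝ᵥ e1 = 0 → Ax X φ := by
  obtain ⟨g, hg, hg3⟩ := hmove
  obtain ⟨μ, hμ⟩ := hfix g hg
  set α := row (e3 : Fin 3 → F) g with hα
  have h0 : α 0 = 0 := by
    rw [← dot_e1 α, hα, row_dot, hμ, dotProduct_smul, dot_e1]
    simp
  have h1 : α 1 ≠ 0 := by
    intro h1
    exact hg3 ⟨α 2, ext3 (by simp [smul_ap, h0]) (by simp [smul_ap, h1]) (by simp [smul_ap])⟩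
  intro φ hφ
  have hφ0 : φ 0 = 0 := by rwa [dot_e1] at hφ
  by_cases h2 : φ 1 = 0
  · have : φ = φ 2 • e3 := ext3 (by simp [smul_ap, hφ0]) (by simp [smul_ap, h2]) (by simp [smul_ap])
    rw [this]
    exact hL.smul _
  · -- conjugate by an element of the unitriangular group
    have ht : (e3 : Fin 3 → F) ⬝ᵥ ![0, (φ 2 * α 1 / φ 1 - α 2) / α 1, 0] = 0 := by
      rw [e3_dot]; rfl
    have hu := hL _ ht
    have h3 := ((hL.conj hg).conj hu).smul (φ 1 / α 1)
    rw [← hα] at h3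
    have h4 : (φ 1 / α 1) • row α (tv ![0, (φ 2 * α 1 / φ 1 - α 2) / α 1, 0] e3) = φ := by
      apply ext3
      · rw [smul_ap, row_tv_apply ht]
        simp [h0, hφ0]
      · rw [smul_ap, row_tv_apply ht]
        simp
        field_simp
      · rw [smul_ap, row_tv_apply ht]
        simp
        field_simp
        ring
    rwa [h4] at h3

theorem ce_of {X : Subgroup (S F)} (hE : Ce X (e1 : Fin 3 → F))
    (hfix : ∀ g ∈ X, ∃ μ : F, row (e3 : Fin 3 → F) g = μ • e3)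
    (hmove : ∃ g ∈ X, ¬ ∃ μ : F, g • (e1 : Fin 3 → F) = μ • e1) : ∀ v : Fin 3 → F, e3 ⬝ᵥ v = 0 → Ce X v := by
  obtain ⟨g, hg, hg3⟩ := hmove
  obtain ⟨μ, hμ⟩ := hfix g hg
  set u := g • (e1 : Fin 3 → F) with hu
  have h0 : u 2 = 0 := by
    rw [← e3_dot u, hu, ← row_dot, hμ, smul_dotProduct, e3_dot]
    simp
  have h1 : u 1 ≠ 0 := by
    intro h1
    exact hg3 ⟨u 0, ext3 (by simp [smul_ap]) (by simp [smul_ap, h1]) (by simp [smul_ap, h0])⟩
  intro v hv
  have hv2 : v 2 = 0 := by rwa [e3_dot] at hv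
  by_cases h2 : v 1 = 0
  · have : v = v 0 • e1 := ext3 (by simp [smul_ap]) (by simp [smul_ap, h2]) (by simp [smul_ap, hv2])
    rw [this]
    exact hE.smul _
  · have ht : (![0, (v 0 * u 1 / v 1 - u 0) / u 1, 0] : Fin 3 → F) ⬝ᵥ e1 = 0 := by
      rw [dot_e1]; rfl
    have hk := hE _ ht
    have h3 := ((hE.conj hg).conj hk).smul (v 1 / u 1)
    rw [← hu] at h3
    have h4 : (v 1 / u 1) • (tv e1 ![0, (v 0 * u 1 / v 1 - u 0) / u 1, 0] • u) = v := by
      apply ext3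
      · rw [smul_ap, tv_apply ht]
        simp
        field_simp
        ring
      · rw [smul_ap, tv_apply ht]
        simp
        field_simp
      · rw [smul_ap, tv_apply ht]
        simp [h0, hv2]
    rwa [h4] at h3

theorem exists_third {X : Subgroup (S F)} (h1 : ∃ g ∈ X, ¬ ∃ μ : F, g • (e1 : Fin 3 → F) = μ • e1)
    (h2 : ∃ g ∈ X, ¬ ∃ μ : F, row (e3 : Fin 3 → F) g = μ • e3) : ∃ g ∈ X, (g • (e1 : Fin 3 → F)) 2 ≠ 0 := by
  by_contra hc
  push Not at hc
  obtain ⟨g, hg, hg1⟩ := h1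
  obtain ⟨h, hh, hh1⟩ := h2
  apply hh1
  have e0 : ∀ k ∈ X, k.1 2 0 = 0 := by
    intro k hk
    have := hc k hk
    rw [smul_apply] at this
    simpa using this
  have hg2 := hc g hg
  have h3 := hc (h * g) (X.mul_mem hh hg)
  rw [mul_smul, smul_apply, e0 h hh, hg2] at h3
  simp only [zero_mul, mul_zero, zero_add, add_zero] at h3
  have hy : (g • (e1 : Fin 3 → F)) 1 ≠ 0 := by
    intro hy
    exact hg1 ⟨(g • (e1 : Fin 3 → F)) 0, ext3 (by simp [smul_ap]) (by simp [smul_ap, hy]) (by simp [smul_ap, hg2])⟩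
  have h4 : h.1 2 1 = 0 := (mul_eq_zero.1 h3).resolve_right hy
  refine ⟨h.1 2 2, ext3 ?_ ?_ ?_⟩
  · rw [row_apply]; simp [smul_ap, e0 h hh]
  · rw [row_apply]; simp [smul_ap, h4]
  · rw [row_apply]; simp [smul_ap]

theorem top_of {X : Subgroup (S F)} (hE : Ce X (e1 : Fin 3 → F)) (hL : Ax X (e3 : Fin 3 → F))
    (h1 : ∃ g ∈ X, ¬ ∃ μ : F, g • (e1 : Fin 3 → F) = μ • e1)
    (h2 : ∃ g ∈ X, ¬ ∃ μ : F, row (e3 : Fin 3 → F) g = μ • e3) : X = ⊤ := by
  obtain ⟨g, hg, hg2⟩ := exists_third h1 h2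
  apply top_of_ax
  -- rows with nonzero first coordinate
  have hA : ∀ φ : Fin 3 → F, φ 0 ≠ 0 → Ax X φ := by
    intro φ hφ
    set α := row (e3 : Fin 3 → F) g with hα
    have h0 : α 0 ≠ 0 := by
      have : α 0 = (g • (e1 : Fin 3 → F)) 2 := by
        rw [hα, row_apply, smul_apply]
        simp
      rw [this]
      exact hg2
    have ht : (![0, (φ 1 * α 0 / φ 0 - α 1) / α 0, (φ 2 * α 0 / φ 0 - α 2) / α 0] : Fin 3 → F) ⬝ᵥ e1 = 0 := by
      rw [dot_e1]; rfl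
    have h3 := ((hL.conj hg).conj (hE _ ht)).smul (φ 0 / α 0)
    rw [← hα] at h3
    have h4 : (φ 0 / α 0) • row α (tv e1 ![0, (φ 1 * α 0 / φ 0 - α 1) / α 0, (φ 2 * α 0 / φ 0 - α 2) / α 0]) = φ := by
      apply ext3
      · rw [smul_ap, row_tv_apply ht]
        simp
        field_simp
      · rw [smul_ap, row_tv_apply ht]
        simp
        field_simp
        ring
      · rw [smul_ap, row_tv_apply ht]
        simp
        field_simp
        ring
    rwa [h4] at h3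
  intro φ
  by_cases hφ : φ 0 = 0
  · by_cases hφ0 : φ = 0
    · have := (hA e1 (by simp)).smul 0
      rw [zero_smul] at this
      rwa [hφ0]
    · obtain ⟨w, hw0, hw⟩ : ∃ w : Fin 3 → F, w 0 = 0 ∧ φ 1 * w 1 + φ 2 * w 2 = 1 := by
        by_cases hx : φ 1 = 0
        · have hy : φ 2 ≠ 0 := by
            intro hy
            exact hφ0 (ext3 (by simpa using hφ) (by simpa using hx) (by simpa using hy))
          exact ⟨![0, 0, (φ 2)⁻¹], by simp, by simp [hy]⟩
        · exact ⟨![0, (φ 1)⁻¹, 0], by simp, by simp [hx]⟩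
      have ht : (e1 : Fin 3 → F) ⬝ᵥ w = 0 := by rw [dotProduct_comm, dot_e1, hw0]
      have h3 := hA (φ - e1) (by simp [hφ])
      have h4 := h3.conj (hA e1 (by simp) w ht)
      rw [row_tv ht] at h4
      have h5 : (φ - e1) ⬝ᵥ w = 1 := by
        rw [sub_dotProduct, ht, sub_zero, dot_apply, hφ, zero_mul, zero_add, hw]
      rw [h5, one_smul, sub_add_cancel] at h4
      exact h4
  · exact hA φ hφ

end Cfsg.Agent.H438.SLThree
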