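import Mathlib
import Cfsg.Agent.H438.SLThreeU
import Cfsg.Agent.H438.SLThreeZB

/-!
# The affine case, I: coordinates (helper438, S3727)
-/

set_option autoImplicit false
set_option linter.unusedSectionVars false
set_option linter.unusedSimpArgs false

namespace Cfsg.Agent.H438.SLThree

open Matrix MulAction
open scoped Pointwise

variable {F : Type*} [Field F] {G Ω : Type*} [Group G] [MulAction G Ω]

variable {ρ : Ω → (S F →* G)}

/-- coordinates at `a` -/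
structure Crd (ρ : Ω → (S F →* G)) (a : Ω) (β : (Fin 3 → F) ≃ Ω) : Prop where
  zero : β 0 = a
  act : ∀ (g : S F) (v : Fin 3 → F), ρ a g • β v = β (g • v)
  pt : ∀ v, v ≠ 0 → Pt (Xs (ρ a) (β v)) v

namespace Cfg

variable [Finite F] [CharP F 2] [Finite (S F)] [Finite G] [Finite Ω]

theorem A_of_card (c : Cfg ρ) (hP : TypePt ρ) (hΩ : Nat.card Ω = Nat.card F ^ 3) (a : Ω) :
    Nat.card {b : Ω // Pt (Xs (ρ a) b) e1} = Nat.card F - 1 := by
  have h := c.card_eq hP a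
  have hq := q_sub F
  rw [hΩ] at h
  obtain ⟨r, hr⟩ : ∃ r, Nat.card F = r + 1 := ⟨Nat.card F - 1, by omega⟩
  rw [hr] at h ⊢
  have h1 : (r + 1) ^ 3 = 1 + ((r + 1) ^ 2 + (r + 1) + 1) * r := by ring
  rw [h1] at h
  have h2 := Nat.add_left_cancel h
  rw [Nat.add_sub_cancel]
  exact (Nat.eq_of_mul_eq_mul_left (by positivity) h2).symm

theorem ev_one (c : Cfg ρ) (hP : TypePt ρ) (hΩ : Nat.card Ω = Nat.card F ^ 3) {a b : Ω} {v : Fin 3 → F}
    (h : Pt (Xs (ρ a) b) v) {μ : F} (hμ : EV (ρ a) b v μ) : μ = 1 := by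
  by_contra hμ1
  have h1 := c.A_one hP h hμ hμ1 a
  rw [c.A_of_card hP hΩ a] at h1
  have h2 : Nat.card F = 2 := by omega
  apply hμ1
  apply one_of_ne h2
  rintro rfl
  obtain ⟨g, -, hg⟩ := hμ
  rw [zero_smul] at hg
  exact smul_ne' h.1 g hg

open Classical in
theorem exists_crd (c : Cfg ρ) (hP : TypePt ρ) (hΩ : Nat.card Ω = Nat.card F ^ 3) (a : Ω) :
    ∃ β : (Fin 3 → F) ≃ Ω, Crd ρ a β := by
  obtain ⟨b0, hb0⟩ := c.A_pos hP a e1_ne
  let β0 : (Fin 3 → F) → Ω := fun v => if h : v = 0 then a else ρ a (Classical.choose (exists_smul h)) • b0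
  have hβ0 : ∀ v (h : v ≠ 0), β0 v = ρ a (Classical.choose (exists_smul h)) • b0 := fun v h => dif_neg h
  have hzero : β0 0 = a := dif_pos rfl
  have hact : ∀ (g : S F) (v : Fin 3 → F), ρ a g • β0 v = β0 (g • v) := by
    intro g v
    by_cases hv : v = 0
    · rw [hv, smul_zero, hzero, c.fix]
    have hgv : g • v ≠ 0 := smul_ne' hv g
    rw [hβ0 v hv, hβ0 _ hgv]
    have h1 := Classical.choose_spec (exists_smul hv)
    have h2 := Classical.choose_spec (exists_smul hgv)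
    set k := Classical.choose (exists_smul hv)
    set k' := Classical.choose (exists_smul hgv)
    have h3 : k'⁻¹ * g * k ∈ Xs (ρ a) b0 := by
      apply hb0.2.2
      rw [mul_smul, mul_smul, h1, ← h2, inv_smul_smul]
    have h4 : ρ a (k'⁻¹ * g * k) • b0 = b0 := h3
    rw [map_mul, map_mul, mul_smul, mul_smul, map_inv, inv_smul_eq_iff] at h4
    exact h4
  have hpt : ∀ v, v ≠ 0 → Pt (Xs (ρ a) (β0 v)) v := by
    intro v hv
    have h1 := Classical.choose_spec (exists_smul hv)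
    have h2 := hb0.conj (Xs_conj (ρ a) b0 (Classical.choose (exists_smul hv)))
    rw [h1] at h2
    rw [hβ0 v hv]
    exact h2
  have hinj : Function.Injective β0 := by
    intro v w he
    by_cases hv : v = 0 <;> by_cases hw : w = 0
    · rw [hv, hw]
    · exfalso
      rw [hv, hzero] at he
      exact c.ne_of_pt (hpt w hw) he.symm
    · exfalso
      rw [hw, hzero] at he
      exact c.ne_of_pt (hpt v hv) he
    · have h1 := hpt w hw
      rw [← he] at h1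
      obtain ⟨k, hk, rfl⟩ := (hpt v hv).par h1
      obtain ⟨k1, hk1⟩ := exists_smul hv
      obtain ⟨k2, hk2⟩ := exists_smul hw
      have h2 : (k2 * k1⁻¹) • v = k • v := by rw [mul_smul, ← hk1, inv_smul_smul, hk2, hk1]
      have h3 : k = 1 := by
        apply c.ev_one hP hΩ (hpt v hv)
        refine ⟨k2 * k1⁻¹, ?_, h2⟩
        rw [mem_Xs, hact, h2, ← he]
      rw [h3, one_smul]
  have hbij : Function.Bijective β0 := by
    rw [Nat.bijective_iff_injective_and_card]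
    exact ⟨hinj, by rw [card_vec, hΩ]⟩
  exact ⟨Equiv.ofBijective β0 hbij, hzero, hact, hpt⟩

end Cfg

/-- the blocks -/
def Bl (ρ : Ω → (S F →* G)) : Set (Set Ω) := {B | ∃ a φ, φ ≠ 0 ∧ B = Blk ρ a φ}

theorem Blk_mem {a : Ω} {φ : Fin 3 → F} (hφ : φ ≠ 0) : Blk ρ a φ ∈ Bl ρ := ⟨a, φ, hφ, rfl⟩

theorem self_mem_Blk {a : Ω} {φ : Fin 3 → F} : a ∈ Blk ρ a φ := Or.inl rfl

/-- the plane `φ = k` -/
def Pl (β : (Fin 3 → F) ≃ Ω) (φ : Fin 3 → F) (k : F) : Set Ω := {d | φ ⬝ᵥ β.symm d = k}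

theorem mem_Pl {β : (Fin 3 → F) ≃ Ω} {φ : Fin 3 → F} {k : F} {d : Ω} : d ∈ Pl β φ k ↔ φ ⬝ᵥ β.symm d = k := Iff.rfl

theorem card_Pl [Finite F] (β : (Fin 3 → F) ≃ Ω) {φ : Fin 3 → F} (hφ : φ ≠ 0) (k : F) :
    (Pl β φ k).ncard = Nat.card F ^ 2 := by
  obtain ⟨u, hu⟩ := exists_dot hφ
  rw [← card_perp hφ]
  change Nat.card {d : Ω // φ ⬝ᵥ β.symm d = k} = _
  apply Nat.card_congr
  refine (β.symm.trans (Equiv.subRight (k • u))).subtypeEquiv ?_
  intro d
  rw [Equiv.trans_apply, Equiv.subRight_apply, dotProduct_comm (β.symm d - k • u) φ, dotProduct_sub, dotProduct_smul, hu, smul_eq_mul,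
    mul_one, sub_eq_zero]

namespace Crd

variable {a : Ω} {β : (Fin 3 → F) ≃ Ω} (h : Crd ρ a β)

include h

theorem Blk_eq {φ : Fin 3 → F} : Blk ρ a φ = Pl β φ 0 := by
  ext d
  rw [mem_Blk, mem_Pl]
  obtain ⟨v, rfl⟩ := β.surjective d
  rw [Equiv.symm_apply_apply]
  constructor
  · rintro (h1 | ⟨w, h1, h2⟩)
    · rw [← h.zero] at h1
      rw [β.injective h1, dotProduct_zero]
    · by_cases hv : v = 0
      · rw [hv, dotProduct_zero]
      obtain ⟨k, hk, rfl⟩ := h1.par (h.pt v hv)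
      rw [dotProduct_smul, h2, smul_zero]
  · intro h1
    by_cases hv : v = 0
    · left
      rw [hv, h.zero]
    · right
      exact ⟨v, h.pt v hv, h1⟩

theorem tv_act {w φ : Fin 3 → F} (hd : φ ⬝ᵥ w = 0) (v : Fin 3 → F) : ρ a (tv w φ) • β v = β (v + (φ ⬝ᵥ v) • w) := by
  rw [h.act, tv_smul hd]

theorem symm_act (g : S F) (d : Ω) : β.symm (ρ a g • d) = g • β.symm d := by
  obtain ⟨v, rfl⟩ := β.surjective d
  rw [h.act, Equiv.symm_apply_apply, Equiv.symm_apply_apply]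

end Crd

theorem mem_smul_set' {x : G} {B : Set Ω} {d : Ω} : d ∈ x • B ↔ x⁻¹ • d ∈ B := Set.mem_smul_set_iff_inv_smul_mem

namespace Cfg

variable [Finite F] [CharP F 2] [Finite (S F)] [Finite G] [Finite Ω]

theorem smul_Bl (c : Cfg ρ) (hP : TypePt ρ) (y : G) {B : Set Ω} (hB : B ∈ Bl ρ) : y • B ∈ Bl ρ := by
  obtain ⟨a, φ, hφ, rfl⟩ := hB
  obtain ⟨φ', hφ', h⟩ := c.smul_blk hP y (a := a) hφ
  refine ⟨y • a, φ', hφ', ?_⟩
  ext d
  rw [mem_smul_set', ← h, smul_inv_smul]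

theorem card_Bl_mem (c : Cfg ρ) (hP : TypePt ρ) (hΩ : Nat.card Ω = Nat.card F ^ 3) {B : Set Ω} (hB : B ∈ Bl ρ) :
    B.ncard = Nat.card F ^ 2 := by
  obtain ⟨a, φ, hφ, rfl⟩ := hB
  have h := c.card_blk hP a hφ
  rw [c.A_of_card hP hΩ] at h
  have hq := q_sub F
  rw [← Nat.card_coe_set_eq, h]
  obtain ⟨r, hr⟩ : ∃ r, Nat.card F = r + 1 := ⟨Nat.card F - 1, by omega⟩
  rw [hr, Nat.add_sub_cancel]
  ring

/-- the number of blocks -/
theorem card_Bl (c : Cfg ρ) (hP : TypePt ρ) (hΩ : Nat.card Ω = Nat.card F ^ 3) :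
    Nat.card (Bl ρ) = Nat.card F * (Nat.card F ^ 2 + Nat.card F + 1) := by
  classical
  have hq := q_sub F
  have hc := dcount (α := Ω × (Fin 3 → F)) (β := Set Ω) (fun p B => p.2 ≠ 0 ∧ B = Blk ρ p.1 p.2) (fun p => p.2 ≠ 0)
    (c := 1) (m := Nat.card F ^ 2 * (Nat.card F - 1))
    (by
      rintro ⟨d, φ⟩ hφ
      have : Unique {B : Set Ω // φ ≠ 0 ∧ B = Blk ρ d φ} :=
        { default := ⟨Blk ρ d φ, hφ, rfl⟩
          uniq := fun B => Subtype.ext B.2.2 }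
      exact Nat.card_unique)
    (by
      rintro B ⟨⟨d0, φ0⟩, hφ0, -, hB⟩
      simp only at hφ0 hB
      have h1 : ∀ d : B, ∃ φ : Fin 3 → F, φ ≠ 0 ∧ B = Blk ρ d.1 φ := by
        rintro ⟨d, hd⟩
        rw [hB] at hd
        obtain ⟨φ', h2, h3⟩ := c.blk_change hP hφ0 hd
        exact ⟨φ', h2, hB.trans h3⟩
      choose f hf1 hf2 using h1
      have e : B × Fˣ ≃ {p : Ω × (Fin 3 → F) // p.2 ≠ 0 ∧ (p.2 ≠ 0 ∧ B = Blk ρ p.1 p.2)} := by
        refine Equiv.ofBijective (fun p => ⟨(p.1.1, (p.2 : F) • f p.1), smul_ne_zero p.2.ne_zero (hf1 _),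
          smul_ne_zero p.2.ne_zero (hf1 _), by rw [Blk_smul p.2.ne_zero]; exact hf2 _⟩) ⟨?_, ?_⟩
        · rintro ⟨d, s⟩ ⟨d', s'⟩ hdd
          have h2 : ((d : Ω), (s : F) • f d) = ((d' : Ω), (s' : F) • f d') := congrArg Subtype.val hdd
          have h3 : d = d' := Subtype.ext (congrArg Prod.fst h2)
          subst h3
          have h4 : (s : F) • f d = (s' : F) • f d := congrArg Prod.snd h2
          have h5 : s = s' := Units.ext (smul_left_injective F (hf1 d) h4)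
          rw [h5]
        · rintro ⟨⟨d, φ⟩, h2, -, h3⟩
          have hd : d ∈ B := by
            rw [h3]
            exact Or.inl rfl
          obtain ⟨k, hk, hk'⟩ := c.blk_par hP (hf1 ⟨d, hd⟩) h2 (by rw [← hf2 ⟨d, hd⟩]; exact h3)
          refine ⟨(⟨d, hd⟩, Units.mk0 k hk), ?_⟩
          apply Subtype.ext
          exact Prod.ext rfl hk'.symm
      rw [← Nat.card_congr e, Nat.card_prod, Nat.card_units]
      congr 1
      exact c.card_Bl_mem hP hΩ ⟨d0, φ0, hφ0, hB⟩)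
  have h1 : Nat.card {p : Ω × (Fin 3 → F) // p.2 ≠ 0} = Nat.card Ω * (Nat.card F ^ 3 - 1) := by
    rw [← card_ne, ← Nat.card_prod]
    apply Nat.card_congr
    exact
      { toFun := fun p => (p.1.1, ⟨p.1.2, p.2⟩)
        invFun := fun p => ⟨(p.1, p.2.1), p.2.2⟩
        left_inv := fun _ => rfl
        right_inv := fun _ => rfl }
  have h2 : Nat.card F ^ 3 - 1 = (Nat.card F ^ 2 + Nat.card F + 1) * (Nat.card F - 1) := by
    obtain ⟨r, hr⟩ : ∃ r, Nat.card F = r + 1 := ⟨Nat.card F - 1, by omega⟩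
    rw [hr, Nat.add_sub_cancel]
    have : (r + 1) ^ 3 = ((r + 1) ^ 2 + (r + 1) + 1) * r + 1 := by ring
    rw [this, Nat.add_sub_cancel]
  rw [h1, mul_one, h2, ← mul_assoc, ← mul_assoc, hΩ] at hc
  have h3 := Nat.eq_of_mul_eq_mul_right hq hc
  have h4 : Nat.card (Bl ρ) = Nat.card {B : Set Ω // ∃ p : Ω × (Fin 3 → F), p.2 ≠ 0 ∧ (p.2 ≠ 0 ∧ B = Blk ρ p.1 p.2)} := by
    apply Nat.card_congr
    refine Equiv.subtypeEquivRight fun B => ?_
    constructor
    · rintro ⟨a, φ, hφ, hB⟩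
      exact ⟨(a, φ), hφ, hφ, hB⟩
    · rintro ⟨⟨a, φ⟩, hφ, -, hB⟩
      exact ⟨a, φ, hφ, hB⟩
  rw [h4]
  have h5 : 0 < Nat.card F ^ 2 := pow_pos (by omega) 2
  apply Nat.eq_of_mul_eq_mul_right h5
  rw [← h3]
  ring

end Cfg

end Cfsg.Agent.H438.SLThree
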