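import Mathlib
import Cfsg.Agent.H438.SLThree

/-!
# The group `SL₃(F)`, II (helper438, S3727)

* `Pt X v`, `Ln X φ`, `Fl X v φ` : types of subgroups of `SL₃(F)`;
* `trichotomy` : every proper subgroup of odd index of `SL₃(F)`, `F` finite of characteristic 2, has one of these types.
-/

set_option autoImplicit false
set_option linter.unusedSectionVars false
set_option linter.unusedSimpArgs false

namespace Cfsg.Agent.H438.SLThree

open Matrix

variable {F : Type*} [Field F]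

/-- `X` lies in the stabiliser of `⟨v⟩` and contains the stabiliser of `v`. -/
def Pt (X : Subgroup (S F)) (v : Fin 3 → F) : Prop :=
  v ≠ 0 ∧ (∀ g ∈ X, ∃ μ : F, g • v = μ • v) ∧ ∀ g : S F, g • v = v → g ∈ X

/-- `X` lies in the stabiliser of `⟨φ⟩` and contains the stabiliser of `φ`. -/
def Ln (X : Subgroup (S F)) (φ : Fin 3 → F) : Prop :=
  φ ≠ 0 ∧ (∀ g ∈ X, ∃ μ : F, row φ g = μ • φ) ∧ ∀ g : S F, row φ g = φ → g ∈ X

/-- `X` lies in the stabiliser of the flag `(⟨v⟩, ⟨φ⟩)` and contains the unipotent radical. -/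
def Fl (X : Subgroup (S F)) (v φ : Fin 3 → F) : Prop :=
  v ≠ 0 ∧ φ ≠ 0 ∧ φ ⬝ᵥ v = 0 ∧ (∀ g ∈ X, ∃ μ : F, g • v = μ • v) ∧ (∀ g ∈ X, ∃ μ : F, row φ g = μ • φ) ∧
    Ce X v ∧ Ax X φ

/-! ### conjugation -/

section conj

variable {X Y : Subgroup (S F)} {h : S F}

theorem row_inv_row (φ : Fin 3 → F) (h : S F) : row (row φ h⁻¹) h = φ := by
  rw [← row_mul, inv_mul_cancel, row_one]

theorem row_row_inv (φ : Fin 3 → F) (h : S F) : row (row φ h) h⁻¹ = φ := by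
  rw [← row_mul, mul_inv_cancel, row_one]

theorem row_ne {φ : Fin 3 → F} (hφ : φ ≠ 0) (h : S F) : row φ h ≠ 0 := by
  intro h0
  apply hφ
  rw [← row_row_inv φ h, h0]
  unfold row
  exact zero_vecMul _

theorem smul_ne' {v : Fin 3 → F} (hv : v ≠ 0) (h : S F) : h • v ≠ 0 := by
  intro h0
  apply hv
  rw [← inv_smul_smul h v, h0, smul_zero]

theorem Ce.conj' (H : ∀ g, g ∈ Y ↔ h⁻¹ * g * h ∈ X) {v : Fin 3 → F} (hv : Ce X v) : Ce Y (h • v) := by
  intro ψ hψ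
  rw [H]
  have h1 : row ψ h ⬝ᵥ v = 0 := by rw [row_dot, hψ]
  have h2 := conj_tv hψ h⁻¹
  rw [inv_inv, inv_smul_smul] at h2
  rw [h2]
  exact hv _ h1

theorem Ax.conj' (H : ∀ g, g ∈ Y ↔ h⁻¹ * g * h ∈ X) {φ : Fin 3 → F} (hφ : Ax X φ) : Ax Y (row φ h⁻¹) := by
  intro w hw
  rw [H]
  have h1 : φ ⬝ᵥ (h⁻¹ • w) = 0 := by rw [← row_dot, hw]
  have h2 := conj_tv hw h⁻¹
  rw [inv_inv, row_inv_row] at h2
  rw [h2]
  exact hφ _ h1

theorem Pt.conj (H : ∀ g, g ∈ Y ↔ h⁻¹ * g * h ∈ X) {v : Fin 3 → F} (hv : Pt X v) : Pt Y (h • v) := by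
  refine ⟨smul_ne' hv.1 h, ?_, ?_⟩
  · intro g hg
    obtain ⟨μ, hμ⟩ := hv.2.1 _ ((H g).1 hg)
    refine ⟨μ, ?_⟩
    rw [mul_smul, mul_smul, inv_smul_eq_iff, smul_smul_comm'] at hμ
    exact hμ
  · intro g hg
    rw [H]
    apply hv.2.2
    rw [mul_smul, mul_smul, hg, inv_smul_smul]

theorem Ln.conj (H : ∀ g, g ∈ Y ↔ h⁻¹ * g * h ∈ X) {φ : Fin 3 → F} (hφ : Ln X φ) : Ln Y (row φ h⁻¹) := by
  refine ⟨row_ne hφ.1 _, ?_, ?_⟩
  · intro g hg
    obtain ⟨μ, hμ⟩ := hφ.2.1 _ ((H g).1 hg)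
    refine ⟨μ, ?_⟩
    have h1 := congrArg (fun ψ => row ψ h⁻¹) hμ
    simp only [row_mul, row_row_inv, row_smul] at h1
    exact h1
  · intro g hg
    rw [H]
    apply hφ.2.2
    rw [row_mul, row_mul, hg, row_inv_row]

theorem Fl.conj (H : ∀ g, g ∈ Y ↔ h⁻¹ * g * h ∈ X) {v φ : Fin 3 → F} (hv : Fl X v φ) :
    Fl Y (h • v) (row φ h⁻¹) := by
  obtain ⟨h1, h2, h3, h4, h5, h6, h7⟩ := hv
  refine ⟨smul_ne' h1 h, row_ne h2 _, by rw [dot_inv, h3], ?_, ?_, h6.conj' H, h7.conj' H⟩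
  · intro g hg
    obtain ⟨μ, hμ⟩ := h4 _ ((H g).1 hg)
    refine ⟨μ, ?_⟩
    rw [mul_smul, mul_smul, inv_smul_eq_iff, smul_smul_comm'] at hμ
    exact hμ
  · intro g hg
    obtain ⟨μ, hμ⟩ := h5 _ ((H g).1 hg)
    refine ⟨μ, ?_⟩
    have h1 := congrArg (fun ψ => row ψ h⁻¹) hμ
    simp only [row_mul, row_row_inv, row_smul] at h1
    exact h1

end conj

/-! ### transitivity -/

/-- a diagonal matrix -/
def dg (x y z : F) (h : x * y * z = 1) : S F := ⟨diagonal ![x, y, z], by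
  rw [det_diagonal, Fin.prod_univ_three]
  simpa using h⟩

theorem dg_apply (x y z : F) (h : x * y * z = 1) (w : Fin 3 → F) :
    (dg x y z h) • w = ![x * w 0, y * w 1, z * w 2] := by
  rw [smul_eq]
  change diagonal ![x, y, z] *ᵥ w = _
  apply ext3 <;> rw [mulVec_diagonal] <;> rfl

theorem row_dg (x y z : F) (h : x * y * z = 1) (w : Fin 3 → F) :
    row w (dg x y z h) = ![x * w 0, y * w 1, z * w 2] := by
  unfold row
  change w ᵥ* diagonal ![x, y, z] = _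
  apply ext3 <;> rw [vecMul_diagonal, mul_comm] <;> rfl

theorem exists_smul {v : Fin 3 → F} (hv : v ≠ 0) : ∃ h : S F, h • (e1 : Fin 3 → F) = v := by
  by_cases h1 : v 1 = 0 ∧ v 2 = 0
  · have h0 : v 0 ≠ 0 := by
      intro h0
      exact hv (ext3 h0 h1.1 h1.2)
    refine ⟨dg (v 0) (v 0)⁻¹ 1 (by field_simp), ?_⟩
    rw [dg_apply]
    apply ext3
    · simp
    · simp [h1.1]
    · simp [h1.2]
  · obtain ⟨y, z, hyz⟩ : ∃ y z : F, v 0 + y * v 1 + z * v 2 = 1 := by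
      by_cases h2 : v 1 = 0
      · have h3 : v 2 ≠ 0 := fun h3 => h1 ⟨h2, h3⟩
        exact ⟨0, (1 - v 0) / v 2, by field_simp; ring⟩
      · exact ⟨(1 - v 0) / v 1, 0, by field_simp; ring⟩
    have ht : (![1, y, z] : Fin 3 → F) ⬝ᵥ (v - e1) = 0 := by
      rw [dot_apply]
      simp
      linear_combination hyz
    refine ⟨tv (v - e1) ![1, y, z], ?_⟩
    rw [tv_smul ht, dot_e1]
    simp

theorem exists_flag {v φ : Fin 3 → F} (hv : v ≠ 0) (hφ : φ ≠ 0) (hd : φ ⬝ᵥ v = 0) :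
    ∃ h : S F, h • (e1 : Fin 3 → F) = v ∧ row e3 h⁻¹ = φ := by
  obtain ⟨h1, hh1⟩ := exists_smul hv
  set ψ := row φ h1 with hψ
  have h0 : ψ 0 = 0 := by
    rw [← dot_e1 ψ, hψ, row_dot, hh1, hd]
  have hψ0 : ψ ≠ 0 := row_ne hφ h1
  obtain ⟨h2, hh2, hh3⟩ : ∃ h : S F, h • (e1 : Fin 3 → F) = e1 ∧ row ψ h = e3 := by
    by_cases hx : ψ 1 = 0
    · have hy : ψ 2 ≠ 0 := fun hy => hψ0 (ext3 h0 hx hy)
      refine ⟨dg 1 (ψ 2) (ψ 2)⁻¹ (by field_simp), ?_, ?_⟩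
      · rw [dg_apply]
        apply ext3 <;> simp
      · rw [row_dg]
        apply ext3
        · simp [h0]
        · simp [hx]
        · simp [hy]
    · have ht : (e3 - ψ) ⬝ᵥ ![0, (1 - ψ 2) / ψ 1, 1] = 0 := by
        rw [dot_apply]
        simp
        field_simp
        ring
      refine ⟨tv ![0, (1 - ψ 2) / ψ 1, 1] (e3 - ψ), ?_, ?_⟩
      · rw [tv_smul ht, dot_e1]
        simp [h0]
      · rw [row_tv ht]
        have : ψ ⬝ᵥ ![0, (1 - ψ 2) / ψ 1, 1] = 1 := by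
          rw [dot_apply]
          simp
          field_simp
          ring
        rw [this]
        simp
  refine ⟨h1 * h2, by rw [mul_smul, hh2, hh1], ?_⟩
  rw [_root_.mul_inv_rev, row_mul, ← hh3, row_row_inv, hψ, row_row_inv]

/-! ### duality -/

/-- The inverse transpose automorphism. -/
def dual : S F →* S F where
  toFun g := (g⁻¹).transpose
  map_one' := by
    apply Subtype.ext
    rw [inv_one]
    change ((1 : Matrix (Fin 3) (Fin 3) F))ᵀ = 1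
    exact transpose_one
  map_mul' g h := by
    apply Subtype.ext
    rw [_root_.mul_inv_rev]
    change (h⁻¹.1 * g⁻¹.1)ᵀ = g⁻¹.1ᵀ * h⁻¹.1ᵀ
    exact transpose_mul _ _

theorem dual_smul (g : S F) (v : Fin 3 → F) : dual g • v = row v g⁻¹ := by
  rw [smul_eq]
  change g⁻¹.1ᵀ *ᵥ v = v ᵥ* g⁻¹.1
  exact mulVec_transpose _ _

theorem row_dual (g : S F) (φ : Fin 3 → F) : row φ (dual g) = g⁻¹ • φ := by
  rw [smul_eq]
  change φ ᵥ* g⁻¹.1ᵀ = g⁻¹.1 *ᵥ φ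
  exact vecMul_transpose _ _

theorem dual_dual (g : S F) : dual (dual g) = g := by
  apply ext_smul
  intro v
  rw [dual_smul, ← map_inv, row_dual, inv_inv]

theorem dual_tv {v φ : Fin 3 → F} (h : φ ⬝ᵥ v = 0) : dual (tv v φ) = tv φ (-v) := by
  have h1 : (-v) ⬝ᵥ φ = 0 := by rw [neg_dotProduct, dotProduct_comm, h, neg_zero]
  have h2 : φ ⬝ᵥ (-v) = 0 := by rw [dotProduct_neg, h, neg_zero]
  have h3 : (tv v φ)⁻¹ = tv (-v) φ := by
    rw [inv_eq_iff_mul_eq_one]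
    apply ext_smul
    intro w
    rw [mul_smul, tv_smul h2, tv_smul h, dotProduct_add, dotProduct_smul, h2, smul_zero, add_zero, one_smul]
    simp
  apply ext_smul
  intro w
  rw [dual_smul, h3, row_tv h2, tv_smul h1, dotProduct_comm]

theorem stab_of_ax' {X : Subgroup (S F)} {v : Fin 3 → F} (hv : v ≠ 0) (h : ∀ φ, φ ⬝ᵥ v = 0 → Ax X φ) {g : S F}
    (hg : g • v = v) : g ∈ X := by
  obtain ⟨k, hk⟩ := exists_smul hv
  set Y : Subgroup (S F) := X.comap (MulAut.conj k).toMonoidHom with hY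
  have H : ∀ g, g ∈ Y ↔ (k⁻¹)⁻¹ * g * k⁻¹ ∈ X := by
    intro g
    rw [hY, Subgroup.mem_comap, inv_inv]
    rfl
  have h1 : k⁻¹ * g * k ∈ Y := by
    apply stab_of_ax
    · intro φ hφ
      have h2 := h (row φ k⁻¹) (by rw [← hk, dot_inv]; exact hφ)
      have h3 := h2.conj' H
      rwa [inv_inv, row_inv_row] at h3
    · change (k⁻¹ * g * k) • e1 = e1
      rw [mul_smul, mul_smul, hk, hg, ← hk, inv_smul_smul]
  rw [H] at h1
  have : (k⁻¹)⁻¹ * (k⁻¹ * g * k) * k⁻¹ = g := by group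
  rwa [this] at h1

theorem stab_of_ce {X : Subgroup (S F)} {φ : Fin 3 → F} (hφ : φ ≠ 0) (h : ∀ v, φ ⬝ᵥ v = 0 → Ce X v) {g : S F}
    (hg : row φ g = φ) : g ∈ X := by
  have h1 : dual g ∈ X.comap dual := by
    apply stab_of_ax' hφ
    · intro ψ hψ w hw
      rw [Subgroup.mem_comap, dual_tv hw]
      apply h
      · rw [dotProduct_comm, hψ]
      · rw [neg_dotProduct, dotProduct_comm, hw, neg_zero]
    · rw [dual_smul]
      nth_rewrite 1 [← hg]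
      rw [row_row_inv]
  rw [Subgroup.mem_comap, dual_dual] at h1
  exact h1

/-! ### uniqueness -/

theorem sep {v w : Fin 3 → F} (hv : v ≠ 0) (h : ∀ ψ : Fin 3 → F, ψ ⬝ᵥ v = 0 → ψ ⬝ᵥ w = 0) : ∃ c : F, w = c • v := by
  have h1 := h ![v 1, -v 0, 0] (by rw [dot_apply]; simp; ring)
  have h2 := h ![v 2, 0, -v 0] (by rw [dot_apply]; simp; ring)
  have h3 := h ![0, v 2, -v 1] (by rw [dot_apply]; simp; ring)
  rw [dot_apply] at h1 h2 h3
  simp at h1 h2 h3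
  by_cases e0 : v 0 = 0
  · by_cases e1' : v 1 = 0
    · have e2 : v 2 ≠ 0 := fun e2 => hv (ext3 e0 e1' e2)
      refine ⟨w 2 / v 2, ext3 ?_ ?_ ?_⟩
      · rw [smul_ap]; field_simp; linear_combination h2
      · rw [smul_ap]; field_simp; linear_combination h3
      · rw [smul_ap]; field_simp
    · refine ⟨w 1 / v 1, ext3 ?_ ?_ ?_⟩
      · rw [smul_ap]; field_simp; linear_combination h1
      · rw [smul_ap]; field_simp
      · rw [smul_ap]; field_simp; linear_combination -h3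
  · refine ⟨w 0 / v 0, ext3 ?_ ?_ ?_⟩
    · rw [smul_ap]; field_simp
    · rw [smul_ap]; field_simp; linear_combination -h1
    · rw [smul_ap]; field_simp; linear_combination -h2

theorem cen_unique {X : Subgroup (S F)} {v w : Fin 3 → F} (hv : v ≠ 0) (hC : Ce X v)
    (hw : ∀ g ∈ X, ∃ μ : F, g • w = μ • w) : ∃ c : F, w = c • v := by
  by_contra hne
  have h1 : ¬ ∀ ψ : Fin 3 → F, ψ ⬝ᵥ v = 0 → ψ ⬝ᵥ w = 0 := fun h => hne (sep hv h)
  push Not at h1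
  obtain ⟨ψ, hψ, hψw⟩ := h1
  obtain ⟨μ, hμ⟩ := hw _ (hC ψ hψ)
  rw [tv_smul hψ] at hμ
  -- `ψ(w) v = (μ - 1) w`
  have h2 : (ψ ⬝ᵥ w) • v = (μ - 1) • w := by
    rw [sub_smul, one_smul, ← hμ]; simp
  have h3 : μ - 1 ≠ 0 := by
    intro h3
    rw [h3, zero_smul] at h2
    exact (smul_ne_zero hψw hv) h2
  apply hne
  refine ⟨(μ - 1)⁻¹ * (ψ ⬝ᵥ w), ?_⟩
  rw [mul_smul, h2, smul_smul, inv_mul_cancel₀ h3, one_smul]

theorem ax_unique {X : Subgroup (S F)} {φ ψ : Fin 3 → F} (hφ : φ ≠ 0) (hA : Ax X φ)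
    (hψ : ∀ g ∈ X, ∃ μ : F, row ψ g = μ • ψ) : ∃ c : F, ψ = c • φ := by
  by_contra hne
  have h1 : ¬ ∀ w : Fin 3 → F, w ⬝ᵥ φ = 0 → w ⬝ᵥ ψ = 0 := fun h => hne (sep hφ h)
  push Not at h1
  obtain ⟨w, hw, hwψ⟩ := h1
  rw [dotProduct_comm] at hw hwψ
  obtain ⟨μ, hμ⟩ := hψ _ (hA w hw)
  rw [row_tv hw] at hμ
  have h2 : (ψ ⬝ᵥ w) • φ = (μ - 1) • ψ := by
    rw [sub_smul, one_smul, ← hμ]; simp
  have h3 : μ - 1 ≠ 0 := by
    intro h3
    rw [h3, zero_smul] at h2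
    exact (smul_ne_zero hwψ hφ) h2
  apply hne
  refine ⟨(μ - 1)⁻¹ * (ψ ⬝ᵥ w), ?_⟩
  rw [mul_smul, h2, smul_smul, inv_mul_cancel₀ h3, one_smul]

theorem Pt.ce {X : Subgroup (S F)} {v : Fin 3 → F} (h : Pt X v) : Ce X v := by
  intro ψ hψ
  apply h.2.2
  rw [tv_smul hψ, hψ, zero_smul, add_zero]

theorem Pt.ax {X : Subgroup (S F)} {v : Fin 3 → F} (h : Pt X v) {φ : Fin 3 → F} (hφ : φ ⬝ᵥ v = 0) : Ax X φ := by
  intro w hw
  apply h.2.2
  rw [tv_smul hw, hφ, zero_smul, add_zero]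

theorem Ln.ax {X : Subgroup (S F)} {φ : Fin 3 → F} (h : Ln X φ) : Ax X φ := by
  intro w hw
  apply h.2.2
  rw [row_tv hw, hw, zero_smul, add_zero]

theorem Ln.ce {X : Subgroup (S F)} {φ : Fin 3 → F} (h : Ln X φ) {v : Fin 3 → F} (hv : φ ⬝ᵥ v = 0) : Ce X v := by
  intro ψ hψ
  apply h.2.2
  rw [row_tv hψ, hv, zero_smul, add_zero]

/-- a subgroup of type `Pt` fixes no line -/
theorem Pt.not_row {X : Subgroup (S F)} {v : Fin 3 → F} (h : Pt X v) {φ : Fin 3 → F} (hφ : φ ≠ 0)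
    (hX : ∀ g ∈ X, ∃ μ : F, row φ g = μ • φ) : False := by
  have key : ∀ ψ : Fin 3 → F, ψ ⬝ᵥ v = 0 → ψ ≠ 0 → ∃ c : F, φ = c • ψ := fun ψ hψ hψ0 =>
    ax_unique hψ0 (h.ax hψ) hX
  have k1 := key ![v 1, -v 0, 0] (by rw [dot_apply]; simp; ring)
  have k2 := key ![v 2, 0, -v 0] (by rw [dot_apply]; simp; ring)
  have k3 := key ![0, v 2, -v 1] (by rw [dot_apply]; simp; ring)
  by_cases e0 : v 0 = 0
  · by_cases e1' : v 1 = 0
    · have e2 : v 2 ≠ 0 := fun e2 => h.1 (ext3 e0 e1' e2)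
      obtain ⟨c, hc⟩ := k2 (fun h0 => e2 (by simpa using congrFun h0 0))
      obtain ⟨d, hd⟩ := k3 (fun h0 => e2 (by simpa using congrFun h0 1))
      have h0 : φ 0 = 0 := by rw [hd]; simp
      have h1 : φ 1 = 0 := by rw [hc]; simp
      have h2 : c = 0 := by
        have := congrFun hc 0
        rw [h0] at this
        simpa [e2] using this
      apply hφ
      rw [hc, h2, zero_smul]
    · obtain ⟨c, hc⟩ := k1 (fun h0 => e1' (by simpa using congrFun h0 0))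
      obtain ⟨d, hd⟩ := k3 (fun h0 => e1' (by simpa using congrFun h0 2))
      have h0 : φ 0 = 0 := by rw [hd]; simp
      have h2 : c = 0 := by
        have := congrFun hc 0
        rw [h0] at this
        simpa [e1'] using this
      apply hφ
      rw [hc, h2, zero_smul]
  · obtain ⟨c, hc⟩ := k1 (fun h0 => e0 (by simpa using congrFun h0 1))
    obtain ⟨d, hd⟩ := k2 (fun h0 => e0 (by simpa using congrFun h0 2))
    have h0 : φ 1 = 0 := by rw [hd]; simp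
    have h2 : c = 0 := by
      have := congrFun hc 1
      rw [h0] at this
      simpa [e0] using this
    apply hφ
    rw [hc, h2, zero_smul]

/-! ### the trichotomy -/

theorem trich {X : Subgroup (S F)} (hE : Ce X (e1 : Fin 3 → F)) (hL : Ax X (e3 : Fin 3 → F)) (hX : X ≠ ⊤) :
    Pt X e1 ∨ Ln X e3 ∨ Fl X e1 e3 := by
  by_cases hA : ∀ g ∈ X, ∃ μ : F, g • (e1 : Fin 3 → F) = μ • e1
  · by_cases hB : ∀ g ∈ X, ∃ μ : F, row (e3 : Fin 3 → F) g = μ • e3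
    · exact Or.inr (Or.inr ⟨e1_ne, e3_ne, by rw [dot_e1]; simp, hA, hB, hE, hL⟩)
    · push Not at hB
      obtain ⟨g, hg, hg2⟩ := hB
      have h1 := ax_of hL hA ⟨g, hg, fun ⟨μ, hμ⟩ => hg2 μ hμ⟩
      exact Or.inl ⟨e1_ne, hA, fun k hk => stab_of_ax' e1_ne h1 hk⟩
  · have hA' : ∃ g ∈ X, ¬ ∃ μ : F, g • (e1 : Fin 3 → F) = μ • e1 := by
      push Not at hA ⊢
      exact hA
    by_cases hB : ∀ g ∈ X, ∃ μ : F, row (e3 : Fin 3 → F) g = μ • e3
    · have h1 := ce_of hE hB hA'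
      exact Or.inr (Or.inl ⟨e3_ne, hB, fun k hk => stab_of_ce e3_ne h1 hk⟩)
    · have hB' : ∃ g ∈ X, ¬ ∃ μ : F, row (e3 : Fin 3 → F) g = μ • e3 := by
        push Not at hB ⊢
        exact hB
      exact (hX (top_of hE hL hA' hB')).elim

/-- The group of upper unitriangular matrices. -/
def UT (F : Type*) [Field F] : Subgroup (S F) where
  carrier := {g | g • (e1 : Fin 3 → F) = e1 ∧ row (e3 : Fin 3 → F) g = e3}
  one_mem' := ⟨one_smul _ _, row_one _⟩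
  mul_mem' := by
    rintro g h ⟨h1, h2⟩ ⟨h3, h4⟩
    exact ⟨by rw [mul_smul, h3, h1], by rw [row_mul, h2, h4]⟩
  inv_mem' := by
    rintro g ⟨h1, h2⟩
    refine ⟨by rw [inv_smul_eq_iff, h1], ?_⟩
    nth_rewrite 1 [← h2]
    exact row_row_inv _ _

theorem mem_UT {g : S F} : g ∈ UT F ↔ g • (e1 : Fin 3 → F) = e1 ∧ row (e3 : Fin 3 → F) g = e3 := Iff.rfl

theorem UT_entries {g : S F} (hg : g ∈ UT F) : g.1 0 0 = 1 ∧ g.1 1 0 = 0 ∧ g.1 2 0 = 0 ∧ g.1 2 1 = 0 ∧ g.1 2 2 = 1 ∧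
    g.1 1 1 = 1 := by
  obtain ⟨h1, h2⟩ := hg
  obtain ⟨h3, h4, h5⟩ := col_zero h1
  have h6 : g.1 2 1 = 0 := by
    have := congrFun h2 1
    rw [row_apply] at this
    simpa using this
  have h7 : g.1 2 2 = 1 := by
    have := congrFun h2 2
    rw [row_apply] at this
    simpa using this
  refine ⟨h3, h4, h5, h6, h7, ?_⟩
  have := g.2
  rw [det_fin_three, h3, h4, h5, h6, h7] at this
  linear_combination this

theorem UT_pow_four [CharP F 2] {g : S F} (hg : g ∈ UT F) : g ^ 4 = 1 := by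
  obtain ⟨h1, h2, h3, h4, h5, h6⟩ := UT_entries hg
  have h2F : (2 : F) = 0 := CharTwo.two_eq_zero
  have hsm : ∀ w : Fin 3 → F, g • w = ![w 0 + g.1 0 1 * w 1 + g.1 0 2 * w 2, w 1 + g.1 1 2 * w 2, w 2] := by
    intro w
    apply ext3
    · rw [smul_apply, h1]; simp
    · rw [smul_apply, h2, h6]; simp
    · rw [smul_apply, h3, h4, h5]; simp
  have hsq : ∀ w : Fin 3 → F, g • g • w = ![w 0 + g.1 0 1 * g.1 1 2 * w 2, w 1, w 2] := by
    intro w
    rw [hsm (g • w), hsm w]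
    apply ext3
    · simp
      linear_combination (g.1 0 1 * w 1 + g.1 0 2 * w 2) * h2F
    · simp
      linear_combination (g.1 1 2 * w 2) * h2F
    · simp
  apply ext_smul
  intro w
  rw [show (4 : ℕ) = 1 + 1 + 1 + 1 from rfl, pow_add, pow_add, pow_add, pow_one, mul_smul, mul_smul, mul_smul, one_smul,
    hsq (g • g • w), hsq w]
  apply ext3
  · simp
    linear_combination (g.1 0 1 * g.1 1 2 * w 2) * h2F
  · simp
  · simp

theorem UT_isPGroup [CharP F 2] : IsPGroup 2 (UT F) := by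
  intro g
  refine ⟨2, ?_⟩
  apply Subtype.ext
  exact UT_pow_four g.2

theorem exists_conj [CharP F 2] {X : Subgroup (S F)} [Finite (S F)] (hodd : ¬ 2 ∣ X.index) :
    ∃ h : S F, ∀ u ∈ UT F, h⁻¹ * u * h ∈ X := by
  have : Fact (Nat.Prime 2) := ⟨Nat.prime_two⟩
  have hp : IsPGroup 2 (UT F) := UT_isPGroup
  have h1 := hp.nonempty_fixed_point_of_prime_not_dvd_card (S F ⧸ X) (by
    rwa [← Subgroup.index_eq_card])
  obtain ⟨x, hx⟩ := h1
  obtain ⟨h, rfl⟩ := QuotientGroup.mk_surjective x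
  refine ⟨h, fun u hu => ?_⟩
  have h2 : (QuotientGroup.mk (u * h) : S F ⧸ X) = QuotientGroup.mk h := hx ⟨u, hu⟩
  have h3 := QuotientGroup.eq.1 h2.symm
  rwa [← mul_assoc] at h3

/-- **Trichotomy.** -/
theorem trichotomy [CharP F 2] {X : Subgroup (S F)} [Finite (S F)] (hodd : ¬ 2 ∣ X.index) (hX : X ≠ ⊤) :
    (∃ v, Pt X v) ∨ (∃ φ, Ln X φ) ∨ ∃ v φ, Fl X v φ := by
  obtain ⟨h, hh⟩ := exists_conj hodd
  set Y : Subgroup (S F) := X.comap (MulAut.conj h⁻¹).toMonoidHom with hY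
  have H0 : ∀ g, g ∈ Y ↔ h⁻¹ * g * h ∈ X := by
    intro g
    rw [hY, Subgroup.mem_comap]
    simp
  have H : ∀ g, g ∈ X ↔ (h⁻¹)⁻¹ * g * h⁻¹ ∈ Y := by
    intro g
    rw [H0]
    have : h⁻¹ * ((h⁻¹)⁻¹ * g * h⁻¹) * h = g := by group
    rw [this]
  have hE : Ce Y (e1 : Fin 3 → F) := by
    intro ψ hψ
    rw [H0]
    apply hh
    refine ⟨by rw [tv_smul hψ, hψ, zero_smul, add_zero], ?_⟩
    rw [row_tv hψ, e3_dot]
    simp
  have hL : Ax Y (e3 : Fin 3 → F) := by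
    intro w hw
    rw [H0]
    apply hh
    refine ⟨?_, by rw [row_tv hw, hw, zero_smul, add_zero]⟩
    rw [tv_smul hw, e3_dot]
    simp
  have hYt : Y ≠ ⊤ := by
    intro h0
    apply hX
    rw [eq_top_iff]
    intro g _
    rw [H, h0]
    exact Subgroup.mem_top _
  rcases trich hE hL hYt with h1 | h1 | h1
  · exact Or.inl ⟨_, h1.conj H⟩
  · exact Or.inr (Or.inl ⟨_, h1.conj H⟩)
  · exact Or.inr (Or.inr ⟨_, _, h1.conj H⟩)

end Cfsg.Agent.H438.SLThree
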