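import Mathlib
import Cfsg.Agent.H438.SLThreeB

/-!
# Actions of `SL₃(2ⁿ)` in which the numbers of fixed points are powers of 2 (helper438, S3727)

`Aff ρ a` : `SL₃(F)` acts (through `ρ`) on the finite set `Ω`, `a` is a fixed point, all stabilisers have odd index and
are proper for the other points, all numbers of common fixed points of sets of elements are powers of 2.
-/

set_option autoImplicit false
set_option linter.unusedSectionVars false
set_option linter.unusedSimpArgs false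

namespace Cfsg.Agent.H438.SLThree

open Matrix MulAction

/-- double counting -/
theorem dcount {α β : Type*} [Finite α] [Finite β] (R : α → β → Prop) (K : α → Prop) {c m : ℕ}
    (h1 : ∀ x, K x → Nat.card {b // R x b} = c)
    (h2 : ∀ b, (∃ x, K x ∧ R x b) → Nat.card {x // K x ∧ R x b} = m) :
    Nat.card {x // K x} * c = Nat.card {b // ∃ x, K x ∧ R x b} * m := by
  classical
  have : Fintype α := Fintype.ofFinite α
  have : Fintype β := Fintype.ofFinite β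
  have e1 : {p : α × β // K p.1 ∧ R p.1 p.2} ≃ (Σ x : {x // K x}, {b // R x b}) :=
    ⟨fun p => ⟨⟨p.1.1, p.2.1⟩, ⟨p.1.2, p.2.2⟩⟩, fun p => ⟨(p.1.1, p.2.1), p.1.2, p.2.2⟩, fun _ => rfl, fun _ => rfl⟩
  have e2 : {p : α × β // K p.1 ∧ R p.1 p.2} ≃ (Σ b : {b // ∃ x, K x ∧ R x b}, {x // K x ∧ R x b}) :=
    ⟨fun p => ⟨⟨p.1.2, p.1.1, p.2⟩, ⟨p.1.1, p.2⟩⟩, fun p => ⟨(p.2.1, p.1.1), p.2.2⟩, fun _ => rfl, fun _ => rfl⟩
  have f1 : Nat.card {p : α × β // K p.1 ∧ R p.1 p.2} = Nat.card {x // K x} * c := by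
    rw [Nat.card_congr e1, Nat.card_sigma, Finset.sum_congr rfl (g := fun _ => c), Finset.sum_const, smul_eq_mul,
      Finset.card_univ, Nat.card_eq_fintype_card]
    rintro ⟨x, hx⟩ -
    exact h1 x hx
  have f2 : Nat.card {p : α × β // K p.1 ∧ R p.1 p.2} = Nat.card {b // ∃ x, K x ∧ R x b} * m := by
    rw [Nat.card_congr e2, Nat.card_sigma, Finset.sum_congr rfl (g := fun _ => m), Finset.sum_const, smul_eq_mul,
      Finset.card_univ, Nat.card_eq_fintype_card]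
    rintro ⟨b, hb⟩ -
    exact h2 b hb
  rw [← f1, f2]

section

variable {F : Type*} [Field F] {G Ω : Type*} [Group G] [MulAction G Ω]

/-- The stabiliser of `b` in `SL₃(F)`. -/
def Xs (ρ : S F →* G) (b : Ω) : Subgroup (S F) := (stabilizer G b).comap ρ

theorem mem_Xs {ρ : S F →* G} {b : Ω} {g : S F} : g ∈ Xs ρ b ↔ ρ g • b = b := Iff.rfl

theorem Xs_conj (ρ : S F →* G) (b : Ω) (h : S F) (g : S F) : g ∈ Xs ρ (ρ h • b) ↔ h⁻¹ * g * h ∈ Xs ρ b := by
  rw [mem_Xs, mem_Xs, map_mul, map_mul, mul_smul, mul_smul, map_inv, inv_smul_eq_iff]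

/-- The situation. -/
structure Aff (ρ : S F →* G) (a : Ω) : Prop where
  fix : ∀ g, ρ g • a = a
  odd : ∀ b : Ω, ¬ 2 ∣ (Xs ρ b).index
  ne : ∀ b : Ω, b ≠ a → Xs ρ b ≠ ⊤
  pow : ∀ H : Set (S F), ∃ k : ℕ, Nat.card {b : Ω // ∀ g ∈ H, ρ g • b = b} = 2 ^ k

variable {ρ : S F →* G} {a : Ω}

theorem Aff.toDual [Finite (S F)] (h : Aff ρ a) : Aff (ρ.comp (dual (F := F))) a := by
  have hbij : Function.Surjective (dual (F := F)) := fun g => ⟨dual g, dual_dual g⟩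
  have hX : ∀ b : Ω, Xs (ρ.comp (SLThree.dual (F := F))) b = (Xs ρ b).comap SLThree.dual := fun b => rfl
  refine ⟨fun g => h.fix _, ?_, ?_, ?_⟩
  · intro b
    rw [hX, Subgroup.index_comap_of_surjective _ hbij]
    exact h.odd b
  · intro b hb htop
    apply h.ne b hb
    rw [eq_top_iff]
    intro g _
    have : SLThree.dual g ∈ (Xs ρ b).comap SLThree.dual := by
      rw [← hX, htop]
      exact Subgroup.mem_top _
    rw [Subgroup.mem_comap, dual_dual] at this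
    exact this
  · intro H
    obtain ⟨k, hk⟩ := h.pow (SLThree.dual '' H)
    refine ⟨k, ?_⟩
    rw [← hk]
    apply Nat.card_congr
    refine Equiv.subtypeEquivRight ?_
    intro b
    constructor
    · rintro hb _ ⟨g, hg, rfl⟩
      exact hb g hg
    · intro hb g hg
      exact hb _ ⟨g, hg, rfl⟩

theorem Ln.toDual {X : Subgroup (S F)} {φ : Fin 3 → F} (h : Ln X φ) : Pt (X.comap SLThree.dual) φ := by
  refine ⟨h.1, ?_, ?_⟩
  · intro g hg
    obtain ⟨μ, hμ⟩ := h.2.1 _ hg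
    rw [row_dual, inv_smul_eq_iff, smul_smul_comm'] at hμ
    by_cases h0 : μ = 0
    · rw [h0, zero_smul] at hμ
      exact (h.1 hμ).elim
    · refine ⟨μ⁻¹, ?_⟩
      rw [eq_comm, inv_smul_eq_iff₀ h0]
      exact hμ
  · intro g hg
    rw [Subgroup.mem_comap]
    apply h.2.2
    rw [row_dual, inv_smul_eq_iff, hg]

theorem two_pow_aux {i j k l : ℕ} (h : 2 ^ i + 2 ^ j = 2 ^ k + 2 ^ l) (hi : 2 ^ l ≤ 2 ^ i) (hj : 2 ^ l ≤ 2 ^ j)
    (hik : 2 ^ i ≤ 2 ^ k) : 2 ^ l = 2 ^ i ∨ 2 ^ l = 2 ^ j := by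
  by_contra hc
  push Not at hc
  have hi' : l < i := by
    have : l ≤ i := (Nat.pow_le_pow_iff_right (by norm_num)).1 hi
    rcases Nat.lt_or_ge l i with h1 | h1
    · exact h1
    · exact (hc.1 (by rw [le_antisymm this h1])).elim
  have hj' : l < j := by
    have : l ≤ j := (Nat.pow_le_pow_iff_right (by norm_num)).1 hj
    rcases Nat.lt_or_ge l j with h1 | h1
    · exact h1
    · exact (hc.2 (by rw [le_antisymm this h1])).elim
  have hk' : l < k := lt_of_lt_of_le hi' ((Nat.pow_le_pow_iff_right (by norm_num)).1 hik)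
  have d1 : 2 ^ (l + 1) ∣ 2 ^ i := pow_dvd_pow 2 hi'
  have d2 : 2 ^ (l + 1) ∣ 2 ^ j := pow_dvd_pow 2 hj'
  have d3 : 2 ^ (l + 1) ∣ 2 ^ k := pow_dvd_pow 2 hk'
  have d4 : 2 ^ (l + 1) ∣ 2 ^ k + 2 ^ l := by rw [← h]; exact dvd_add d1 d2
  have d5 := (Nat.dvd_add_right d3).1 d4
  have := (Nat.pow_dvd_pow_iff_le_right (by norm_num)).1 d5
  omega

theorem Pt.smul {X : Subgroup (S F)} {v : Fin 3 → F} (h : Pt X v) {c : F} (hc : c ≠ 0) : Pt X (c • v) := by
  refine ⟨smul_ne_zero hc h.1, ?_, ?_⟩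
  · intro g hg
    obtain ⟨μ, hμ⟩ := h.2.1 g hg
    exact ⟨μ, by rw [smul_smul_comm', hμ, smul_comm]⟩
  · intro g hg
    apply h.2.2
    rw [smul_smul_comm'] at hg
    have := congrArg (fun w => c⁻¹ • w) hg
    simpa [smul_smul, hc] using this

/-- the fixed points of a transvection -/
theorem fz_iff [CharP F 2] [Finite (S F)] (h : Aff ρ a) (b : Ω) :
    tv e1 e3 ∈ Xs ρ b ↔ Ce (Xs ρ b) e1 ∨ Ax (Xs ρ b) e3 := by
  have ht : (e3 : Fin 3 → F) ⬝ᵥ e1 = 0 := by rw [dot_e1]; simp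
  constructor
  · intro hz
    by_cases hba : b = a
    · left
      intro ψ _
      rw [hba, mem_Xs]
      exact h.fix _
    have hv : ∀ v : Fin 3 → F, v ≠ 0 → (∀ g ∈ Xs ρ b, ∃ μ : F, g • v = μ • v) → v 2 = 0 := by
      intro v hv hX
      by_contra h2
      obtain ⟨μ, hμ⟩ := hX _ hz
      rw [tv_smul ht, e3_dot] at hμ
      have h0 : (v 2) • (e1 : Fin 3 → F) = (μ - 1) • v := by
        rw [sub_smul, one_smul, ← hμ]; simp
      have h3 := congrFun h0 2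
      simp only [smul_ap, e1_two, mul_zero] at h3
      have h4 : μ - 1 = 0 := (mul_eq_zero.1 h3.symm).resolve_right h2
      rw [h4, zero_smul] at h0
      exact smul_ne_zero h2 e1_ne h0
    have hφ : ∀ φ : Fin 3 → F, φ ≠ 0 → (∀ g ∈ Xs ρ b, ∃ μ : F, row φ g = μ • φ) → φ 0 = 0 := by
      intro φ hφ hX
      by_contra h2
      obtain ⟨μ, hμ⟩ := hX _ hz
      rw [row_tv ht, dot_e1] at hμ
      have h0 : (φ 0) • (e3 : Fin 3 → F) = (μ - 1) • φ := by
        rw [sub_smul, one_smul, ← hμ]; simp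
      have h3 := congrFun h0 0
      simp only [smul_ap, e3_zero, mul_zero] at h3
      have h4 : μ - 1 = 0 := (mul_eq_zero.1 h3.symm).resolve_right h2
      rw [h4, zero_smul] at h0
      exact smul_ne_zero h2 e3_ne h0
    rcases trichotomy (h.odd b) (h.ne b hba) with ⟨v, hp⟩ | ⟨φ, hl⟩ | ⟨v, φ, hf⟩
    · right
      exact hp.ax (by rw [e3_dot]; exact hv v hp.1 hp.2.1)
    · left
      exact hl.ce (by rw [dot_e1]; exact hφ φ hl.1 hl.2.1)
    · obtain ⟨h1, h2, h3, h4, h5, h6, h7⟩ := hf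
      have e1' := hv v h1 h4
      have e2' := hφ φ h2 h5
      by_cases h8 : v 1 = 0
      · left
        have h9 : v 0 ≠ 0 := fun h9 => h1 (ext3 h9 h8 e1')
        have : (e1 : Fin 3 → F) = (v 0)⁻¹ • v := ext3 (by simp [smul_ap, h9]) (by simp [smul_ap, h8])
          (by simp [smul_ap, e1'])
        rw [this]
        exact h6.smul _
      · right
        have h9 : φ 1 = 0 := by
          rw [dot_apply, e1', e2'] at h3
          simpa [h8] using h3
        have h10 : φ 2 ≠ 0 := fun h10 => h2 (ext3 e2' h9 h10)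
        have : (e3 : Fin 3 → F) = (φ 2)⁻¹ • φ := ext3 (by simp [smul_ap, e2']) (by simp [smul_ap, h9])
          (by simp [smul_ap, h10])
        rw [this]
        exact h7.smul _
  · rintro (h1 | h1)
    · exact h1 _ ht
    · exact h1 _ ht

/-- `C(E)` and `C(E')` are comparable. -/
theorem comparable [CharP F 2] [Finite (S F)] [Finite Ω] (h : Aff ρ a) :
    (∀ b : Ω, Ce (Xs ρ b) e1 → Ax (Xs ρ b) e3) ∨ (∀ b : Ω, Ax (Xs ρ b) e3 → Ce (Xs ρ b) e1) := by
  classical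
  have : Fintype Ω := Fintype.ofFinite Ω
  set A : Finset Ω := Finset.univ.filter fun b => Ce (Xs ρ b) e1 with hA
  set B : Finset Ω := Finset.univ.filter fun b => Ax (Xs ρ b) e3 with hB
  have hcard : ∀ (P : Ω → Prop) (H : Set (S F)), (∀ b, P b ↔ ∀ g ∈ H, ρ g • b = b) →
      ∃ k, (Finset.univ.filter P).card = 2 ^ k := by
    intro P H hPH
    obtain ⟨k, hk⟩ := h.pow H
    refine ⟨k, ?_⟩
    rw [← hk, ← Fintype.card_subtype, Nat.card_eq_fintype_card]
    apply Fintype.card_congr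
    exact Equiv.subtypeEquivRight hPH
  obtain ⟨i, hi⟩ := hcard (fun b => Ce (Xs ρ b) e1) {g | ∃ ψ : Fin 3 → F, ψ ⬝ᵥ e1 = 0 ∧ g = tv e1 ψ} (by
    intro b
    constructor
    · rintro hb _ ⟨ψ, hψ, rfl⟩
      exact hb ψ hψ
    · intro hb ψ hψ
      exact hb _ ⟨ψ, hψ, rfl⟩)
  obtain ⟨j, hj⟩ := hcard (fun b => Ax (Xs ρ b) e3) {g | ∃ w : Fin 3 → F, e3 ⬝ᵥ w = 0 ∧ g = tv w e3} (by
    intro b
    constructor
    · rintro hb _ ⟨ψ, hψ, rfl⟩
      exact hb ψ hψ
    · intro hb ψ hψ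
      exact hb _ ⟨ψ, hψ, rfl⟩)
  obtain ⟨l, hl⟩ := hcard (fun b => Ce (Xs ρ b) e1 ∧ Ax (Xs ρ b) e3)
    ({g | ∃ ψ : Fin 3 → F, ψ ⬝ᵥ e1 = 0 ∧ g = tv e1 ψ} ∪ {g | ∃ w : Fin 3 → F, e3 ⬝ᵥ w = 0 ∧ g = tv w e3}) (by
    intro b
    constructor
    · rintro ⟨h1, h2⟩ _ (⟨ψ, hψ, rfl⟩ | ⟨ψ, hψ, rfl⟩)
      · exact h1 ψ hψ
      · exact h2 ψ hψ
    · intro hb
      exact ⟨fun ψ hψ => hb _ (Or.inl ⟨ψ, hψ, rfl⟩), fun ψ hψ => hb _ (Or.inr ⟨ψ, hψ, rfl⟩)⟩)
  obtain ⟨k, hk⟩ := hcard (fun b => Ce (Xs ρ b) e1 ∨ Ax (Xs ρ b) e3) {tv e1 e3} (by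
    intro b
    rw [← fz_iff h b]
    simp [mem_Xs])
  have hAB : (A ∪ B).card = 2 ^ k := by
    rw [← hk]
    congr 1
    ext b
    simp [hA, hB]
  have hAB' : (A ∩ B).card = 2 ^ l := by
    rw [← hl]
    congr 1
    ext b
    simp [hA, hB]
  rw [← hA] at hi
  rw [← hB] at hj
  have hsum := Finset.card_union_add_card_inter A B
  rw [hAB, hAB', hi, hj] at hsum
  have l1 : 2 ^ l ≤ 2 ^ i := by rw [← hAB', ← hi]; exact Finset.card_le_card Finset.inter_subset_left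
  have l2 : 2 ^ l ≤ 2 ^ j := by rw [← hAB', ← hj]; exact Finset.card_le_card Finset.inter_subset_right
  have l3 : 2 ^ i ≤ 2 ^ k := by rw [← hAB, ← hi]; exact Finset.card_le_card Finset.subset_union_left
  rcases two_pow_aux hsum.symm l1 l2 l3 with h1 | h1
  · left
    intro b hb
    have h2 : A ∩ B = A := Finset.eq_of_subset_of_card_le Finset.inter_subset_left (by rw [hAB', hi, h1])
    have h3 : b ∈ A ∩ B := by
      rw [h2, hA]
      simpa using hb
    rw [hB] at h3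
    simpa using (Finset.mem_inter.1 h3).2
  · right
    intro b hb
    have h2 : A ∩ B = B := Finset.eq_of_subset_of_card_le Finset.inter_subset_right (by rw [hAB', hj, h1])
    have h3 : b ∈ A ∩ B := by
      rw [h2, hB]
      simpa using hb
    rw [hA] at h3
    simpa using (Finset.mem_inter.1 h3).1

/-- the second row vector -/
def r2 : Fin 3 → F := ![0, 1, 0]

theorem r2_ne : (r2 : Fin 3 → F) ≠ 0 := fun h => by simpa [r2] using congrFun h 1

theorem r2_not : ¬ ∃ c : F, (r2 : Fin 3 → F) = c • e3 := by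
  rintro ⟨c, hc⟩
  have := congrFun hc 1
  simp [r2, smul_ap] at this

theorem tv_neg_neg {v φ : Fin 3 → F} (h : φ ⬝ᵥ v = 0) : tv (-v) (-φ) = tv v φ := by
  have h1 : (-φ) ⬝ᵥ (-v) = 0 := by rw [neg_dotProduct, dotProduct_neg, h, neg_zero, neg_zero]
  apply ext_smul
  intro w
  rw [tv_smul h1, tv_smul h, neg_dotProduct]
  simp

theorem exists_row {φ : Fin 3 → F} (hφ : φ ≠ 0) : ∃ k : S F, row e3 k⁻¹ = φ := by
  obtain ⟨h1, hh1⟩ := exists_smul hφ
  obtain ⟨h2, hh2⟩ := exists_smul (F := F) e3_ne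
  refine ⟨SLThree.dual (h1 * h2⁻¹), ?_⟩
  rw [← map_inv, row_dual, inv_inv, mul_smul]
  nth_rewrite 1 [← hh2]
  rw [inv_smul_smul, hh1]

theorem all_pt [CharP F 2] [Finite (S F)] (h : Aff ρ a) (hc : ∀ b : Ω, Ce (Xs ρ b) e1 → Ax (Xs ρ b) e3) :
    ∀ b : Ω, b ≠ a → ∃ v, Pt (Xs ρ b) v := by
  intro b hb
  rcases trichotomy (h.odd b) (h.ne b hb) with h1 | ⟨φ, hl⟩ | ⟨v, φ, hf⟩
  · exact h1
  · exfalso
    obtain ⟨k, hk⟩ := exists_row hl.1
    obtain ⟨k', hk'⟩ := exists_row (F := F) r2_ne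
    have h2 := hl.conj (Xs_conj ρ b (k' * k⁻¹))
    have h3 : row φ (k' * k⁻¹)⁻¹ = r2 := by
      rw [_root_.mul_inv_rev, inv_inv, row_mul, ← hk, row_inv_row, hk']
    rw [h3] at h2
    have h4 := hc _ (h2.ce (by rw [dot_e1]; rfl))
    exact r2_not (ax_unique e3_ne h4 h2.2.1)
  · exfalso
    obtain ⟨k, hk1, hk2⟩ := exists_flag hf.1 hf.2.1 hf.2.2.1
    obtain ⟨k', hk1', hk2'⟩ := exists_flag (F := F) (v := e1) (φ := r2) e1_ne r2_ne (by rw [dot_e1]; rfl)
    have h2 := hf.conj (Xs_conj ρ b (k' * k⁻¹))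
    have h3 : row φ (k' * k⁻¹)⁻¹ = r2 := by
      rw [_root_.mul_inv_rev, inv_inv, row_mul, ← hk2, row_inv_row, hk2']
    have h3' : (k' * k⁻¹) • v = e1 := by
      rw [mul_smul, ← hk1, inv_smul_smul, hk1']
    rw [h3, h3'] at h2
    have h4 := hc _ h2.2.2.2.2.2.1
    exact r2_not (ax_unique e3_ne h4 h2.2.2.2.2.1)

theorem all_pt_or [CharP F 2] [Finite (S F)] [Finite Ω] (h : Aff ρ a) :
    (∀ b : Ω, b ≠ a → ∃ v, Pt (Xs ρ b) v) ∨ ∀ b : Ω, b ≠ a → ∃ v, Pt (Xs (ρ.comp SLThree.dual) b) v := by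
  rcases comparable h with hc | hc
  · exact Or.inl (all_pt h hc)
  · right
    apply all_pt h.toDual
    intro b hb
    -- transport to the flag `(e3, e1)`
    obtain ⟨k, hk1, hk2⟩ := exists_flag (F := F) (v := e3) (φ := e1) e3_ne e1_ne (by
      rw [dotProduct_comm, dot_e1]; rfl)
    have hA : Ax (Xs ρ b) e1 := by
      intro w hw
      have h2 : (w : Fin 3 → F) ⬝ᵥ e1 = 0 := by rw [dotProduct_comm, hw]
      have h2' : (-w : Fin 3 → F) ⬝ᵥ e1 = 0 := by rw [neg_dotProduct, h2, neg_zero]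
      have h3 : SLThree.dual (tv e1 (-w)) ∈ Xs ρ b := hb (-w) h2'
      rw [dual_tv h2'] at h3
      rw [tv_neg_neg hw] at h3
      exact h3
    have h4 : Ax (Xs ρ (ρ k⁻¹ • b)) e3 := by
      have h5 := hA.conj' (Xs_conj ρ b k⁻¹)
      rwa [inv_inv, ← hk2, row_inv_row] at h5
    have h6 := hc _ h4
    have h7 : Ce (Xs ρ b) e3 := by
      have h8 := h6.conj' (Y := Xs ρ b) (h := k) (by
        intro g
        have := Xs_conj ρ (ρ k⁻¹ • b) k g
        rwa [← mul_smul, ← map_mul, mul_inv_cancel, map_one, one_smul] at this)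
      rwa [hk1] at h8
    intro w hw
    have hw' : (w : Fin 3 → F) ⬝ᵥ e3 = 0 := by rw [dotProduct_comm, hw]
    change SLThree.dual (tv w e3) ∈ Xs ρ b
    rw [dual_tv hw]
    exact h7 _ (by rw [neg_dotProduct, hw', neg_zero])

end

end Cfsg.Agent.H438.SLThree
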