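import Mathlib
import Cfsg.Agent.H438.SLThreeC

/-!
# Actions of `SL₃(2ⁿ)` in which the numbers of fixed points are powers of 2, II (helper438, S3727)

`Aff.main` : in the situation `Aff ρ a` (with the centre of `SL₃(F)` acting trivially and `Ω ≠ {a}`) the set has `q³`
elements, `n` is odd and the group is transitive on the points different from `a`.
-/

set_option autoImplicit false
set_option linter.unusedSectionVars false
set_option linter.unusedSimpArgs false

namespace Cfsg.Agent.H438.SLThree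

open Matrix MulAction

section card

variable {F : Type*} [Field F] [Finite F]

theorem card_vec : Nat.card (Fin 3 → F) = Nat.card F ^ 3 := by
  rw [Nat.card_fun, Nat.card_fin]

theorem card_ne : Nat.card {x : Fin 3 → F // x ≠ 0} = Nat.card F ^ 3 - 1 := by
  classical
  have : Fintype F := Fintype.ofFinite F
  rw [← card_vec, Nat.card_eq_fintype_card, Nat.card_eq_fintype_card, Fintype.card_subtype_compl,
    Fintype.card_subtype_eq]

theorem card_plane (i : Fin 3) (j k : Fin 3) (hi : ∀ l, l = i ∨ l = j ∨ l = k) (hij : i ≠ j) (hik : i ≠ k)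
    (hjk : j ≠ k) : Nat.card {x : Fin 3 → F // x ≠ 0 ∧ x i = 0} = Nat.card F ^ 2 - 1 := by
  classical
  have : Fintype F := Fintype.ofFinite F
  have e : {x : Fin 3 → F // x ≠ 0 ∧ x i = 0} ≃ {p : F × F // p ≠ 0} :=
    { toFun := fun x => ⟨(x.1 j, x.1 k), by
        intro h
        apply x.2.1
        have h1 := congrArg Prod.fst h
        have h2 := congrArg Prod.snd h
        funext l
        rcases hi l with rfl | rfl | rfl
        · exact x.2.2
        · exact h1
        · exact h2⟩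
      invFun := fun p => ⟨fun l => if l = j then p.1.1 else if l = k then p.1.2 else 0, by
        constructor
        · intro h
          apply p.2
          have h1 := congrFun h j
          have h2 := congrFun h k
          simp [hjk.symm] at h1 h2
          exact Prod.ext h1 h2
        · simp [hij, hik]⟩
      left_inv := by
        intro x
        apply Subtype.ext
        funext l
        rcases hi l with rfl | rfl | rfl
        · simp [hij, hik, x.2.2]
        · simp
        · simp [hjk.symm]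
      right_inv := by
        intro p
        apply Subtype.ext
        simp [hjk.symm] }
  rw [Nat.card_congr e, Nat.card_eq_fintype_card, Fintype.card_subtype_compl, Fintype.card_subtype_eq,
    Fintype.card_prod, Nat.card_eq_fintype_card, pow_two]

end card

/-- powers of two -/
theorem arith_q {n i k A : ℕ} (hn : 1 ≤ n) (hA : 1 ≤ A) (h1 : 1 + A = 2 ^ i) (h2 : 1 + (2 ^ n + 1) * A = 2 ^ k) :
    A = 2 ^ n - 1 := by
  have h3 : 2 ^ k + 2 ^ n = (2 ^ n + 1) * 2 ^ i := by
    rw [← h1, ← h2]; ring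
  rcases Nat.lt_trichotomy i n with hin | hin | hin
  · exfalso
    obtain ⟨d, rfl⟩ : ∃ d, n = i + 1 + d := ⟨n - (i + 1), by omega⟩
    have hi : 0 < i := by
      rcases Nat.eq_zero_or_pos i with h0 | h0
      · rw [h0, pow_zero] at h1; omega
      · exact h0
    have hik : i < k := by
      by_contra hki
      push Not at hki
      have : 2 ^ k ≤ 2 ^ i := Nat.pow_le_pow_right (by norm_num) hki
      nlinarith [Nat.pow_pos (n := i + 1 + d) (show 0 < 2 by norm_num)]
    obtain ⟨e, rfl⟩ : ∃ e, k = i + 1 + e := ⟨k - (i + 1), by omega⟩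
    have h4 : 2 ^ i * (2 * 2 ^ e + 2 * 2 ^ d) = 2 ^ i * (2 * (2 ^ (i + d)) + 1) := by
      have : 2 ^ (i + 1 + e) + 2 ^ (i + 1 + d) = (2 ^ (i + 1 + d) + 1) * 2 ^ i := h3
      rw [show i + 1 + e = i + (e + 1) by ring, show i + 1 + d = i + (d + 1) by ring] at this
      rw [pow_add 2 i (e + 1), pow_add 2 i (d + 1), pow_succ 2 e, pow_succ 2 d] at this
      rw [pow_add 2 i d]
      linarith
    have h5 := Nat.eq_of_mul_eq_mul_left (show 0 < 2 ^ i by positivity) h4
    omega
  · subst hin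
    omega
  · exfalso
    obtain ⟨d, rfl⟩ : ∃ d, i = n + 1 + d := ⟨i - (n + 1), by omega⟩
    have hnk : n < k := by
      by_contra hki
      push Not at hki
      have : 2 ^ k ≤ 2 ^ n := Nat.pow_le_pow_right (by norm_num) hki
      have h6 : 2 ^ n ≤ 2 ^ (n + 1 + d) := Nat.pow_le_pow_right (by norm_num) (by omega)
      have h7 : 2 ≤ 2 ^ n := by
        calc 2 = 2 ^ 1 := rfl
          _ ≤ 2 ^ n := Nat.pow_le_pow_right (by norm_num) hn
      nlinarith
    obtain ⟨e, rfl⟩ : ∃ e, k = n + 1 + e := ⟨k - (n + 1), by omega⟩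
    have h4 : 2 ^ n * (2 * 2 ^ e + 1) = 2 ^ n * (2 * ((2 ^ n + 1) * 2 ^ d)) := by
      rw [show n + 1 + e = n + (e + 1) by ring, show n + 1 + d = n + (d + 1) by ring] at h3
      rw [pow_add 2 n (e + 1), pow_add 2 n (d + 1), pow_succ 2 e, pow_succ 2 d] at h3
      linarith
    have h5 := Nat.eq_of_mul_eq_mul_left (show 0 < 2 ^ n by positivity) h4
    omega

section

variable {F : Type*} [Field F] [Finite F] {G Ω : Type*} [Group G] [MulAction G Ω] [Finite Ω]
  {ρ : S F →* G} {a : Ω}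

theorem not_pt_a (h : Aff ρ a) (v : Fin 3 → F) : ¬ Pt (Xs ρ a) v := by
  intro hp
  obtain ⟨c, hc⟩ := cen_unique (v := v) (w := v) hp.1 hp.ce hp.2.1
  have key : ∀ w : Fin 3 → F, w ≠ 0 → ∃ c : F, w = c • v := by
    intro w hw
    obtain ⟨g, hg⟩ := exists_smul hp.1
    obtain ⟨k, hk⟩ := exists_smul hw
    obtain ⟨μ, hμ⟩ := hp.2.1 (k * g⁻¹) (h.fix _)
    refine ⟨μ, ?_⟩
    rw [← hμ, mul_smul, ← hg, inv_smul_smul, hk]
  obtain ⟨c1, h1⟩ := key e1 e1_ne
  obtain ⟨c3, h3⟩ := key e3 e3_ne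
  have a1 := congrFun h1 0
  have a2 := congrFun h1 2
  have a3 := congrFun h3 0
  have a4 := congrFun h3 2
  simp only [smul_ap, e1_zero, e1_two, e3_zero] at a1 a2 a3
  have h5 : v 2 = 0 := by
    rcases mul_eq_zero.1 a2.symm with h6 | h6
    · rw [h6, zero_mul] at a1
      exact (one_ne_zero a1).elim
    · exact h6
  rw [smul_ap, h5, mul_zero] at a4
  exact one_ne_zero (α := F) a4

theorem pt_count (x : Fin 3 → F) (hx : x ≠ 0) :
    Nat.card {b : Ω // Pt (Xs ρ b) x} = Nat.card {b : Ω // Pt (Xs ρ b) e1} := by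
  obtain ⟨h, hh⟩ := exists_smul hx
  symm
  apply Nat.card_congr
  refine (MulAction.toPerm (ρ h)).subtypeEquiv ?_
  intro b
  rw [MulAction.toPerm_apply]
  constructor
  · intro hb
    rw [← hh]
    exact hb.conj (Xs_conj ρ b h)
  · intro hb
    have h8 := hb.conj (Y := Xs ρ b) (h := h⁻¹) (by
      intro g
      have := Xs_conj ρ (ρ h • b) h⁻¹ g
      rwa [← mul_smul, ← map_mul, inv_mul_cancel, map_one, one_smul] at this)
    rwa [← hh, inv_smul_smul] at h8

theorem pt_fiber (K : (Fin 3 → F) → Prop) (hK : ∀ (c : F) (x : Fin 3 → F), c ≠ 0 → K x → K (c • x)) (b : Ω)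
    (hb : ∃ x, K x ∧ Pt (Xs ρ b) x) : Nat.card {x // K x ∧ Pt (Xs ρ b) x} = Nat.card F - 1 := by
  classical
  have : Fintype F := Fintype.ofFinite F
  obtain ⟨x, hKx, hx⟩ := hb
  have e : {c : F // c ≠ 0} ≃ {x // K x ∧ Pt (Xs ρ b) x} := by
    refine Equiv.ofBijective (fun c => ⟨c.1 • x, hK _ _ c.2 hKx, hx.smul c.2⟩) ⟨?_, ?_⟩
    · rintro ⟨c, hc⟩ ⟨d, hd⟩ hcd
      have h1 : c • x = d • x := congrArg Subtype.val hcd
      apply Subtype.ext
      exact smul_left_injective F hx.1 h1
    · rintro ⟨y, hy1, hy2⟩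
      obtain ⟨c, hc⟩ := cen_unique hx.1 hx.ce hy2.2.1
      have hc0 : c ≠ 0 := by
        rintro rfl
        rw [zero_smul] at hc
        exact hy2.1 hc
      exact ⟨⟨c, hc0⟩, Subtype.ext hc.symm⟩
  rw [← Nat.card_congr e, Nat.card_eq_fintype_card, Fintype.card_subtype_compl, Fintype.card_subtype_eq,
    Nat.card_eq_fintype_card]

/-- adding the point `a` -/
theorem card_or (a : Ω) (P : Ω → Prop) (hP : ¬ P a) : Nat.card {b : Ω // b = a ∨ P b} = 1 + Nat.card {b : Ω // P b} := by
  classical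
  have : Fintype Ω := Fintype.ofFinite Ω
  rw [Nat.card_eq_fintype_card, Nat.card_eq_fintype_card, Fintype.card_subtype_or_disjoint, Fintype.card_subtype_eq]
  rw [Pi.disjoint_iff]
  intro b
  rw [Prop.disjoint_iff]
  by_cases hb : b = a
  · subst hb; exact fun h => hP h.2
  · exact fun h => hb h.1

theorem q_sub (F : Type*) [Field F] [Finite F] : 0 < Nat.card F - 1 := by
  have := Finite.one_lt_card (α := F)
  omega

/-- the three counts -/
theorem counts (h : Aff ρ a) (hP : ∀ b : Ω, b ≠ a → ∃ v, Pt (Xs ρ b) v) :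
    (∃ i, 1 + Nat.card {b : Ω // Pt (Xs ρ b) e1} = 2 ^ i) ∧
    (∃ k, 1 + (Nat.card F + 1) * Nat.card {b : Ω // Pt (Xs ρ b) e1} = 2 ^ k) ∧
    (Nat.card F ^ 3 - 1) * Nat.card {b : Ω // Pt (Xs ρ b) e1} = Nat.card {b : Ω // b ≠ a} * (Nat.card F - 1) := by
  have hq := q_sub F
  refine ⟨?_, ?_, ?_⟩
  · obtain ⟨i, hi⟩ := h.pow {g | ∃ ψ : Fin 3 → F, ψ ⬝ᵥ e1 = 0 ∧ g = tv e1 ψ}
    refine ⟨i, ?_⟩
    rw [← hi, ← card_or a _ (not_pt_a h e1)]
    apply Nat.card_congr
    refine Equiv.subtypeEquivRight ?_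
    intro b
    constructor
    · rintro (rfl | hb)
      · intro g _
        exact h.fix g
      · rintro _ ⟨ψ, hψ, rfl⟩
        exact hb.ce ψ hψ
    · intro hb
      by_cases hba : b = a
      · exact Or.inl hba
      right
      obtain ⟨v, hv⟩ := hP b hba
      have hC : Ce (Xs ρ b) e1 := fun ψ hψ => hb _ ⟨ψ, hψ, rfl⟩
      obtain ⟨c, hc⟩ := cen_unique e1_ne hC hv.2.1
      have hc0 : c ≠ 0 := by
        rintro rfl
        rw [zero_smul] at hc
        exact hv.1 hc
      have h1 : (e1 : Fin 3 → F) = c⁻¹ • v := by rw [hc, smul_smul, inv_mul_cancel₀ hc0, one_smul]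
      rw [h1]
      exact hv.smul (inv_ne_zero hc0)
  · obtain ⟨i, hi⟩ := h.pow {g | ∃ w : Fin 3 → F, e3 ⬝ᵥ w = 0 ∧ g = tv w e3}
    refine ⟨i, ?_⟩
    have hc := dcount (fun (x : Fin 3 → F) (b : Ω) => Pt (Xs ρ b) x) (fun x => x ≠ 0 ∧ x 2 = 0)
      (c := Nat.card {b : Ω // Pt (Xs ρ b) e1}) (m := Nat.card F - 1) (fun x hx => pt_count x hx.1)
      (fun b hb => pt_fiber _ (fun c x hc hx => ⟨smul_ne_zero hc hx.1, by rw [smul_ap, hx.2, mul_zero]⟩) b hb)
    rw [card_plane 2 0 1 (by decide) (by decide) (by decide) (by decide)] at hc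
    have h1 : Nat.card F ^ 2 - 1 = (Nat.card F - 1) * (Nat.card F + 1) := by
      have := Nat.sq_sub_sq (Nat.card F) 1
      rw [one_pow] at this
      rw [this]; ring
    rw [h1, mul_assoc, mul_comm (Nat.card {b : Ω // _})] at hc
    have h2 := Nat.eq_of_mul_eq_mul_left hq hc
    rw [h2, ← hi, ← card_or a]
    · apply Nat.card_congr
      refine Equiv.subtypeEquivRight ?_
      intro b
      constructor
      · rintro (rfl | ⟨x, ⟨hx0, hx2⟩, hb⟩)
        · intro g _
          exact h.fix g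
        · rintro _ ⟨w, hw, rfl⟩
          exact hb.ax (by rw [e3_dot, hx2]) w hw
      · intro hb
        by_cases hba : b = a
        · exact Or.inl hba
        right
        obtain ⟨v, hv⟩ := hP b hba
        refine ⟨v, ⟨hv.1, ?_⟩, hv⟩
        by_contra hv2
        have ht : (e3 : Fin 3 → F) ⬝ᵥ e1 = 0 := by rw [dot_e1]; simp
        obtain ⟨μ, hμ⟩ := hv.2.1 _ (hb _ ⟨e1, ht, rfl⟩)
        rw [tv_smul ht, e3_dot] at hμ
        have h0 : (v 2) • (e1 : Fin 3 → F) = (μ - 1) • v := by
          rw [sub_smul, one_smul, ← hμ]; simp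
        have h3 := congrFun h0 2
        simp only [smul_ap, e1_two, mul_zero] at h3
        have h4 : μ - 1 = 0 := (mul_eq_zero.1 h3.symm).resolve_right hv2
        rw [h4, zero_smul] at h0
        exact smul_ne_zero hv2 e1_ne h0
    · rintro ⟨x, -, hx⟩
      exact not_pt_a h x hx
  · have hc := dcount (fun (x : Fin 3 → F) (b : Ω) => Pt (Xs ρ b) x) (fun x => x ≠ 0)
      (c := Nat.card {b : Ω // Pt (Xs ρ b) e1}) (m := Nat.card F - 1) (fun x hx => pt_count x hx)
      (fun b hb => pt_fiber _ (fun c x hc hx => smul_ne_zero hc hx) b hb)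
    rw [card_ne] at hc
    rw [hc]
    congr 1
    apply Nat.card_congr
    refine Equiv.subtypeEquivRight ?_
    intro b
    constructor
    · rintro ⟨x, -, hx⟩ rfl
      exact not_pt_a h x hx
    · intro hb
      obtain ⟨v, hv⟩ := hP b hb
      exact ⟨v, hv.1, hv⟩

end

end Cfsg.Agent.H438.SLThree
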