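import Mathlib
import Cfsg.Agent.H438.SLThreeD

/-!
# Actions of `SL₃(2ⁿ)` in which the numbers of fixed points are powers of 2, III (helper438, S3727)

`Aff.main` : in the situation `Aff ρ a` (with the centre of `SL₃(F)` acting trivially and `Ω ≠ {a}`) the set has `q³`
elements, `n` is odd and the group is transitive on the points different from `a`.
-/

set_option autoImplicit false
set_option linter.unusedSectionVars false
set_option linter.unusedSimpArgs false

namespace Cfsg.Agent.H438.SLThree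

open Matrix MulAction

section

variable {F : Type*} [Field F] [Finite F] {G Ω : Type*} [Group G] [MulAction G Ω] [Finite Ω]
  {ρ : S F →* G} {a : Ω}

/-- `μ` is an eigenvalue of an element of `X_b` on the line of `X_b`. -/
def EV (ρ : S F →* G) (b : Ω) (v : Fin 3 → F) (μ : F) : Prop := ∃ g ∈ Xs ρ b, g • v = μ • v

theorem Pt.mem {b : Ω} {v : Fin 3 → F} (h : Pt (Xs ρ b) v) {μ : F} (hμ : EV ρ b v μ) {g : S F} (hg : g • v = μ • v) :
    g ∈ Xs ρ b := by
  obtain ⟨k, hk, hkv⟩ := hμ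
  have h1 : (k⁻¹ * g) • v = v := by rw [mul_smul, hg, ← hkv, inv_smul_smul]
  have h2 := (Xs ρ b).mul_mem hk (h.2.2 _ h1)
  rwa [mul_inv_cancel_left] at h2

theorem EV.mul {b : Ω} {v : Fin 3 → F} {μ ν : F} (h1 : EV ρ b v μ) (h2 : EV ρ b v ν) : EV ρ b v (μ * ν) := by
  obtain ⟨g, hg, hgv⟩ := h1
  obtain ⟨k, hk, hkv⟩ := h2
  exact ⟨g * k, (Xs ρ b).mul_mem hg hk, by rw [mul_smul, hkv, smul_smul_comm', hgv, smul_smul, mul_comm]⟩

theorem EV.one {b : Ω} {v : Fin 3 → F} : EV ρ b v 1 := ⟨1, (Xs ρ b).one_mem, by rw [one_smul, one_smul]⟩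

theorem EV.pow {b : Ω} {v : Fin 3 → F} {μ : F} (h1 : EV ρ b v μ) (k : ℕ) : EV ρ b v (μ ^ k) := by
  induction k with
  | zero => rw [pow_zero]; exact EV.one
  | succ k ih => rw [pow_succ]; exact ih.mul h1

theorem EV.inv {b : Ω} {v : Fin 3 → F} {μ : F} (hv : v ≠ 0) (h1 : EV ρ b v μ) : EV ρ b v μ⁻¹ := by
  obtain ⟨g, hg, hgv⟩ := h1
  have hμ : μ ≠ 0 := by
    rintro rfl
    rw [zero_smul] at hgv
    exact smul_ne' hv g hgv
  refine ⟨g⁻¹, (Xs ρ b).inv_mem hg, ?_⟩
  rw [inv_smul_eq_iff, smul_smul_comm', hgv, smul_smul, inv_mul_cancel₀ hμ, one_smul]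

theorem EV.smul {b : Ω} {v : Fin 3 → F} {μ : F} (h1 : EV ρ b v μ) (c : F) : EV ρ b (c • v) μ := by
  obtain ⟨g, hg, hgv⟩ := h1
  exact ⟨g, hg, by rw [smul_smul_comm', hgv, smul_comm]⟩

theorem EV.conj {b : Ω} {v : Fin 3 → F} {μ : F} (h1 : EV ρ b v μ) (k : S F) : EV ρ (ρ k • b) (k • v) μ := by
  obtain ⟨g, hg, hgv⟩ := h1
  refine ⟨k * g * k⁻¹, ?_, ?_⟩
  · rw [Xs_conj]
    have : k⁻¹ * (k * g * k⁻¹) * k = g := by group
    rwa [this]
  · rw [mul_smul, mul_smul, inv_smul_smul, hgv, smul_smul_comm']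

theorem ev_count (x : Fin 3 → F) (hx : x ≠ 0) (μ : F) :
    Nat.card {b : Ω // Pt (Xs ρ b) x ∧ EV ρ b x μ} = Nat.card {b : Ω // Pt (Xs ρ b) e1 ∧ EV ρ b e1 μ} := by
  obtain ⟨h, hh⟩ := exists_smul hx
  symm
  apply Nat.card_congr
  refine (MulAction.toPerm (ρ h)).subtypeEquiv ?_
  intro b
  rw [MulAction.toPerm_apply]
  constructor
  · rintro ⟨hb, hb'⟩
    rw [← hh]
    exact ⟨hb.conj (Xs_conj ρ b h), hb'.conj h⟩
  · rintro ⟨hb, hb'⟩
    have h8 := hb.conj (Y := Xs ρ b) (h := h⁻¹) (by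
      intro g
      have := Xs_conj ρ (ρ h • b) h⁻¹ g
      rwa [← mul_smul, ← map_mul, inv_mul_cancel, map_one, one_smul] at this)
    have h9 := hb'.conj h⁻¹
    rw [← mul_smul, ← map_mul, inv_mul_cancel, map_one, one_smul, ← hh, inv_smul_smul] at h9
    rw [← hh, inv_smul_smul] at h8
    exact ⟨h8, h9⟩

theorem ev_fiber (K : (Fin 3 → F) → Prop) (hK : ∀ (c : F) (x : Fin 3 → F), c ≠ 0 → K x → K (c • x)) (μ : F) (b : Ω)
    (hb : ∃ x, K x ∧ Pt (Xs ρ b) x ∧ EV ρ b x μ) :
    Nat.card {x // K x ∧ Pt (Xs ρ b) x ∧ EV ρ b x μ} = Nat.card F - 1 := by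
  rw [← pt_fiber K hK b (by obtain ⟨x, h1, h2, -⟩ := hb; exact ⟨x, h1, h2⟩)]
  apply Nat.card_congr
  refine Equiv.subtypeEquivRight ?_
  intro x
  constructor
  · rintro ⟨h1, h2, -⟩
    exact ⟨h1, h2⟩
  · rintro ⟨h1, h2⟩
    obtain ⟨y, h3, h4, h5⟩ := hb
    obtain ⟨c, hc⟩ := cen_unique h4.1 h4.ce h2.2.1
    rw [hc] at h1 h2 ⊢
    exact ⟨h1, h2, h5.smul c⟩

/-- The diagonal elements with exactly two eigenvalues have no fixed point except `a`. -/
theorem ev_zero (h : Aff ρ a) (hP : ∀ b : Ω, b ≠ a → ∃ v, Pt (Xs ρ b) v) (h2F : Even (Nat.card F)) {μ ν : F}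
    (hμν : μ * ν * ν = 1) (hne : μ ≠ ν) {b : Ω} (hb : Pt (Xs ρ b) e1) (hev : EV ρ b e1 μ) (hpow : ∃ k : ℕ, ν = μ ^ k) :
    False := by
  classical
  have : Fintype Ω := Fintype.ofFinite Ω
  have hq := q_sub F
  obtain ⟨l, hl⟩ := hpow
  obtain ⟨k, hk⟩ := h.pow {dg μ ν ν hμν}
  have hν0 : ν ≠ 0 := by
    rintro rfl
    simp at hμν
  -- `μ` and `ν` generate the same group
  have hμ' : μ = ν⁻¹ ^ 2 := by
    field_simp
    rw [pow_two, ← mul_assoc, hμν]
  have hiff : ∀ (b : Ω) (v : Fin 3 → F), v ≠ 0 → (EV ρ b v μ ↔ EV ρ b v ν) := by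
    intro b v hv
    constructor
    · intro h1
      rw [hl]
      exact h1.pow l
    · intro h1
      rw [hμ']
      exact (h1.inv hv).pow 2
  -- the fixed points
  set a1 := Nat.card {b : Ω // Pt (Xs ρ b) e1 ∧ EV ρ b e1 μ} with ha1
  have hpos : 0 < a1 := by
    rw [ha1]
    have : Nonempty {b : Ω // Pt (Xs ρ b) e1 ∧ EV ρ b e1 μ} := ⟨⟨b, hb, hev⟩⟩
    exact Nat.card_pos
  have hc := dcount (fun (x : Fin 3 → F) (b : Ω) => Pt (Xs ρ b) x ∧ EV ρ b x μ) (fun x => x ≠ 0 ∧ x 0 = 0)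
    (c := a1) (m := Nat.card F - 1) (fun x hx => ev_count x hx.1 μ)
    (fun b hb => ev_fiber _ (fun c x hc hx => ⟨smul_ne_zero hc hx.1, by rw [smul_ap, hx.2, mul_zero]⟩) μ b hb)
  rw [card_plane 0 1 2 (by decide) (by decide) (by decide) (by decide)] at hc
  have h1 : Nat.card F ^ 2 - 1 = (Nat.card F - 1) * (Nat.card F + 1) := by
    have := Nat.sq_sub_sq (Nat.card F) 1
    rw [one_pow] at this
    rw [this]; ring
  rw [h1, mul_assoc, mul_comm (Nat.card {b : Ω // _})] at hc
  have h2 := Nat.eq_of_mul_eq_mul_left hq hc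
  have h3 : 2 ^ k = 1 + (a1 + (Nat.card F + 1) * a1) := by
    rw [h2, ha1, ← hk]
    have e : {b : Ω // ∀ g ∈ ({dg μ ν ν hμν} : Set (S F)), ρ g • b = b} ≃
        {b : Ω // b = a ∨ ((Pt (Xs ρ b) e1 ∧ EV ρ b e1 μ) ∨ ∃ x : Fin 3 → F, (x ≠ 0 ∧ x 0 = 0) ∧
          Pt (Xs ρ b) x ∧ EV ρ b x μ)} := by
      refine Equiv.subtypeEquivRight ?_
      intro b
      constructor
      · intro hb
        have hb' : dg μ ν ν hμν ∈ Xs ρ b := hb _ rfl
        by_cases hba : b = a
        · exact Or.inl hba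
        right
        obtain ⟨v, hv⟩ := hP b hba
        obtain ⟨c, hc⟩ := hv.2.1 _ hb'
        rw [dg_apply] at hc
        have c0 : μ * v 0 = c * v 0 := congrFun hc 0
        have c1 : ν * v 1 = c * v 1 := congrFun hc 1
        have c2 : ν * v 2 = c * v 2 := congrFun hc 2
        by_cases hv0 : v 0 = 0
        · right
          refine ⟨v, ⟨hv.1, hv0⟩, hv, (hiff b v hv.1).2 ⟨_, hb', ?_⟩⟩
          rw [dg_apply]
          apply ext3
          · rw [smul_ap, hv0, mul_zero]; simp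
          · rfl
          · rfl
        · left
          have hcμ : μ = c := mul_right_cancel₀ hv0 c0
          subst hcμ
          have hv1 : v 1 = 0 := by
            by_contra h5
            exact hne (mul_right_cancel₀ h5 c1).symm
          have hv2 : v 2 = 0 := by
            by_contra h5
            exact hne (mul_right_cancel₀ h5 c2).symm
          have hve : (e1 : Fin 3 → F) = (v 0)⁻¹ • v := ext3 (by simp [smul_ap, hv0]) (by simp [smul_ap, hv1])
            (by simp [smul_ap, hv2])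
          refine ⟨by rw [hve]; exact hv.smul (inv_ne_zero hv0), ⟨_, hb', ?_⟩⟩
          rw [dg_apply]
          apply ext3 <;> simp [smul_ap]
      · rintro (rfl | ⟨h5, h6⟩ | ⟨x, ⟨hx, hx0⟩, h5, h6⟩)
        · intro g _
          exact h.fix g
        · rintro _ rfl
          refine h5.mem h6 ?_
          rw [dg_apply]
          apply ext3 <;> simp [smul_ap]
        · rintro _ rfl
          refine h5.mem ((hiff b x hx).1 h6) ?_
          rw [dg_apply]
          apply ext3
          · rw [smul_ap, hx0, mul_zero]; simp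
          · rfl
          · rfl
    rw [Nat.card_congr e, card_or a]
    · congr 1
      rw [Nat.card_eq_fintype_card, Nat.card_eq_fintype_card, Nat.card_eq_fintype_card,
        Fintype.card_subtype_or_disjoint]
      rw [Pi.disjoint_iff]
      intro b
      rw [Prop.disjoint_iff]
      rintro ⟨⟨h5, -⟩, x, ⟨hx, hx0⟩, h6, -⟩
      obtain ⟨c, hc⟩ := cen_unique h5.1 h5.ce h6.2.1
      have h7 : x 0 = c := by rw [hc, smul_ap]; simp
      rw [hx0] at h7
      rw [hc, ← h7, zero_smul] at hx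
      exact hx rfl
    · rintro (⟨h5, -⟩ | ⟨x, -, h5, -⟩)
      · exact not_pt_a h _ h5
      · exact not_pt_a h _ h5
  -- parity
  have h4 : 2 ^ k = 1 + 2 * (a1 + (Nat.card F / 2) * a1) := by
    rw [h3]
    obtain ⟨r, hr⟩ := h2F
    have : Nat.card F / 2 = r := by omega
    rw [this, hr]; ring
  have h5 : k = 0 := by
    by_contra h6
    obtain ⟨m, rfl⟩ := Nat.exists_eq_succ_of_ne_zero h6
    rw [pow_succ] at h4
    omega
  rw [h5, pow_zero] at h4
  omega

/-- An element with three different eigenvalues `1, ω, ω²` has `1 + 3A` fixed points. -/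
theorem omega_count (h : Aff ρ a) (hP : ∀ b : Ω, b ≠ a → ∃ v, Pt (Xs ρ b) v)
    (hz : ∀ (ω : F) (hω : ω * ω * ω = 1), ρ (dg ω ω ω hω) = 1) {ω : F} (hω : ω * ω * ω = 1) (hne : ω ≠ 1) :
    ∃ k, 1 + 3 * Nat.card {b : Ω // Pt (Xs ρ b) e1} = 2 ^ k := by
  classical
  have : Fintype Ω := Fintype.ofFinite Ω
  have hd : 1 * ω * (ω * ω) = 1 := by rw [one_mul, ← mul_assoc, hω]
  have hω0 : ω ≠ 0 := by
    rintro rfl
    simp at hω
  have hne2 : ω * ω ≠ 1 := by
    intro h1
    rw [h1, one_mul] at hω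
    exact hne hω
  have hne3 : ω * ω ≠ ω := by
    intro h1
    exact hne (mul_right_cancel₀ hω0 (by rw [h1, one_mul]))
  have hev : ∀ (b : Ω) (v : Fin 3 → F), EV ρ b v ω := by
    intro b v
    refine ⟨dg ω ω ω hω, ?_, ?_⟩
    · rw [mem_Xs, hz, one_smul]
    · rw [dg_apply]
      apply ext3 <;> rfl
  obtain ⟨k, hk⟩ := h.pow {dg 1 ω (ω * ω) hd}
  refine ⟨k, ?_⟩
  rw [← hk]
  have hv : ∀ i : Fin 3, (Pi.single i 1 : Fin 3 → F) ≠ 0 := fun i h0 => by
    have := congrFun h0 i
    rw [Pi.single_eq_same] at this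
    exact one_ne_zero this
  have e : {b : Ω // ∀ g ∈ ({dg 1 ω (ω * ω) hd} : Set (S F)), ρ g • b = b} ≃
      {b : Ω // b = a ∨ ∃ i : Fin 3, Pt (Xs ρ b) (Pi.single i 1)} := by
    refine Equiv.subtypeEquivRight ?_
    intro b
    constructor
    · intro hb
      have hb' : dg 1 ω (ω * ω) hd ∈ Xs ρ b := hb _ rfl
      by_cases hba : b = a
      · exact Or.inl hba
      right
      obtain ⟨v, hv⟩ := hP b hba
      obtain ⟨c, hc⟩ := hv.2.1 _ hb'
      rw [dg_apply] at hc
      have c0 : 1 * v 0 = c * v 0 := congrFun hc 0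
      have c1 : ω * v 1 = c * v 1 := congrFun hc 1
      have c2 : (ω * ω) * v 2 = c * v 2 := congrFun hc 2
      have h01 : v 0 = 0 ∨ v 1 = 0 := by
        by_contra hcon
        push Not at hcon
        exact hne ((mul_right_cancel₀ hcon.2 c1).trans (mul_right_cancel₀ hcon.1 c0).symm)
      have h02 : v 0 = 0 ∨ v 2 = 0 := by
        by_contra hcon
        push Not at hcon
        exact hne2 ((mul_right_cancel₀ hcon.2 c2).trans (mul_right_cancel₀ hcon.1 c0).symm)
      have h12 : v 1 = 0 ∨ v 2 = 0 := by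
        by_contra hcon
        push Not at hcon
        exact hne3 ((mul_right_cancel₀ hcon.2 c2).trans (mul_right_cancel₀ hcon.1 c1).symm)
      have key : ∀ i : Fin 3, (∀ j, j ≠ i → v j = 0) → Pt (Xs ρ b) (Pi.single i 1) := by
        intro i hi
        have hvi : v i ≠ 0 := by
          intro h0
          apply hv.1
          funext j
          by_cases hj : j = i
          · rw [hj, h0]; rfl
          · exact hi j hj
        have hve : (Pi.single i 1 : Fin 3 → F) = (v i)⁻¹ • v := by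
          funext j
          by_cases hj : j = i
          · rw [hj, Pi.single_eq_same, smul_ap, inv_mul_cancel₀ hvi]
          · rw [Pi.single_eq_of_ne hj, smul_ap, hi j hj, mul_zero]
        rw [hve]
        exact hv.smul (inv_ne_zero hvi)
      by_cases hv0 : v 0 = 0
      · rcases h12 with h1 | h1
        · refine ⟨2, key 2 ?_⟩
          intro j hj
          fin_cases j
          · exact hv0
          · exact h1
          · exact (hj rfl).elim
        · refine ⟨1, key 1 ?_⟩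
          intro j hj
          fin_cases j
          · exact hv0
          · exact (hj rfl).elim
          · exact h1
      · refine ⟨0, key 0 ?_⟩
        intro j hj
        fin_cases j
        · exact (hj rfl).elim
        · exact h01.resolve_left hv0
        · exact h02.resolve_left hv0
    · rintro (rfl | ⟨i, hi⟩)
      · intro g _
        exact h.fix g
      · rintro _ rfl
        refine hi.mem ((hev b _).pow (i : ℕ)) ?_
        rw [dg_apply]
        fin_cases i
        · apply ext3 <;> simp [smul_ap]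
        · apply ext3 <;> simp [smul_ap]
        · apply ext3 <;> simp [smul_ap, pow_two]
  rw [Nat.card_congr e, card_or a]
  · congr 1
    have e2 : {b : Ω // ∃ i : Fin 3, Pt (Xs ρ b) (Pi.single i 1)} ≃
        Σ i : Fin 3, {b : Ω // Pt (Xs ρ b) (Pi.single i 1)} := by
      symm
      refine Equiv.ofBijective (fun p => ⟨p.2.1, p.1, p.2.2⟩) ⟨?_, ?_⟩
      · rintro ⟨i, b, hb⟩ ⟨j, b', hb'⟩ heq
        have h1 : b = b' := congrArg Subtype.val heq
        subst h1
        have h2 : i = j := by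
          obtain ⟨c, hc⟩ := cen_unique hb.1 hb.ce hb'.2.1
          by_contra hij
          have h3 := congrFun hc j
          rw [Pi.single_eq_same, smul_ap, Pi.single_eq_of_ne (fun h => hij h.symm), mul_zero] at h3
          exact one_ne_zero h3
        subst h2
        rfl
      · rintro ⟨b, i, hb⟩
        exact ⟨⟨i, b, hb⟩, rfl⟩
    rw [Nat.card_congr e2, Nat.card_sigma, Finset.sum_congr rfl (g := fun _ => Nat.card {b : Ω // Pt (Xs ρ b) e1})]
    · simp
    · intro i _
      exact pt_count _ (hv i)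
  · rintro ⟨i, hi⟩
    exact not_pt_a h _ hi

/-- The conclusion: `q = 2ⁿ` with `n` odd, `|Ω| = q³` and transitivity on the points different from `a`. -/
theorem main_pt [CharP F 2] (h : Aff ρ a) (hP : ∀ b : Ω, b ≠ a → ∃ v, Pt (Xs ρ b) v)
    (hz : ∀ (ω : F) (hω : ω * ω * ω = 1), ρ (dg ω ω ω hω) = 1) (hex : ∃ b, b ≠ a) {n : ℕ} (hn : 1 ≤ n)
    (hF : Nat.card F = 2 ^ n) :
    Odd n ∧ Nat.card Ω = Nat.card F ^ 3 ∧ ∀ b b' : Ω, b ≠ a → b' ≠ a → ∃ g, ρ g • b = b' := by
  classical
  have : Fintype Ω := Fintype.ofFinite Ω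
  have : Fintype F := Fintype.ofFinite F
  have hq := q_sub F
  obtain ⟨⟨i, hi⟩, ⟨k, hk⟩, h3⟩ := counts h hP
  set A := Nat.card {b : Ω // Pt (Xs ρ b) e1} with hA
  have hA1 : 1 ≤ A := by
    obtain ⟨b, hb⟩ := hex
    obtain ⟨v, hv⟩ := hP b hb
    rw [hA, ← pt_count v hv.1]
    have : Nonempty {b : Ω // Pt (Xs ρ b) v} := ⟨⟨b, hv⟩⟩
    exact Nat.card_pos
  rw [hF] at hk
  have hAq : A = 2 ^ n - 1 := arith_q hn hA1 hi hk
  have heven : Even (Nat.card F) := by
    rw [hF, Nat.even_pow]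
    exact ⟨even_two, by omega⟩
  -- no primitive cube root of unity
  have hω1 : ∀ ω : F, ω * ω * ω = 1 → ω = 1 := by
    intro ω hω
    by_contra hne
    obtain ⟨l, hl⟩ := omega_count h hP hz hω hne
    rw [← hA, hAq] at hl
    obtain ⟨m, rfl⟩ : ∃ m, n = m + 1 := ⟨n - 1, by omega⟩
    -- `3 ∣ q - 1`
    have hω0 : ω ≠ 0 := by
      rintro rfl
      simp at hω
    have h4 : orderOf (Units.mk0 ω hω0) = 3 := by
      have : Fact (Nat.Prime 3) := ⟨Nat.prime_three⟩
      apply orderOf_eq_prime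
      · apply Units.ext
        push_cast
        rw [Units.val_mk0, pow_succ, pow_two, hω]
      · intro h5
        exact hne (by simpa using congrArg Units.val h5)
    have h5 : 3 ∣ Nat.card F - 1 := by
      have h6 := orderOf_dvd_natCard (Units.mk0 ω hω0)
      rw [h4, Nat.card_units] at h6
      exact h6
    rw [hF] at h5
    have hm : m ≠ 0 := by
      rintro rfl
      norm_num at h5
    obtain ⟨m, rfl⟩ := Nat.exists_eq_succ_of_ne_zero hm
    have hl' : l ≠ 0 := by
      rintro rfl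
      have : 2 ^ (m.succ + 1) = 2 ^ m * 4 := by rw [Nat.succ_eq_add_one, pow_add, pow_add]; norm_num; ring
      rw [this] at hl
      have h7 : 0 < 2 ^ m := by positivity
      omega
    obtain ⟨l, rfl⟩ := Nat.exists_eq_succ_of_ne_zero hl'
    have hl'' : l ≠ 0 := by
      rintro rfl
      have : 2 ^ (m.succ + 1) = 2 ^ m * 4 := by rw [Nat.succ_eq_add_one, pow_add, pow_add]; norm_num; ring
      rw [this] at hl
      have h7 : 0 < 2 ^ m := by positivity
      omega
    obtain ⟨l, rfl⟩ := Nat.exists_eq_succ_of_ne_zero hl''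
    have e1 : 2 ^ (m.succ + 1) = 2 ^ m * 4 := by rw [Nat.succ_eq_add_one, pow_add, pow_add]; norm_num; ring
    have e2 : 2 ^ (l.succ.succ) = 2 ^ l * 4 := by
      rw [pow_succ, pow_succ]; ring
    rw [e1, e2] at hl
    have h7 : 0 < 2 ^ m := by positivity
    omega
  -- all stabilisers are stabilisers of vectors
  have hM : ∀ b : Ω, Pt (Xs ρ b) e1 → ∀ g ∈ Xs ρ b, g • (e1 : Fin 3 → F) = e1 := by
    intro b hb g hg
    obtain ⟨μ, hμ⟩ := hb.2.1 g hg
    have hev : EV ρ b e1 μ := ⟨g, hg, hμ⟩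
    have hμ0 : μ ≠ 0 := by
      rintro rfl
      rw [zero_smul] at hμ
      exact smul_ne' e1_ne g hμ
    by_cases hμ1 : μ = 1
    · rw [hμ, hμ1, one_smul]
    exfalso
    -- the square root of `μ⁻¹`
    have hcard : 0 < Fintype.card F := Fintype.card_pos
    have hF' : Fintype.card F = 2 ^ n := by rw [← hF, Nat.card_eq_fintype_card]
    have hpow : μ ^ (2 ^ n - 1) = 1 := by
      have := FiniteField.pow_card_sub_one_eq_one μ hμ0
      rwa [hF'] at this
    obtain ⟨m, rfl⟩ : ∃ m, n = m + 1 := ⟨n - 1, by omega⟩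
    set ν := μ ^ (2 ^ m - 1) with hν
    have hμν : μ * ν * ν = 1 := by
      rw [← hpow, hν, mul_assoc, ← pow_add, ← pow_succ']
      congr 1
      have h7 : 0 < 2 ^ m := by positivity
      rw [pow_succ]
      omega
    refine ev_zero h hP heven hμν ?_ hb hev ⟨_, hν⟩
    intro h8
    rw [← h8] at hμν
    exact hμ1 (hω1 μ hμν)
  -- the number of points
  have hcardne : Nat.card {b : Ω // b ≠ a} = Nat.card F ^ 3 - 1 := by
    rw [hAq, hF] at h3
    rw [hF] at hq ⊢
    exact (Nat.eq_of_mul_eq_mul_right hq h3).symm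
  refine ⟨?_, ?_, ?_⟩
  · -- `n` is odd
    by_contra hodd
    rw [Nat.not_odd_iff_even] at hodd
    obtain ⟨r, hr⟩ := hodd
    have h3d : 3 ∣ Nat.card Fˣ := by
      rw [Nat.card_units, hF, hr, ← two_mul, pow_mul]
      have := Nat.sub_dvd_pow_sub_pow (2 ^ 2) 1 r
      rwa [one_pow] at this
    have : Fact (Nat.Prime 3) := ⟨Nat.prime_three⟩
    obtain ⟨u, hu⟩ := exists_prime_orderOf_dvd_card' 3 h3d
    have h4 : (u : F) * u * u = 1 := by
      have h5 := pow_orderOf_eq_one u
      rw [hu] at h5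
      have := congrArg Units.val h5
      push_cast at this
      rw [← this]; ring
    have h6 := hω1 _ h4
    have h7 : u = 1 := Units.ext h6
    rw [h7, orderOf_one] at hu
    norm_num at hu
  · have h4 : Nat.card Ω = 1 + Nat.card {b : Ω // b ≠ a} := by
      rw [← card_or a (fun b => b ≠ a) (fun h => h rfl)]
      symm
      apply Nat.card_congr
      exact Equiv.subtypeUnivEquiv (fun b => eq_or_ne b a)
    rw [h4, hcardne]
    have : 0 < Nat.card F ^ 3 := by rw [hF]; positivity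
    omega
  · -- transitivity
    have key : ∀ b : Ω, Pt (Xs ρ b) e1 → ∀ b' : Ω, b' ≠ a → ∃ g, ρ g • b = b' := by
      intro b hb
      have hba : b ≠ a := by
        rintro rfl
        exact not_pt_a h _ hb
      have hc : ∀ x : {x : Fin 3 → F // x ≠ 0}, ∃ g : S F, g • (e1 : Fin 3 → F) = x.1 := fun x => exists_smul x.2
      choose f hf using hc
      set Φ : {x : Fin 3 → F // x ≠ 0} → {b : Ω // b ≠ a} := fun x => ⟨ρ (f x) • b, by
        intro h0
        apply hba
        rw [← h.fix (f x)] at h0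
        exact smul_left_cancel _ h0⟩ with hΦ
      have hinj : Function.Injective Φ := by
        intro x y hxy
        have h1 : ρ (f x) • b = ρ (f y) • b := congrArg Subtype.val hxy
        have h2 : (f y)⁻¹ * f x ∈ Xs ρ b := by
          rw [mem_Xs, map_mul, map_inv, mul_smul, h1, inv_smul_smul]
        have h3 := hM b hb _ h2
        rw [mul_smul, hf, inv_smul_eq_iff, hf] at h3
        exact Subtype.ext h3
      have hbij : Function.Bijective Φ := by
        rw [Fintype.bijective_iff_injective_and_card]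
        refine ⟨hinj, ?_⟩
        rw [← Nat.card_eq_fintype_card, ← Nat.card_eq_fintype_card, hcardne, card_ne]
      intro b' hb'
      obtain ⟨x, hx⟩ := hbij.2 ⟨b', hb'⟩
      exact ⟨f x, congrArg Subtype.val hx⟩
    intro b b' hb hb'
    obtain ⟨v, hv⟩ := hP b hb
    obtain ⟨k, hk⟩ := exists_smul hv.1
    have h5 : Pt (Xs ρ (ρ k⁻¹ • b)) e1 := by
      have := hv.conj (Xs_conj ρ b k⁻¹)
      rwa [← hk, inv_smul_smul] at this
    obtain ⟨g, hg⟩ := key _ h5 b' hb'
    exact ⟨g * k⁻¹, by rw [map_mul, mul_smul, hg]⟩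

theorem main [CharP F 2] (h : Aff ρ a)
    (hz : ∀ (ω : F) (hω : ω * ω * ω = 1), ρ (dg ω ω ω hω) = 1) (hex : ∃ b, b ≠ a) {n : ℕ} (hn : 1 ≤ n)
    (hF : Nat.card F = 2 ^ n) :
    Odd n ∧ Nat.card Ω = Nat.card F ^ 3 ∧ ∀ b b' : Ω, b ≠ a → b' ≠ a → ∃ g, ρ g • b = b' := by
  rcases all_pt_or h with hP | hP
  · exact main_pt h hP hz hex hn hF
  · obtain ⟨h1, h2, h3⟩ := main_pt h.toDual hP (by
      intro ω hω
      have hω0 : ω ≠ 0 := by
        rintro rfl
        simp at hω
      have h1 : SLThree.dual (dg ω ω ω hω) = dg ω⁻¹ ω⁻¹ ω⁻¹ (by rw [← mul_inv, ← mul_inv, hω, inv_one]) := by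
        apply ext_smul
        intro v
        rw [dual_smul]
        have h2 : (dg ω ω ω hω)⁻¹ = dg ω⁻¹ ω⁻¹ ω⁻¹ (by rw [← mul_inv, ← mul_inv, hω, inv_one]) := by
          rw [inv_eq_iff_mul_eq_one]
          apply ext_smul
          intro w
          rw [mul_smul, dg_apply, dg_apply, one_smul]
          apply ext3 <;> simp [hω0]
        rw [h2, row_dg, dg_apply]
      rw [MonoidHom.comp_apply, h1]
      exact hz _ _) hex hn hF
    refine ⟨h1, h2, ?_⟩
    intro b b' hb hb'
    obtain ⟨g, hg⟩ := h3 b b' hb hb'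
    exact ⟨_, hg⟩

end

end Cfsg.Agent.H438.SLThree
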