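import Mathlib
import Cfsg.Agent.H438.SLThreeE
import Cfsg.Agent.ClassicalGeometry.AutPSL.Main

/-!
# `SL₃(F)`: centre, normal subgroups of parabolic subgroups, semilinear maps (helper438, S3727)
-/

set_option autoImplicit false
set_option linter.unusedSectionVars false
set_option linter.unusedSimpArgs false

namespace Cfsg.Agent.H438.SLThree

open Matrix MulAction

section centre

variable {F : Type*} [Field F]

theorem mem_center_iff' {g : S F} : g ∈ Subgroup.center (S F) ↔ ∃ ω : F, ω * ω * ω = 1 ∧ ∀ v : Fin 3 → F, g • v = ω • v := by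
  rw [Matrix.SpecialLinearGroup.mem_center_iff]
  constructor
  · rintro ⟨r, hr, hg⟩
    rw [Fintype.card_fin, pow_succ, pow_two] at hr
    refine ⟨r, hr, ?_⟩
    intro v
    rw [smul_eq, ← hg, scalar_apply]
    apply ext3 <;> rw [mulVec_diagonal] <;> rfl
  · rintro ⟨ω, hω, hg⟩
    refine ⟨ω, by rw [Fintype.card_fin, pow_succ, pow_two, hω], ?_⟩
    have h1 : (dg ω ω ω hω) = g := by
      apply ext_smul
      intro v
      rw [hg, dg_apply]
      apply ext3 <;> rfl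
    rw [← h1]
    ext i j
    rw [scalar_apply]
    change diagonal _ i j = diagonal ![ω, ω, ω] i j
    fin_cases i <;> fin_cases j <;> simp [diagonal]

theorem dg_mem_center {ω : F} (hω : ω * ω * ω = 1) : dg ω ω ω hω ∈ Subgroup.center (S F) := by
  rw [mem_center_iff']
  refine ⟨ω, hω, ?_⟩
  intro v
  rw [dg_apply]
  apply ext3 <;> rfl

theorem exists_dot {φ : Fin 3 → F} (hφ : φ ≠ 0) : ∃ u : Fin 3 → F, φ ⬝ᵥ u = 1 := by
  by_contra hc
  push Not at hc
  apply hφ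
  have key : ∀ u : Fin 3 → F, φ ⬝ᵥ u = 0 := by
    intro u
    by_contra h0
    apply hc ((φ ⬝ᵥ u)⁻¹ • u)
    rw [dotProduct_smul, smul_eq_mul, inv_mul_cancel₀ h0]
  have h0 := key ![1, 0, 0]
  have h1 := key ![0, 1, 0]
  have h2 := key ![0, 0, 1]
  rw [dot_apply] at h0 h1 h2
  exact ext3 (by simpa using h0) (by simpa using h1) (by simpa using h2)

theorem exists_dot' {v : Fin 3 → F} (hv : v ≠ 0) : ∃ ψ : Fin 3 → F, ψ ⬝ᵥ v = 1 := by
  obtain ⟨u, hu⟩ := exists_dot hv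
  exact ⟨u, by rw [dotProduct_comm, hu]⟩

/-- two rows have a common zero -/
theorem exists_common (φ ψ : Fin 3 → F) : ∃ u : Fin 3 → F, u ≠ 0 ∧ φ ⬝ᵥ u = 0 ∧ ψ ⬝ᵥ u = 0 := by
  classical
  by_cases h0 : crossProduct φ ψ = 0
  · -- dependent rows
    by_cases hφ : φ = 0
    · by_cases hψ : ψ = 0
      · exact ⟨e1, e1_ne, by rw [hφ, zero_dotProduct], by rw [hψ, zero_dotProduct]⟩
      · obtain ⟨k, hk⟩ := exists_row hψ
        refine ⟨k • e1, smul_ne' e1_ne k, by rw [hφ, zero_dotProduct], ?_⟩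
        rw [← row_dot, ← hk, row_inv_row, dot_e1]
        rfl
    · obtain ⟨k, hk⟩ := exists_row hφ
      have hpar : ∃ c : F, ψ = c • φ := by
        have c0 := congrFun h0 0
        have c1 := congrFun h0 1
        have c2 := congrFun h0 2
        simp [cross_apply] at c0 c1 c2
        by_cases p0 : φ 0 = 0
        · by_cases p1 : φ 1 = 0
          · have p2 : φ 2 ≠ 0 := fun p2 => hφ (ext3 p0 p1 p2)
            refine ⟨ψ 2 / φ 2, ext3 ?_ ?_ ?_⟩
            · rw [smul_ap, p0, mul_zero]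
              rw [p0] at c1
              simp at c1
              exact c1.resolve_left p2
            · rw [smul_ap, p1, mul_zero]
              rw [p1] at c0
              simp at c0
              exact c0.resolve_left p2
            · rw [smul_ap]
              field_simp
          · refine ⟨ψ 1 / φ 1, ext3 ?_ ?_ ?_⟩
            · rw [smul_ap]
              field_simp
              linear_combination -c2
            · rw [smul_ap]
              field_simp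
            · rw [smul_ap]
              field_simp
              linear_combination c0
        · refine ⟨ψ 0 / φ 0, ext3 ?_ ?_ ?_⟩
          · rw [smul_ap]
            field_simp
          · rw [smul_ap]
            field_simp
            linear_combination c2
          · rw [smul_ap]
            field_simp
            linear_combination -c1
      obtain ⟨c, hc⟩ := hpar
      have h1 : φ ⬝ᵥ (k • e1) = 0 := by
        rw [← row_dot, ← hk, row_inv_row, dot_e1]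
        rfl
      refine ⟨k • e1, smul_ne' e1_ne k, h1, ?_⟩
      rw [hc, smul_dotProduct, h1, smul_zero]
  · exact ⟨crossProduct φ ψ, h0, dot_self_cross _ _, dot_cross_self _ _⟩

theorem tv_eq_one {v φ : Fin 3 → F} (h : φ ⬝ᵥ v = 0) (h1 : tv v φ = 1) : v = 0 ∨ φ = 0 := by
  by_contra hc
  push Not at hc
  obtain ⟨u, hu⟩ := exists_dot hc.2
  have h2 := tv_smul h u
  rw [h1, one_smul, hu, one_smul] at h2
  exact hc.1 (by simpa using h2)

theorem tv_mem_center {v φ : Fin 3 → F} (h : φ ⬝ᵥ v = 0) (h1 : tv v φ ∈ Subgroup.center (S F)) : v = 0 ∨ φ = 0 := by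
  apply tv_eq_one h
  obtain ⟨ω, hω, hg⟩ := mem_center_iff'.1 h1
  obtain ⟨u, hu, hu1, -⟩ := exists_common φ φ
  have h2 := hg u
  rw [tv_smul h, hu1, zero_smul, add_zero] at h2
  have h3 : ω = 1 := by
    have : (1 : F) • u = ω • u := by rw [one_smul]; exact h2
    exact (smul_left_injective F hu this).symm
  apply ext_smul
  intro w
  rw [hg, h3, one_smul, one_smul]

/-- equality modulo the centre -/
theorem tv_eq_of_center {v φ w ψ : Fin 3 → F} (h : φ ⬝ᵥ v = 0) (h' : ψ ⬝ᵥ w = 0)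
    (h1 : (tv w ψ)⁻¹ * tv v φ ∈ Subgroup.center (S F)) : tv v φ = tv w ψ := by
  obtain ⟨ω, hω, hg⟩ := mem_center_iff'.1 h1
  obtain ⟨u, hu, hu1, hu2⟩ := exists_common φ ψ
  have h2 := hg u
  rw [mul_smul, inv_smul_eq_iff, smul_smul_comm', tv_smul h, tv_smul h', hu1, hu2, zero_smul, zero_smul, add_zero] at h2

  have h3 : ω = 1 := by
    have : (1 : F) • u = ω • u := by rw [one_smul]; exact h2
    exact (smul_left_injective F hu this).symm
  apply ext_smul
  intro x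
  have h4 := hg x
  rwa [mul_smul, inv_smul_eq_iff, h3, one_smul] at h4

theorem tv_inj {v φ w ψ : Fin 3 → F} (h : φ ⬝ᵥ v = 0) (h' : ψ ⬝ᵥ w = 0) (hv : v ≠ 0) (hφ : φ ≠ 0)
    (he : tv v φ = tv w ψ) : ∃ c : F, c ≠ 0 ∧ w = c • v ∧ ψ = c⁻¹ • φ := by
  have hall : ∀ u : Fin 3 → F, (φ ⬝ᵥ u) • v = (ψ ⬝ᵥ u) • w := by
    intro u
    have h1 := tv_smul h u
    rw [he, tv_smul h'] at h1
    exact (add_left_cancel h1).symm
  obtain ⟨u, hu⟩ := exists_dot hφ
  have h1 := hall u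
  rw [hu, one_smul] at h1
  have h2 : ψ ⬝ᵥ u ≠ 0 := by
    intro h0
    rw [h0, zero_smul] at h1
    exact hv h1
  have hw : w = (ψ ⬝ᵥ u)⁻¹ • v := by rw [h1, smul_smul, inv_mul_cancel₀ h2, one_smul]
  have hw0 : w ≠ 0 := by
    rw [hw]
    exact smul_ne_zero (inv_ne_zero h2) hv
  refine ⟨(ψ ⬝ᵥ u)⁻¹, inv_ne_zero h2, hw, ?_⟩
  rw [inv_inv]
  have key : ∀ x : Fin 3 → F, ψ ⬝ᵥ x = (ψ ⬝ᵥ u) * (φ ⬝ᵥ x) := by
    intro x
    have h3 := hall x
    rw [h1, smul_smul] at h3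
    have := smul_left_injective F hw0 h3
    rw [← this]; ring
  have k0 := key ![1, 0, 0]
  have k1 := key ![0, 1, 0]
  have k2 := key ![0, 0, 1]
  simp only [dot_apply ψ ![1, 0, 0], dot_apply φ ![1, 0, 0], dot_apply ψ ![0, 1, 0], dot_apply φ ![0, 1, 0],
    dot_apply ψ ![0, 0, 1], dot_apply φ ![0, 0, 1]] at k0 k1 k2
  exact ext3 (by rw [smul_ap]; simpa using k0) (by rw [smul_ap]; simpa using k1) (by rw [smul_ap]; simpa using k2)

theorem tv_mul {v φ ψ : Fin 3 → F} (h : φ ⬝ᵥ v = 0) (h' : ψ ⬝ᵥ v = 0) : tv v φ * tv v ψ = tv v (φ + ψ) := by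
  apply ext_smul
  intro u
  rw [mul_smul, tv_smul h, tv_smul h', tv_smul (by rw [add_dotProduct, h, h', add_zero]), dotProduct_add,
    dotProduct_smul, h, smul_zero, add_zero, add_dotProduct, add_smul, add_assoc, add_comm ((ψ ⬝ᵥ u) • v)]

theorem tv_mul' {v w φ : Fin 3 → F} (h : φ ⬝ᵥ v = 0) (h' : φ ⬝ᵥ w = 0) : tv v φ * tv w φ = tv (v + w) φ := by
  apply ext_smul
  intro u
  rw [mul_smul, tv_smul h, tv_smul h', tv_smul (by rw [dotProduct_add, h, h', add_zero]), dotProduct_add,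
    dotProduct_smul, h', smul_zero, add_zero, smul_add, add_assoc, add_comm ((φ ⬝ᵥ u) • w)]

theorem tv_zero_right (v : Fin 3 → F) : tv v (0 : Fin 3 → F) = 1 := by
  apply ext_smul
  intro u
  rw [tv_smul (zero_dotProduct _), zero_dotProduct, zero_smul, add_zero, one_smul]

theorem tv_zero_left (φ : Fin 3 → F) : tv (0 : Fin 3 → F) φ = 1 := by
  apply ext_smul
  intro u
  rw [tv_smul (dotProduct_zero _), smul_zero, add_zero, one_smul]

theorem tv_inv {v φ : Fin 3 → F} (h : φ ⬝ᵥ v = 0) : (tv v φ)⁻¹ = tv v (-φ) := by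
  rw [inv_eq_iff_mul_eq_one, tv_mul h (by rw [neg_dotProduct, h, neg_zero]), add_neg_cancel, tv_zero_right]

theorem tv_sq [CharP F 2] {v φ : Fin 3 → F} (h : φ ⬝ᵥ v = 0) : tv v φ * tv v φ = 1 := by
  have h1 : φ + φ = 0 := by
    funext i
    exact CharTwo.add_self_eq_zero _
  rw [tv_mul h h, h1]
  exact tv_zero_right v

end centre

/-! ### normal subgroups of parabolic subgroups -/

section normal

variable {F : Type*} [Field F]

theorem exists_ker {φ χ : Fin 3 → F} (hφ : φ ≠ 0) (h : ¬ ∃ c : F, χ = c • φ) :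
    ∃ w : Fin 3 → F, φ ⬝ᵥ w = 0 ∧ χ ⬝ᵥ w ≠ 0 := by
  by_contra hc
  push Not at hc
  apply h
  obtain ⟨c, hc⟩ := sep hφ (w := χ) (by
    intro ψ hψ
    rw [dotProduct_comm] at hψ ⊢
    exact hc ψ hψ)
  exact ⟨c, hc⟩

theorem exists_ker' {v w : Fin 3 → F} (hv : v ≠ 0) (h : ¬ ∃ c : F, w = c • v) :
    ∃ ψ : Fin 3 → F, ψ ⬝ᵥ v = 0 ∧ ψ ⬝ᵥ w ≠ 0 := by
  by_contra hc
  push Not at hc
  exact h (sep hv (fun ψ hψ => hc ψ hψ))

/-- A noncentral element of the stabiliser of `⟨v⟩` yields a transvection with centre `v`. -/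
theorem exists_ce {Y : Subgroup (S F)} {v : Fin 3 → F} (hv : v ≠ 0) (hcen : Subgroup.center (S F) ≤ Y)
    (hn : ∀ ψ : Fin 3 → F, ψ ⬝ᵥ v = 0 → ∀ y ∈ Y, tv v ψ * y * (tv v ψ)⁻¹ ∈ Y) {y : S F} (hy : y ∈ Y)
    (hyc : y ∉ Subgroup.center (S F)) {μ : F} (hμ : y • v = μ • v) :
    ∃ χ : Fin 3 → F, χ ⬝ᵥ v = 0 ∧ χ ≠ 0 ∧ tv v χ ∈ Y := by
  have hμ0 : μ ≠ 0 := by
    rintro rfl
    rw [zero_smul] at hμ
    exact smul_ne' hv y hμ
  by_cases hall : ∀ ψ : Fin 3 → F, ψ ⬝ᵥ v = 0 → μ • row ψ y⁻¹ = ψ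
  · -- `y` is a scalar times a transvection
    have h1 : ∀ ψ : Fin 3 → F, ψ ⬝ᵥ v = 0 → row ψ y = μ • ψ := by
      intro ψ hψ
      have h2 := congrArg (fun φ => row φ y) (hall ψ hψ)
      simp only [row_smul, row_inv_row] at h2
      exact h2.symm
    have h2 : ∀ u : Fin 3 → F, ∃ c : F, y • u = μ • u + c • v := by
      intro u
      obtain ⟨c, hc⟩ := sep hv (w := y • u - μ • u) (by
        intro ψ hψ
        rw [dotProduct_sub, ← row_dot, h1 ψ hψ, smul_dotProduct, dotProduct_smul, sub_self])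
      exact ⟨c, by rw [← hc]; abel⟩
    -- the determinant gives `μ³ = 1`
    obtain ⟨k, hk⟩ := exists_smul hv
    set z := k⁻¹ * y * k with hz
    have hz1 : z • (e1 : Fin 3 → F) = μ • e1 := by
      rw [hz, mul_smul, mul_smul, hk, hμ, inv_smul_eq_iff, smul_smul_comm', hk]
    have hz2 : ∀ u : Fin 3 → F, ∃ c : F, z • u = μ • u + c • e1 := by
      intro u
      obtain ⟨c, hc⟩ := h2 (k • u)
      refine ⟨c, ?_⟩
      rw [hz, mul_smul, mul_smul, hc, inv_smul_eq_iff, smul_add, smul_smul_comm', smul_smul_comm', hk]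
    have hω : μ * μ * μ = 1 := by
      have hdet := z.2
      rw [det_fin_three] at hdet
      obtain ⟨c1, hc1⟩ := hz2 ![0, 1, 0]
      obtain ⟨c2, hc2⟩ := hz2 ![0, 0, 1]
      have a0 := congrFun hz1 0
      have a1 := congrFun hz1 1
      have a2 := congrFun hz1 2
      have b0 := congrFun hc1 0
      have b1 := congrFun hc1 1
      have b2 := congrFun hc1 2
      have d0 := congrFun hc2 0
      have d1 := congrFun hc2 1
      have d2 := congrFun hc2 2
      rw [smul_apply] at a0 a1 a2 b0 b1 b2 d0 d1 d2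
      simp [smul_ap] at a0 a1 a2 b0 b1 b2 d0 d1 d2
      change z.1 0 0 * z.1 1 1 * z.1 2 2 - z.1 0 0 * z.1 1 2 * z.1 2 1 - z.1 0 1 * z.1 1 0 * z.1 2 2 +
        z.1 0 1 * z.1 1 2 * z.1 2 0 + z.1 0 2 * z.1 1 0 * z.1 2 1 - z.1 0 2 * z.1 1 1 * z.1 2 0 = 1 at hdet
      simp only [a0, a1, a2, b1, b2, d1, d2] at hdet
      linear_combination hdet
    have hdgc := dg_mem_center hω
    set d := dg μ μ μ hω with hd
    have hdv : ∀ u : Fin 3 → F, d • u = μ • u := by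
      intro u
      rw [hd, dg_apply]
      apply ext3 <;> rfl
    have hdinv : ∀ u : Fin 3 → F, d⁻¹ • u = μ⁻¹ • u := by
      intro u
      rw [inv_smul_eq_iff, hdv, smul_smul, mul_inv_cancel₀ hμ0, one_smul]
    have hy' : d⁻¹ * y ∈ Y := Y.mul_mem (Y.inv_mem (hcen hdgc)) hy
    -- `d⁻¹ y` is a transvection
    have h3 : ∀ u : Fin 3 → F, ∃ c : F, (d⁻¹ * y) • u = u + c • v := by
      intro u
      obtain ⟨c, hc⟩ := h2 u
      refine ⟨μ⁻¹ * c, ?_⟩
      rw [mul_smul, hc, hdinv, smul_add, smul_smul, smul_smul, inv_mul_cancel₀ hμ0, one_smul]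
    have h4 : (d⁻¹ * y) • v = v := by
      rw [mul_smul, hμ, hdinv, smul_smul, inv_mul_cancel₀ hμ0, one_smul]
    obtain ⟨ψ, hψ, hψe⟩ := eq_tv (g := k⁻¹ * (d⁻¹ * y) * k) (by
      intro w
      obtain ⟨c, hc⟩ := h3 (k • w)
      refine ⟨c, ?_⟩
      rw [mul_smul, mul_smul, hc, inv_smul_eq_iff, smul_add, smul_smul_comm', ← hk]
      rfl) (by
      change (k⁻¹ * (d⁻¹ * y) * k) • (e1 : Fin 3 → F) = e1
      rw [mul_smul, mul_smul, hk, h4, inv_smul_eq_iff, hk])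
    have h5 : d⁻¹ * y = tv v (row ψ k⁻¹) := by
      have h6 := conj_tv (v := (e1 : Fin 3 → F)) (φ := ψ) hψ k
      rw [hk] at h6
      rw [← h6]
      change _ = k * tv ![1, 0, 0] ψ * k⁻¹
      rw [← hψe]
      group
    refine ⟨row ψ k⁻¹, ?_, ?_, ?_⟩
    · rw [← hk, dot_inv]
      exact hψ
    · intro h0
      rw [h0, tv_zero_right] at h5
      apply hyc
      have : y = d := by
        rw [inv_mul_eq_one] at h5
        exact h5.symm
      rw [this]
      exact hdgc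
    · rw [← h5]
      exact hy'
  · push Not at hall
    obtain ⟨ψ, hψ, hne⟩ := hall
    have h1 : row ψ y⁻¹ ⬝ᵥ v = 0 := by
      rw [row_dot]
      have : y⁻¹ • v = μ⁻¹ • v := by
        rw [inv_smul_eq_iff, smul_smul_comm', hμ, smul_smul, inv_mul_cancel₀ hμ0, one_smul]
      rw [this, dotProduct_smul, hψ, smul_zero]
    have h2 : (μ • row ψ y⁻¹) ⬝ᵥ v = 0 := by rw [smul_dotProduct, h1, smul_zero]
    have h3 : (-ψ) ⬝ᵥ v = 0 := by rw [neg_dotProduct, hψ, neg_zero]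
    refine ⟨μ • row ψ y⁻¹ + -ψ, by rw [add_dotProduct, h2, h3, add_zero], ?_, ?_⟩
    · intro h0
      apply hne
      rw [← sub_eq_add_neg, sub_eq_zero] at h0
      exact h0
    · have h4 : tv v (μ • row ψ y⁻¹ + -ψ) = y * (tv v ψ * y⁻¹ * (tv v ψ)⁻¹) := by
        rw [← tv_mul h2 h3, tv_inv hψ, ← tv_smul_left h1, ← hμ, ← conj_tv hψ y]
        group
      rw [h4]
      exact Y.mul_mem hy (hn ψ hψ _ (Y.inv_mem hy))

/-- a normal subgroup of a group of type `Pt` contains the transvections with centre `v` -/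
theorem Pt.normal_ce {X Y : Subgroup (S F)} {v : Fin 3 → F} (hX : Pt X v) (hYX : Y ≤ X)
    (hcen : Subgroup.center (S F) ≤ Y) (hn : ∀ g ∈ X, ∀ y ∈ Y, g * y * g⁻¹ ∈ Y)
    (hne : ∃ y ∈ Y, y ∉ Subgroup.center (S F)) : Ce Y v := by
  obtain ⟨y, hy, hyc⟩ := hne
  obtain ⟨μ, hμ⟩ := hX.2.1 y (hYX hy)
  obtain ⟨χ, hχ, hχ0, hχY⟩ := exists_ce hX.1 hcen (fun ψ hψ y hy => hn _ (hX.ce ψ hψ) y hy) hy hyc hμ
  intro ψ hψ
  by_cases hψ0 : ψ = 0
  · rw [hψ0, tv_zero_right]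
    exact Y.one_mem
  obtain ⟨k, hk1, hk2⟩ := exists_flag hX.1 hχ0 hχ
  obtain ⟨l, hl1, hl2⟩ := exists_flag hX.1 hψ0 hψ
  have h1 : (l * k⁻¹) • v = v := by
    rw [mul_smul]
    nth_rewrite 1 [← hk1]
    rw [inv_smul_smul, hl1]
  have h2 := hn _ (hX.2.2 _ h1) _ hχY
  rw [conj_tv hχ, h1, _root_.mul_inv_rev, inv_inv, row_mul, ← hk2, row_inv_row, hl2] at h2
  exact h2

/-- a normal subgroup of a group of type `Fl` contains a transvection with centre `v` and axis `φ` -/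
theorem Fl.normal_tv {X Y : Subgroup (S F)} {v φ : Fin 3 → F} (hX : Fl X v φ) (hYX : Y ≤ X)
    (hcen : Subgroup.center (S F) ≤ Y) (hn : ∀ g ∈ X, ∀ y ∈ Y, g * y * g⁻¹ ∈ Y)
    (hne : ∃ y ∈ Y, y ∉ Subgroup.center (S F)) : ∃ c : F, c ≠ 0 ∧ tv v (c • φ) ∈ Y := by
  obtain ⟨hv, hφ, hd, h4, h5, hC, hA⟩ := hX
  obtain ⟨y, hy, hyc⟩ := hne
  obtain ⟨μ, hμ⟩ := h4 y (hYX hy)
  obtain ⟨χ, hχ, hχ0, hχY⟩ := exists_ce hv hcen (fun ψ hψ y hy => hn _ (hC ψ hψ) y hy) hy hyc hμ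
  by_cases hpar : ∃ c : F, χ = c • φ
  · obtain ⟨c, rfl⟩ := hpar
    refine ⟨c, ?_, hχY⟩
    rintro rfl
    exact hχ0 (zero_smul _ _)
  · obtain ⟨w, hw, hχw⟩ := exists_ker hφ hpar
    refine ⟨χ ⬝ᵥ w, hχw, ?_⟩
    have h1 := hn _ (hA w hw) _ (Y.inv_mem hχY)
    have h2 := Y.mul_mem hχY h1
    have h3 : tv v χ * (tv w φ * (tv v χ)⁻¹ * (tv w φ)⁻¹) = tv v ((χ ⬝ᵥ w) • φ) := by
      have hχ' : (-χ) ⬝ᵥ v = 0 := by rw [neg_dotProduct, hχ, neg_zero]
      have hφ' : (-φ) ⬝ᵥ w = 0 := by rw [neg_dotProduct, hw, neg_zero]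
      have hlast : ((χ ⬝ᵥ w) • φ) ⬝ᵥ v = 0 := by rw [smul_dotProduct, hd, smul_zero]
      rw [tv_inv hχ, tv_inv hw]
      apply ext_smul
      intro u
      rw [mul_smul, mul_smul, mul_smul, tv_smul hφ', tv_smul hχ', tv_smul hw, tv_smul hχ, tv_smul hlast]
      funext i
      simp only [Pi.add_apply, smul_ap, dotProduct_add, dotProduct_smul, smul_dotProduct, neg_dotProduct, hd, hw, hχ,
        smul_eq_mul]
      ring
    rwa [h3] at h2

end normal

end Cfsg.Agent.H438.SLThree
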