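import Mathlib
import Cfsg.Agent.H438.SLThreeF

/-!
# `SL₃(F)`: semilinear maps and automorphisms (helper438, S3727)

`Tr ρ ρ' y C σ` : conjugation by `y` maps `ρ g` to `ρ' (C g^σ C⁻¹)`.
-/

set_option autoImplicit false
set_option linter.unusedSectionVars false
set_option linter.unusedSimpArgs false

namespace Cfsg.Agent.H438.SLThree

open Matrix MulAction
open Cfsg.Agent.ClassicalGeometry.AutPSL.Root
open Cfsg.Agent.ClassicalGeometry.AutPSL.Auto
open Cfsg.Agent.ClassicalGeometry.AutPSL.Main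

section semi

variable {F : Type*} [Field F]

/-- semilinear map on column vectors -/
def cv (C : GL (Fin 3) F) (σ : F ≃+* F) (v : Fin 3 → F) : Fin 3 → F := C.1 *ᵥ (fun i => σ (v i))

/-- semilinear map on row vectors -/
def cr (C : GL (Fin 3) F) (σ : F ≃+* F) (φ : Fin 3 → F) : Fin 3 → F := (fun i => σ (φ i)) ᵥ* (C⁻¹ : GL (Fin 3) F).1

/-- the automorphism -/
def th (C : GL (Fin 3) F) (σ : F ≃+* F) : MulAut (S F) := cj C * fld σ

variable (C : GL (Fin 3) F) (σ : F ≃+* F)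

theorem cv_add (v w : Fin 3 → F) : cv C σ (v + w) = cv C σ v + cv C σ w := by
  unfold cv
  rw [← mulVec_add]
  congr 1
  funext i
  exact map_add σ _ _

theorem cr_add (v w : Fin 3 → F) : cr C σ (v + w) = cr C σ v + cr C σ w := by
  unfold cr
  rw [← add_vecMul]
  congr 1
  funext i
  exact map_add σ _ _

theorem cv_smul (c : F) (v : Fin 3 → F) : cv C σ (c • v) = σ c • cv C σ v := by
  unfold cv
  rw [← mulVec_smul]
  congr 1
  funext i
  exact map_mul σ _ _

theorem cr_smul (c : F) (v : Fin 3 → F) : cr C σ (c • v) = σ c • cr C σ v := by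
  unfold cr
  rw [← smul_vecMul]
  congr 1
  funext i
  exact map_mul σ _ _

theorem cr_dot_cv (φ v : Fin 3 → F) : cr C σ φ ⬝ᵥ cv C σ v = σ (φ ⬝ᵥ v) := by
  unfold cr cv
  rw [vecMul_inv_dotProduct, dot_apply, dot_apply]
  simp only [map_add, map_mul]

theorem cv_surj (w : Fin 3 → F) : ∃ v, cv C σ v = w := by
  refine ⟨fun i => σ.symm (((C⁻¹ : GL (Fin 3) F).1 *ᵥ w) i), ?_⟩
  unfold cv
  have : (fun i => σ (σ.symm (((C⁻¹ : GL (Fin 3) F).1 *ᵥ w) i))) = (C⁻¹ : GL (Fin 3) F).1 *ᵥ w := by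
    funext i
    exact σ.apply_symm_apply _
  rw [this, mulVec_mulVec, ← Units.val_mul, mul_inv_cancel, Units.val_one, one_mulVec]

theorem cr_surj (w : Fin 3 → F) : ∃ v, cr C σ v = w := by
  refine ⟨fun i => σ.symm ((w ᵥ* C.1) i), ?_⟩
  unfold cr
  have : (fun i => σ (σ.symm ((w ᵥ* C.1) i))) = w ᵥ* C.1 := by
    funext i
    exact σ.apply_symm_apply _
  rw [this, vecMul_vecMul, ← Units.val_mul, mul_inv_cancel, Units.val_one, vecMul_one]

theorem cv_inj {v w : Fin 3 → F} (h : cv C σ v = cv C σ w) : v = w := by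
  unfold cv at h
  have h1 := congrArg (fun u => (C⁻¹ : GL (Fin 3) F).1 *ᵥ u) h
  simp only [mulVec_mulVec, ← Units.val_mul, inv_mul_cancel, Units.val_one, one_mulVec] at h1
  funext i
  exact σ.injective (congrFun h1 i)

theorem cr_inj {v w : Fin 3 → F} (h : cr C σ v = cr C σ w) : v = w := by
  unfold cr at h
  have h1 := congrArg (fun u => u ᵥ* C.1) h
  simp only [vecMul_vecMul, ← Units.val_mul, inv_mul_cancel, Units.val_one, vecMul_one] at h1
  funext i
  exact σ.injective (congrFun h1 i)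

theorem cv_zero : cv C σ 0 = 0 := by
  have := cv_smul C σ 0 0
  rwa [zero_smul, map_zero, zero_smul] at this

theorem cr_zero : cr C σ 0 = 0 := by
  have := cr_smul C σ 0 0
  rwa [zero_smul, map_zero, zero_smul] at this

theorem cv_ne {v : Fin 3 → F} (h : v ≠ 0) : cv C σ v ≠ 0 := fun h0 => h (cv_inj C σ (by rw [h0, cv_zero]))

theorem cr_ne {v : Fin 3 → F} (h : v ≠ 0) : cr C σ v ≠ 0 := fun h0 => h (cr_inj C σ (by rw [h0, cr_zero]))

theorem th_coe (g : S F) : (th C σ g).1 = C.1 * (g.1.map σ) * (C⁻¹ : GL (Fin 3) F).1 := rfl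

theorem th_smul (g : S F) (v : Fin 3 → F) : th C σ g • cv C σ v = cv C σ (g • v) := by
  rw [smul_eq, smul_eq, th_coe]
  unfold cv
  rw [mulVec_mulVec, mul_assoc, ← Units.val_mul, inv_mul_cancel, Units.val_one, mul_one, ← mulVec_mulVec]
  congr 1
  funext i
  simp [mulVec, dotProduct, map_sum]

theorem row_th (g : S F) (φ : Fin 3 → F) : row (cr C σ φ) (th C σ g) = cr C σ (row φ g) := by
  unfold row cr
  rw [th_coe, vecMul_vecMul, mul_assoc, ← mul_assoc, ← Units.val_mul, inv_mul_cancel, Units.val_one, one_mul,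
    ← vecMul_vecMul]
  congr 1
  funext i
  simp [vecMul, dotProduct, map_sum]

theorem th_tv {v φ : Fin 3 → F} (h : φ ⬝ᵥ v = 0) : th C σ (tv v φ) = tv (cv C σ v) (cr C σ φ) := by
  apply ext_smul
  intro u
  obtain ⟨u, rfl⟩ := cv_surj C σ u
  have h' : cr C σ φ ⬝ᵥ cv C σ v = 0 := by rw [cr_dot_cv, h, map_zero]
  rw [th_smul, tv_smul h, tv_smul h', cr_dot_cv, cv_add, cv_smul]

theorem th_surj (g : S F) : ∃ g', th C σ g' = g := (th C σ).surjective g

end semi

section tr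

variable {F : Type*} [Field F] {G Ω : Type*} [Group G] [MulAction G Ω]

/-- conjugation by `y` carries `ρ` to `ρ'` up to the automorphism given by `C, σ` -/
def Tr (ρ ρ' : S F →* G) (y : G) (C : GL (Fin 3) F) (σ : F ≃+* F) : Prop :=
  ∀ g, y * ρ g * y⁻¹ = ρ' (th C σ g)

variable {ρ ρ' : S F →* G} {y : G} {C : GL (Fin 3) F} {σ : F ≃+* F}

theorem Tr.mem (h : Tr ρ ρ' y C σ) (b : Ω) (g : S F) : th C σ g ∈ Xs ρ' (y • b) ↔ g ∈ Xs ρ b := by
  rw [mem_Xs, mem_Xs, ← h g, mul_smul, mul_smul, inv_smul_smul]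
  exact smul_left_cancel_iff y

theorem Tr.pt (h : Tr ρ ρ' y C σ) {b : Ω} {v : Fin 3 → F} (hv : Pt (Xs ρ b) v) :
    Pt (Xs ρ' (y • b)) (cv C σ v) := by
  refine ⟨cv_ne C σ hv.1, ?_, ?_⟩
  · intro g hg
    obtain ⟨g, rfl⟩ := th_surj C σ g
    obtain ⟨μ, hμ⟩ := hv.2.1 g ((h.mem b g).1 hg)
    exact ⟨σ μ, by rw [th_smul, hμ, cv_smul]⟩
  · intro g hg
    obtain ⟨g, rfl⟩ := th_surj C σ g
    rw [th_smul] at hg
    exact (h.mem b g).2 (hv.2.2 g (cv_inj C σ hg))

theorem Tr.ln (h : Tr ρ ρ' y C σ) {b : Ω} {φ : Fin 3 → F} (hv : Ln (Xs ρ b) φ) :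
    Ln (Xs ρ' (y • b)) (cr C σ φ) := by
  refine ⟨cr_ne C σ hv.1, ?_, ?_⟩
  · intro g hg
    obtain ⟨g, rfl⟩ := th_surj C σ g
    obtain ⟨μ, hμ⟩ := hv.2.1 g ((h.mem b g).1 hg)
    exact ⟨σ μ, by rw [row_th, hμ, cr_smul]⟩
  · intro g hg
    obtain ⟨g, rfl⟩ := th_surj C σ g
    rw [row_th] at hg
    exact (h.mem b g).2 (hv.2.2 g (cr_inj C σ hg))

theorem Tr.fl (h : Tr ρ ρ' y C σ) {b : Ω} {v φ : Fin 3 → F} (hv : Fl (Xs ρ b) v φ) :
    Fl (Xs ρ' (y • b)) (cv C σ v) (cr C σ φ) := by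
  obtain ⟨h1, h2, h3, h4, h5, h6, h7⟩ := hv
  refine ⟨cv_ne C σ h1, cr_ne C σ h2, by rw [cr_dot_cv, h3, map_zero], ?_, ?_, ?_, ?_⟩
  · intro g hg
    obtain ⟨g, rfl⟩ := th_surj C σ g
    obtain ⟨μ, hμ⟩ := h4 g ((h.mem b g).1 hg)
    exact ⟨σ μ, by rw [th_smul, hμ, cv_smul]⟩
  · intro g hg
    obtain ⟨g, rfl⟩ := th_surj C σ g
    obtain ⟨μ, hμ⟩ := h5 g ((h.mem b g).1 hg)
    exact ⟨σ μ, by rw [row_th, hμ, cr_smul]⟩
  · intro ψ hψ
    obtain ⟨ψ, rfl⟩ := cr_surj C σ ψ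
    rw [cr_dot_cv] at hψ
    have hψ' : ψ ⬝ᵥ v = 0 := by simpa using hψ
    rw [← th_tv C σ hψ']
    exact (h.mem b _).2 (h6 ψ hψ')
  · intro w hw
    obtain ⟨w, rfl⟩ := cv_surj C σ w
    rw [cr_dot_cv] at hw
    have hw' : φ ⬝ᵥ w = 0 := by simpa using hw
    rw [← th_tv C σ hw']
    exact (h.mem b _).2 (h7 w hw')

/-- the kernel is the centre -/
def IsRep (ρ : S F →* G) : Prop := ∀ g, ρ g = 1 ↔ g ∈ Subgroup.center (S F)

theorem dual_surjective : Function.Surjective (dual (F := F)) := fun g => ⟨dual g, dual_dual g⟩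

theorem dual_mem_center {g : S F} : dual g ∈ Subgroup.center (S F) ↔ g ∈ Subgroup.center (S F) := by
  have key : ∀ g : S F, g ∈ Subgroup.center (S F) → dual g ∈ Subgroup.center (S F) := by
    intro g hg
    rw [Subgroup.mem_center_iff] at hg ⊢
    intro h
    obtain ⟨h, rfl⟩ := dual_surjective h
    rw [← map_mul, ← map_mul, hg]
  exact ⟨fun h => by simpa [dual_dual] using key _ h, key g⟩

theorem IsRep.toDual (h : IsRep ρ) : IsRep (ρ.comp dual) := by
  intro g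
  rw [MonoidHom.comp_apply, h, dual_mem_center]

theorem comp_dual_dual (ρ : S F →* G) : (ρ.comp dual).comp dual = ρ := by
  apply MonoidHom.ext
  intro g
  rw [MonoidHom.comp_apply, MonoidHom.comp_apply, dual_dual]

theorem range_comp_dual (ρ : S F →* G) : (ρ.comp (dual (F := F))).range = ρ.range := by
  ext x
  constructor
  · rintro ⟨g, rfl⟩
    exact ⟨dual g, rfl⟩
  · rintro ⟨g, rfl⟩
    exact ⟨dual g, by rw [MonoidHom.comp_apply, dual_dual]⟩

theorem IsRep.tv_eq (h : IsRep ρ) {v φ w ψ : Fin 3 → F} (h1 : φ ⬝ᵥ v = 0) (h2 : ψ ⬝ᵥ w = 0)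
    (he : ρ (tv v φ) = ρ (tv w ψ)) : tv v φ = tv w ψ := by
  apply tv_eq_of_center h1 h2
  rw [← h, map_mul, map_inv, he, inv_mul_cancel]

theorem IsRep.tv_ne (h : IsRep ρ) {v φ : Fin 3 → F} (h1 : φ ⬝ᵥ v = 0) (hv : v ≠ 0) (hφ : φ ≠ 0) : ρ (tv v φ) ≠ 1 := by
  intro h0
  rcases tv_mem_center h1 ((h _).1 h0) with h2 | h2
  · exact hv h2
  · exact hφ h2

/-- Every automorphism is semilinear, possibly after dualising. -/
theorem exists_tr [Finite F] (p : ℕ) [Fact p.Prime] [CharP F p] (h : IsRep ρ) (h' : IsRep ρ')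
    (h1 : ∀ g, ∃ g', y * ρ g * y⁻¹ = ρ' g') (h2 : ∀ g', ∃ g, y * ρ g * y⁻¹ = ρ' g') :
    (∃ C σ, Tr ρ ρ' y C σ) ∨ ∃ C σ, Tr (ρ.comp dual) ρ' y C σ := by
  classical
  -- the automorphism of `PSL₃(F)`
  have hinj : ∀ a b : S F, ρ' a = ρ' b → pr a = pr b := by
    intro a b hab
    have : a⁻¹ * b ∈ Subgroup.center (S F) := by
      rw [← h', map_mul, map_inv, hab, inv_mul_cancel]
    exact QuotientGroup.eq.2 this
  have hinj' : ∀ a b : S F, pr a = pr b → ρ a = ρ b := by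
    intro a b hab
    have : a⁻¹ * b ∈ Subgroup.center (S F) := QuotientGroup.eq.1 hab
    rw [← h, map_mul, map_inv, inv_mul_eq_one] at this
    exact this
  have hinj'' : ∀ a b : S F, pr a = pr b → ρ' a = ρ' b := by
    intro a b hab
    have : a⁻¹ * b ∈ Subgroup.center (S F) := QuotientGroup.eq.1 hab
    rw [← h', map_mul, map_inv, inv_mul_eq_one] at this
    exact this
  choose f hf using h1
  have hex : ∀ x : Matrix.ProjectiveSpecialLinearGroup (Fin 3) F, ∃ g : S F, pr g = x := pr_surjective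
  choose s hs using hex
  let A : Matrix.ProjectiveSpecialLinearGroup (Fin 3) F →* Matrix.ProjectiveSpecialLinearGroup (Fin 3) F :=
    MonoidHom.mk' (fun x => pr (f (s x))) (by
      intro x z
      rw [← map_mul]
      apply hinj
      rw [map_mul, ← hf, ← hf, ← hf]
      have : ρ (s (x * z)) = ρ (s x * s z) := by
        apply hinj'
        rw [hs, map_mul, hs, hs]
      rw [this, map_mul]
      group)
  have hA : ∀ g, A (pr g) = pr (f g) := by
    intro g
    change pr (f (s (pr g))) = _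
    apply hinj
    rw [← hf, ← hf]
    congr 2
    apply hinj'
    rw [hs]
  have hAi : Function.Injective A := by
    intro x z hxz
    change pr (f (s x)) = pr (f (s z)) at hxz
    have h3 := hinj'' _ _ hxz
    rw [← hf, ← hf] at h3
    have h4 : ρ (s x) = ρ (s z) := by
      have := mul_right_cancel h3
      exact mul_left_cancel this
    rw [← hs x, ← hs z]
    have : (s x)⁻¹ * s z ∈ Subgroup.center (S F) := by
      rw [← h, map_mul, map_inv, h4, inv_mul_cancel]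
    exact QuotientGroup.eq.2 this
  have hAs : Function.Surjective A := by
    intro x
    obtain ⟨g', rfl⟩ := pr_surjective x
    obtain ⟨g, hg⟩ := h2 g'
    refine ⟨pr g, ?_⟩
    rw [hA]
    apply hinj
    rw [← hf, hg]
  let α : MulAut (Matrix.ProjectiveSpecialLinearGroup (Fin 3) F) := MulEquiv.ofBijective A ⟨hAi, hAs⟩
  have hα : ∀ g, α (pr g) = pr (f g) := hA
  have := Fintype.ofFinite F
  rcases surj_three p le_rfl α with ⟨C, σ, hC⟩ | ⟨C, σ, hC⟩
  · left
    refine ⟨C, σ, ?_⟩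
    intro g
    rw [hf]
    apply hinj''
    rw [← hα, hC, lift_pr]
    rfl
  · right
    refine ⟨C, σ, ?_⟩
    intro g
    rw [MonoidHom.comp_apply, hf]
    apply hinj''
    rw [← hα, hC, lift_pr]
    rw [MulAut.mul_apply]
    congr 1
    change th C σ (itr (dual g)) = th C σ g
    congr 1
    exact dual_dual g

end tr

end Cfsg.Agent.H438.SLThree
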