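import Mathlib
import Cfsg.Agent.H438.SLThreeG

/-!
# `SL₃(F)` in characteristic 2: involutions, automorphisms centralising a Sylow 2-subgroup (helper438, S3727)
-/

set_option autoImplicit false
set_option linter.unusedSectionVars false
set_option linter.unusedSimpArgs false

namespace Cfsg.Agent.H438.SLThree

open Matrix MulAction

section

variable {F : Type*} [Field F] {G Ω : Type*} [Group G] [MulAction G Ω]

/-- a second vector and a second row for a flag -/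
theorem exists_second {v φ : Fin 3 → F} (hv : v ≠ 0) (hφ : φ ≠ 0) (hd : φ ⬝ᵥ v = 0) :
    ∃ w ψ : Fin 3 → F, φ ⬝ᵥ w = 0 ∧ ψ ⬝ᵥ v = 0 ∧ ψ ⬝ᵥ w = 1 := by
  obtain ⟨k, hk1, hk2⟩ := exists_flag hv hφ hd
  refine ⟨k • ![0, 1, 0], row r2 k⁻¹, ?_, ?_, ?_⟩
  · rw [← hk2, dot_inv, e3_dot]
    rfl
  · rw [← hk1, dot_inv, dot_e1]
    rfl
  · rw [dot_inv, dot_apply]
    simp [r2]

theorem th_of_smul {C : GL (Fin 3) F} {σ : F ≃+* F} {k : F} {t : S F}
    (h : ∀ u : Fin 3 → F, cv C σ u = k • (t • u)) (g : S F) : th C σ g = t * g * t⁻¹ := by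
  apply ext_smul
  intro u
  have hk : k ≠ 0 := by
    rintro rfl
    exact cv_ne C σ e1_ne (by rw [h, zero_smul])
  have h1 := th_smul C σ g (t⁻¹ • u)
  rw [h, h, smul_inv_smul, smul_smul_comm'] at h1
  have h2 := congrArg (fun x => k⁻¹ • x) h1
  simp only [smul_smul, inv_mul_cancel₀ hk, one_smul] at h2
  rw [h2]
  simp only [mul_smul]

/-- **An automorphism centralising a Sylow 2-subgroup is induced by an element of its centre.** -/
theorem exists_root_of_comm [Finite F] (p : ℕ) [Fact p.Prime] [CharP F p] {ρ : S F →* G} {y : G} (hρ : IsRep ρ)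
    (hy1 : ∀ g, ∃ g', y * ρ g * y⁻¹ = ρ g') (hy2 : ∀ g', ∃ g, y * ρ g * y⁻¹ = ρ g') {v φ : Fin 3 → F}
    (hv : v ≠ 0) (hφ : φ ≠ 0) (hd : φ ⬝ᵥ v = 0)
    (hC : ∀ ψ : Fin 3 → F, ψ ⬝ᵥ v = 0 → y * ρ (tv v ψ) * y⁻¹ = ρ (tv v ψ))
    (hA : ∀ w : Fin 3 → F, φ ⬝ᵥ w = 0 → y * ρ (tv w φ) * y⁻¹ = ρ (tv w φ)) :
    ∃ c : F, ∀ g, y * ρ g * y⁻¹ = ρ (tv v (c • φ)) * ρ g * (ρ (tv v (c • φ)))⁻¹ := by
  obtain ⟨w0, ψ0, hw0, hψ0, hψw⟩ := exists_second hv hφ hd
  rcases exists_tr p hρ hρ hy1 hy2 with ⟨C, σ, hT⟩ | ⟨C, σ, hT⟩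
  · -- `cv v = c v`
    have key : ∀ ψ : Fin 3 → F, ψ ⬝ᵥ v = 0 → ψ ≠ 0 → ∃ c : F, c ≠ 0 ∧ cv C σ v = c • v ∧ cr C σ ψ = c⁻¹ • ψ := by
      intro ψ hψ hψ0
      have h1 := hC ψ hψ
      rw [hT, th_tv C σ hψ] at h1
      have h2 := hρ.tv_eq (by rw [cr_dot_cv, hψ, map_zero]) hψ h1
      exact tv_inj hψ (by rw [cr_dot_cv, hψ, map_zero]) hv hψ0 h2.symm
    obtain ⟨c, hc0, hcv, hcφ⟩ := key φ hd hφ
    have key2 : ∀ ψ : Fin 3 → F, ψ ⬝ᵥ v = 0 → cr C σ ψ = c⁻¹ • ψ := by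
      intro ψ hψ
      by_cases h0 : ψ = 0
      · rw [h0, cr_zero, smul_zero]
      obtain ⟨c', -, h1, h2⟩ := key ψ hψ h0
      have : c' = c := smul_left_injective F hv (show c' • v = c • v by rw [← h1, hcv])
      rw [h2, this]
    have hσ : ∀ x : F, σ x = x := by
      intro x
      have h1 := key2 (x • φ) (by rw [smul_dotProduct, hd, smul_zero])
      rw [cr_smul, hcφ, smul_smul, smul_smul, mul_comm] at h1
      exact mul_left_cancel₀ (inv_ne_zero hc0) (smul_left_injective F hφ h1)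
    have key3 : ∀ w : Fin 3 → F, φ ⬝ᵥ w = 0 → cv C σ w = c • w := by
      intro w hw
      by_cases h0 : w = 0
      · rw [h0, cv_zero, smul_zero]
      have h1 := hA w hw
      rw [hT, th_tv C σ hw] at h1
      have h2 := hρ.tv_eq (by rw [cr_dot_cv, hw, map_zero]) hw h1
      obtain ⟨d, hd0, h3, h4⟩ := tv_inj hw (by rw [cr_dot_cv, hw, map_zero]) h0 hφ h2.symm
      rw [hcφ] at h4
      have : c⁻¹ = d⁻¹ := smul_left_injective F hφ h4
      rw [h3, inv_injective this]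
    obtain ⟨u0, hu0⟩ := exists_dot hφ
    have key4 : ∀ u : Fin 3 → F, ∃ k : F, cv C σ u - c • u = k • v := by
      intro u
      apply sep hv
      intro ψ hψ
      have h1 := cr_dot_cv C σ ψ u
      rw [key2 ψ hψ, hσ, smul_dotProduct, smul_eq_mul] at h1
      rw [dotProduct_sub, dotProduct_smul, smul_eq_mul, ← h1, mul_inv_cancel_left₀ hc0, sub_self]
    obtain ⟨k0, hk0⟩ := key4 u0
    refine ⟨c⁻¹ * k0, ?_⟩
    have ht : ((c⁻¹ * k0) • φ) ⬝ᵥ v = 0 := by rw [smul_dotProduct, hd, smul_zero]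
    have h5 : ∀ u : Fin 3 → F, cv C σ u = c • (tv v ((c⁻¹ * k0) • φ) • u) := by
      intro u
      have h6 : u = (u - (φ ⬝ᵥ u) • u0) + (φ ⬝ᵥ u) • u0 := by abel
      have h7 : cv C σ (u - (φ ⬝ᵥ u) • u0) = c • (u - (φ ⬝ᵥ u) • u0) := by
        apply key3
        rw [dotProduct_sub, dotProduct_smul, hu0, smul_eq_mul, mul_one, sub_self]
      have h8 : cv C σ u0 = c • u0 + k0 • v := by rw [← hk0]; abel
      rw [tv_smul ht]
      nth_rewrite 1 [h6]
      rw [cv_add, h7, cv_smul, h8, hσ, smul_dotProduct]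
      funext i
      simp only [Pi.add_apply, Pi.sub_apply, smul_ap, smul_eq_mul]
      field_simp
      ring
    intro g
    rw [hT, th_of_smul h5, map_mul, map_mul, map_inv]
  · exfalso
    have key : ∀ ψ : Fin 3 → F, ψ ⬝ᵥ v = 0 → ψ ≠ 0 → ∃ c : F, c ≠ 0 ∧ cv C σ ψ = c • v := by
      intro ψ hψ hψ0
      have hψ' : (-v) ⬝ᵥ ψ = 0 := by rw [neg_dotProduct, dotProduct_comm, hψ, neg_zero]
      have h0 : tv v ψ = dual (tv ψ (-v)) := by
        rw [dual_tv hψ', tv_neg_neg hψ]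
      have h1 := hC ψ hψ
      have h2 := hT (tv ψ (-v))
      rw [MonoidHom.comp_apply, ← h0, h1, th_tv C σ hψ'] at h2
      have h3 := hρ.tv_eq hψ (by rw [cr_dot_cv, hψ', map_zero]) h2
      obtain ⟨c, hc0, hc1, -⟩ := tv_inj hψ (by rw [cr_dot_cv, hψ', map_zero]) hv hψ0 h3
      exact ⟨c, hc0, hc1⟩
    obtain ⟨c, hc0, hc⟩ := key φ hd hφ
    have hψ0' : ψ0 ≠ 0 := by
      rintro rfl
      rw [zero_dotProduct] at hψw
      exact zero_ne_one hψw
    obtain ⟨d, hd0, hd'⟩ := key ψ0 hψ0 hψ0'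
    have h1 : cv C σ ψ0 = cv C σ (σ.symm (d * c⁻¹) • φ) := by
      rw [cv_smul, hc, hd', σ.apply_symm_apply, smul_smul, mul_assoc, inv_mul_cancel₀ hc0, mul_one]
    have h2 := cv_inj C σ h1
    rw [h2, smul_dotProduct, hw0, smul_zero] at hψw
    exact zero_ne_one hψw

/-- involutions of `SL₃(F)` are transvections -/
theorem exists_tv_of_sq [CharP F 2] {g : S F} (h : g * g = 1) : ∃ w ψ : Fin 3 → F, ψ ⬝ᵥ w = 0 ∧ g = tv w ψ := by
  by_cases h1 : g = 1
  · exact ⟨0, 0, by simp, by rw [h1, tv_zero_right]⟩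
  set N : Matrix (Fin 3) (Fin 3) F := g.1 - 1 with hN
  have hNN : N * N = 0 := by
    have h2 : g.1 * g.1 = 1 := congrArg Subtype.val h
    have h3 : (g.1 : Matrix (Fin 3) (Fin 3) F) + g.1 = 0 := by
      ext i j
      exact CharTwo.add_self_eq_zero _
    have h4 : (1 : Matrix (Fin 3) (Fin 3) F) + 1 = 0 := by
      ext i j
      exact CharTwo.add_self_eq_zero _
    rw [hN, sub_mul, mul_sub, h2, mul_one, one_mul]
    calc (1 - g.1) - (g.1 - 1) = (1 + 1) - (g.1 + g.1) := by abel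
      _ = 0 := by rw [h3, h4, sub_zero]
  have hle : LinearMap.range N.mulVecLin ≤ LinearMap.ker N.mulVecLin := by
    rintro _ ⟨u, rfl⟩
    rw [LinearMap.mem_ker, mulVecLin_apply, mulVecLin_apply, mulVec_mulVec, hNN, zero_mulVec]
  have hrk := LinearMap.finrank_range_add_finrank_ker N.mulVecLin
  have hle2 := Submodule.finrank_mono hle
  have h3 : Module.finrank F (Fin 3 → F) = 3 := by simp
  rw [h3] at hrk
  have h4 : Module.finrank F (LinearMap.range N.mulVecLin) ≤ 1 := by omega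
  obtain ⟨⟨w, hw⟩, hwall⟩ := finrank_le_one_iff.1 h4
  have h5 : ∀ u : Fin 3 → F, ∃ c : F, g • u = u + c • w := by
    intro u
    obtain ⟨c, hc⟩ := hwall ⟨N.mulVecLin u, LinearMap.mem_range_self _ u⟩
    refine ⟨c, ?_⟩
    have h6 : c • w = N *ᵥ u := congrArg Subtype.val hc
    rw [h6, hN, sub_mulVec, one_mulVec, smul_eq]
    abel
  have hw0 : w ≠ 0 := by
    rintro rfl
    apply h1
    apply ext_smul
    intro u
    obtain ⟨c, hc⟩ := h5 u
    rw [hc, smul_zero, add_zero, one_smul]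
  have hwfix : g • w = w := by
    have := hle hw
    rw [LinearMap.mem_ker, mulVecLin_apply, hN, sub_mulVec, one_mulVec, sub_eq_zero] at this
    exact this
  obtain ⟨k, hk⟩ := exists_smul hw0
  obtain ⟨ψ, hψ, hψe⟩ := eq_tv (g := k⁻¹ * g * k) (by
    intro u
    obtain ⟨c, hc⟩ := h5 (k • u)
    refine ⟨c, ?_⟩
    rw [mul_smul, mul_smul, hc, inv_smul_eq_iff, smul_add, smul_smul_comm', ← hk]
    rfl) (by
    change (k⁻¹ * g * k) • (e1 : Fin 3 → F) = e1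
    rw [mul_smul, mul_smul, hk, hwfix, inv_smul_eq_iff, hk])
  refine ⟨w, row ψ k⁻¹, ?_, ?_⟩
  · rw [← hk, dot_inv]
    exact hψ
  · have h6 := conj_tv (v := (e1 : Fin 3 → F)) (φ := ψ) hψ k
    rw [hk] at h6
    rw [← h6]
    change _ = k * tv ![1, 0, 0] ψ * k⁻¹
    rw [← hψe]
    group

/-- involutions in a quotient of `SL₃(F)` by its centre are images of transvections -/
theorem IsRep.exists_tv [CharP F 2] {ρ : S F →* G} (hρ : IsRep ρ) {g : S F} (h : ρ g * ρ g = 1) :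
    ∃ w ψ : Fin 3 → F, ψ ⬝ᵥ w = 0 ∧ ρ g = ρ (tv w ψ) := by
  have h1 : g * g ∈ Subgroup.center (S F) := by
    rw [← hρ, map_mul, h]
  obtain ⟨ω, hω, hg⟩ := mem_center_iff'.1 h1
  have hd := dg_mem_center hω
  have hdv : ∀ u : Fin 3 → F, dg ω ω ω hω • u = ω • u := by
    intro u
    rw [dg_apply]
    apply ext3 <;> rfl
  obtain ⟨w, ψ, h2, h3⟩ := exists_tv_of_sq (g := dg ω ω ω hω * g) (by
    apply ext_smul
    intro u
    have hgu : g • g • u = ω • u := by rw [← mul_smul, hg]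
    rw [mul_smul, mul_smul, mul_smul, hdv, hdv, smul_smul_comm', hgu, one_smul, smul_smul, smul_smul]
    rw [hω, one_smul])
  refine ⟨w, ψ, h2, ?_⟩
  rw [← h3, map_mul, (hρ _).2 hd, one_mul]

theorem scalar_of_all (f : (Fin 3 → F) → (Fin 3 → F)) (hadd : ∀ u w, f (u + w) = f u + f w)
    (hsmul : ∀ (c : F) u, f (c • u) = c • f u) (hall : ∀ u, ∃ c : F, f u = c • u) :
    ∃ c : F, ∀ u, f u = c • u := by
  obtain ⟨c0, h0⟩ := hall ![1, 0, 0]
  obtain ⟨c1, h1⟩ := hall ![0, 1, 0]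
  obtain ⟨c2, h2⟩ := hall ![0, 0, 1]
  obtain ⟨c, hc⟩ := hall ![1, 1, 1]
  have e : (![1, 1, 1] : Fin 3 → F) = ![1, 0, 0] + ![0, 1, 0] + ![0, 0, 1] := by
    apply ext3 <;> simp
  have hc' := hc
  rw [e, hadd, hadd, h0, h1, h2] at hc'
  have a0 := congrFun hc' 0
  have a1 := congrFun hc' 1
  have a2 := congrFun hc' 2
  simp [smul_ap] at a0 a1 a2
  refine ⟨c, ?_⟩
  intro u
  have e' : u = u 0 • ![1, 0, 0] + u 1 • ![0, 1, 0] + u 2 • ![0, 0, 1] := by
    apply ext3 <;> simp [smul_ap]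
  rw [e', hadd, hadd, hsmul, hsmul, hsmul, h0, h1, h2, a0, a1, a2, smul_add, smul_add]
  congr 1
  · congr 1
    · rw [smul_comm]
    · rw [smul_comm]
  · rw [smul_comm]

/-- An involution inducing a linear automorphism induces an inner one. -/
theorem exists_inner [Finite F] [CharP F 2] {ρ : S F →* G} {x : G} (hρ : IsRep ρ) {C : GL (Fin 3) F} {σ : F ≃+* F}
    (hT : Tr ρ ρ x C σ) (hσ : ∀ c, σ c = c) (hx : x * x = 1) :
    ∃ t : S F, t * t = 1 ∧ ∀ g, x * ρ g * x⁻¹ = ρ t * ρ g * (ρ t)⁻¹ := by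
  -- `C²` is a scalar
  have h1 : ∀ u : Fin 3 → F, ∃ c : F, cv C σ (cv C σ u) = c • u := by
    intro u
    by_cases hu : u = 0
    · exact ⟨0, by rw [hu, cv_zero, cv_zero, smul_zero]⟩
    obtain ⟨φ, hφ, hφu, -⟩ := exists_common u u
    rw [dotProduct_comm] at hφu
    have hφu' : cr C σ φ ⬝ᵥ cv C σ u = 0 := by rw [cr_dot_cv, hφu, map_zero]
    have hφu'' : cr C σ (cr C σ φ) ⬝ᵥ cv C σ (cv C σ u) = 0 := by rw [cr_dot_cv, hφu', map_zero]
    have h2 : ρ (tv u φ) = ρ (tv (cv C σ (cv C σ u)) (cr C σ (cr C σ φ))) := by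
      rw [← th_tv C σ hφu', ← hT, ← th_tv C σ hφu, ← hT]
      have : x * (x * ρ (tv u φ) * x⁻¹) * x⁻¹ = (x * x) * ρ (tv u φ) * (x * x)⁻¹ := by group
      rw [this, hx, inv_one, one_mul, mul_one]
    obtain ⟨c, -, hc, -⟩ := tv_inj hφu hφu'' hu hφ (hρ.tv_eq hφu hφu'' h2)
    exact ⟨c, hc⟩
  obtain ⟨c, hc⟩ := scalar_of_all (fun u => cv C σ (cv C σ u)) (fun u w => by simp only [cv_add])
    (fun c u => by simp only [cv_smul, hσ]) h1
  have hc0 : c ≠ 0 := by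
    rintro rfl
    have := hc e1
    simp only [zero_smul] at this
    exact cv_ne C σ (cv_ne C σ e1_ne) this
  -- a square root of `c`
  obtain ⟨ν, hν⟩ : ∃ ν : F, ν * ν = c := by
    have := (frobeniusEquiv F 2).surjective c
    obtain ⟨ν, hν⟩ := this
    exact ⟨ν, by rw [← hν, frobeniusEquiv_apply, frobenius_def, pow_two]⟩
  have hν0 : ν ≠ 0 := by
    rintro rfl
    rw [zero_mul] at hν
    exact hc0 hν.symm
  set D : Matrix (Fin 3) (Fin 3) F := ν⁻¹ • C.1 with hD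
  have hDv : ∀ u : Fin 3 → F, D *ᵥ u = ν⁻¹ • cv C σ u := by
    intro u
    rw [hD, smul_mulVec]
    unfold cv
    congr 2
    funext i
    rw [hσ]
  have hDD : D * D = 1 := by
    apply Matrix.ext_of_mulVec_single
    intro i
    rw [← mulVec_mulVec, hDv, hDv, cv_smul, hσ, smul_smul, one_mulVec]
    have := hc (Pi.single i 1)
    rw [this, smul_smul, ← hν]
    have : ν⁻¹ * ν⁻¹ * (ν * ν) = 1 := by field_simp
    rw [this, one_smul]
  have hdet : D.det = 1 := by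
    have h2 : D.det * D.det = 1 := by rw [← det_mul, hDD, det_one]
    have h3 : (D.det - 1) * (D.det - 1) = 0 := by
      have h4 : (2 : F) = 0 := CharTwo.two_eq_zero
      linear_combination h2 - D.det * h4 + h4
    have h5 := mul_self_eq_zero.1 h3
    exact sub_eq_zero.1 h5
  obtain ⟨t, ht⟩ : ∃ t : S F, t.1 = D := ⟨⟨D, hdet⟩, rfl⟩
  refine ⟨t, Subtype.ext (by
    change t.1 * t.1 = 1
    rw [ht, hDD]), ?_⟩
  intro g
  rw [hT, th_of_smul (k := ν) (t := t), map_mul, map_mul, map_inv]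
  intro u
  rw [smul_eq, ht, hDv, smul_smul, mul_inv_cancel₀ hν0, one_smul]

end

end Cfsg.Agent.H438.SLThree
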