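import Mathlib
import Cfsg.Agent.H438.SLThreeH

/-!
# 2-transitive groups with `PSL₃(2ⁿ)` normal in the point stabiliser: the configuration (helper438, S3727)

`Cfg ρ` : `G` is 2-transitive and faithful on `Ω`, `|Ω|` is even, `ρ a` maps `SL₃(F)` into the stabiliser of `a` with
kernel the centre, and the ranges `N a` are conjugate.
-/

set_option autoImplicit false
set_option linter.unusedSectionVars false
set_option linter.unusedSimpArgs false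

namespace Cfsg.Agent.H438.SLThree

open Matrix MulAction

variable {F : Type*} [Field F] {G Ω : Type*} [Group G] [MulAction G Ω]

/-- The configuration. -/
structure Cfg (ρ : Ω → (S F →* G)) : Prop where
  two : ∀ a b a' b' : Ω, a ≠ b → a' ≠ b' → ∃ g : G, g • a = a' ∧ g • b = b'
  faith : ∀ g : G, (∀ x : Ω, g • x = x) → g = 1
  even : Even (Nat.card Ω)
  rep : ∀ a, IsRep (ρ a)
  fix : ∀ a g, ρ a g • a = a
  conj : ∀ (y : G) (a : Ω) (g : S F), ∃ g', y * ρ a g * y⁻¹ = ρ (y • a) g'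

/-- the normal subgroup of the stabiliser -/
def N (ρ : Ω → (S F →* G)) (a : Ω) : Subgroup G := (ρ a).range

/-- its centraliser -/
def K (ρ : Ω → (S F →* G)) (a : Ω) : Subgroup G := Subgroup.centralizer (N ρ a : Set G)

variable {ρ : Ω → (S F →* G)}

theorem mem_N {a : Ω} {x : G} : x ∈ N ρ a ↔ ∃ g, ρ a g = x := MonoidHom.mem_range

theorem rho_mem (a : Ω) (g : S F) : ρ a g ∈ N ρ a := ⟨g, rfl⟩

theorem mem_K {a : Ω} {x : G} : x ∈ K ρ a ↔ ∀ g, x * ρ a g = ρ a g * x := by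
  unfold K
  rw [Subgroup.mem_centralizer_iff]
  constructor
  · intro h g
    exact (h _ (rho_mem a g)).symm
  · rintro h _ ⟨g, rfl⟩
    exact (h g).symm

namespace Cfg

variable (c : Cfg ρ)

include c

theorem conj' (y : G) (a : Ω) (g' : S F) : ∃ g, y * ρ a g * y⁻¹ = ρ (y • a) g' := by
  obtain ⟨g, hg⟩ := c.conj y⁻¹ (y • a) g'
  rw [inv_smul_smul] at hg
  refine ⟨g, ?_⟩
  rw [← hg]
  group

theorem tr [Finite F] (p : ℕ) [Fact p.Prime] [CharP F p] (y : G) (a : Ω) :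
    (∃ C σ, Tr (ρ a) (ρ (y • a)) y C σ) ∨ ∃ C σ, Tr ((ρ a).comp dual) (ρ (y • a)) y C σ :=
  exists_tr p (c.rep a) (c.rep _) (c.conj y a) (c.conj' y a)

theorem N_conj {y : G} {a : Ω} {x : G} (hx : x ∈ N ρ a) : y * x * y⁻¹ ∈ N ρ (y • a) := by
  obtain ⟨g, rfl⟩ := hx
  obtain ⟨g', hg'⟩ := c.conj y a g
  exact ⟨g', hg'.symm⟩

theorem N_conj' {y : G} {a : Ω} {x : G} (hx : x ∈ N ρ (y • a)) : y⁻¹ * x * y ∈ N ρ a := by
  have := c.N_conj (y := y⁻¹) hx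
  rwa [inv_smul_smul, inv_inv] at this

theorem N_conj_fix {y : G} {a : Ω} (hy : y • a = a) {x : G} (hx : x ∈ N ρ a) : y * x * y⁻¹ ∈ N ρ a := by
  have := c.N_conj (y := y) hx
  rwa [hy] at this

theorem K_conj {y : G} {a : Ω} {x : G} (hx : x ∈ K ρ a) : y * x * y⁻¹ ∈ K ρ (y • a) := by
  rw [mem_K] at hx ⊢
  intro g
  obtain ⟨h, hh⟩ := c.conj' y a g
  rw [← hh]
  have := hx h
  calc y * x * y⁻¹ * (y * ρ a h * y⁻¹) = y * (x * ρ a h) * y⁻¹ := by group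
    _ = y * (ρ a h * x) * y⁻¹ := by rw [this]
    _ = y * ρ a h * y⁻¹ * (y * x * y⁻¹) := by group

theorem K_conj' {y : G} {a : Ω} {x : G} (hx : x ∈ K ρ (y • a)) : y⁻¹ * x * y ∈ K ρ a := by
  have := c.K_conj (y := y⁻¹) hx
  rwa [inv_smul_smul, inv_inv] at this

theorem K_conj_fix {y : G} {a : Ω} (hy : y • a = a) {x : G} (hx : x ∈ K ρ a) : y * x * y⁻¹ ∈ K ρ a := by
  have := c.K_conj (y := y) hx
  rwa [hy] at this

theorem N_fix {a : Ω} {x : G} (hx : x ∈ N ρ a) : x • a = a := by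
  obtain ⟨g, rfl⟩ := hx
  exact c.fix a g

/-- `N a` fixes only `a` -/
theorem not_fix {a b : Ω} (hab : b ≠ a) : ∃ g, ρ a g • b ≠ b := by
  by_contra hcon
  push Not at hcon
  have hall : ∀ (g : S F) (d : Ω), ρ a g • d = d := by
    intro g d
    by_cases hd : d = a
    · rw [hd, c.fix]
    · obtain ⟨y, hy1, hy2⟩ := c.two a b a d hab.symm (Ne.symm hd)
      obtain ⟨g', hg'⟩ := c.conj' y a g
      rw [hy1] at hg'
      rw [← hg', mul_smul, mul_smul]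
      nth_rewrite 1 [← hy2]
      rw [inv_smul_smul, hcon, hy2]
  have h1 := c.faith _ (hall (tv e1 e3))
  exact (c.rep a).tv_ne (by rw [dot_e1]; rfl) e1_ne e3_ne h1

theorem exists_move {a b : Ω} (hab : b ≠ a) : ∃ x ∈ N ρ a, x • b ≠ b := by
  obtain ⟨g, hg⟩ := c.not_fix hab
  exact ⟨_, rho_mem a g, hg⟩

theorem K_fix {a : Ω} {x : G} (hx : x ∈ K ρ a) : x • a = a := by
  by_contra hne
  obtain ⟨y, hy, hyne⟩ := c.exists_move (a := a) (b := x • a) hne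
  apply hyne
  -- `y` commutes with `x` and fixes `a`
  obtain ⟨g, rfl⟩ := hy
  rw [← mul_smul, ← mem_K.1 hx g, mul_smul, c.fix]

theorem ne_top {a b : Ω} (hab : b ≠ a) : Xs (ρ a) b ≠ ⊤ := by
  intro h
  obtain ⟨g, hg⟩ := c.not_fix hab
  exact hg (mem_Xs.1 (h ▸ Subgroup.mem_top g))

end Cfg

theorem Tr.index [Finite (S F)] {ρ ρ' : S F →* G} {y : G} {C : GL (Fin 3) F} {σ : F ≃+* F} (h : Tr ρ ρ' y C σ) (b : Ω) :
    (Xs ρ' (y • b)).index = (Xs ρ b).index := by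
  have h1 : Xs ρ b = (Xs ρ' (y • b)).comap (th C σ).toMonoidHom := by
    ext g
    rw [Subgroup.mem_comap]
    exact (h.mem b g).symm
  rw [h1, Subgroup.index_comap_of_surjective _ (th C σ).surjective]

theorem Xs_dual (ρ : S F →* G) (b : Ω) : Xs (ρ.comp (dual (F := F))) b = (Xs ρ b).comap dual := rfl

theorem index_dual (ρ : S F →* G) (b : Ω) : (Xs (ρ.comp (dual (F := F))) b).index = (Xs ρ b).index := by
  rw [Xs_dual, Subgroup.index_comap_of_surjective _ dual_surjective]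

namespace Cfg

variable [Finite F] [CharP F 2] [Finite (S F)] [Finite G] [Finite Ω]

theorem index_eq (c : Cfg ρ) {a b a' b' : Ω} (hab : b ≠ a) (hab' : b' ≠ a') :
    (Xs (ρ a) b).index = (Xs (ρ a') b').index := by
  have : Fact (Nat.Prime 2) := ⟨Nat.prime_two⟩
  obtain ⟨y, hy1, hy2⟩ := c.two a b a' b' hab.symm hab'.symm
  rcases c.tr 2 y a with ⟨C, σ, hT⟩ | ⟨C, σ, hT⟩
  · rw [← hT.index b, hy1, hy2]
  · rw [← index_dual, ← hT.index b, hy1, hy2]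

theorem odd (c : Cfg ρ) {a b : Ω} (hab : b ≠ a) : ¬ 2 ∣ (Xs (ρ a) b).index := by
  classical
  have : Fact (Nat.Prime 2) := ⟨Nat.prime_two⟩
  have : Fintype Ω := Fintype.ofFinite Ω
  obtain ⟨P⟩ : Nonempty (Sylow 2 (S F)) := inferInstance
  let _ : MulAction (S F) Ω := MulAction.compHom Ω (ρ a)
  have h1 := P.isPGroup'.card_modEq_card_fixedPoints (α := Ω)
  have h2 : 2 ∣ Nat.card (fixedPoints P Ω) := by
    have h3 : 2 ∣ Nat.card Ω := c.even.two_dvd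
    exact (Nat.modEq_zero_iff_dvd.1 (h1.symm.trans (Nat.modEq_zero_iff_dvd.2 h3)))
  have ha : a ∈ fixedPoints P Ω := fun g => c.fix a g.1
  have h4 : ∃ b' ∈ fixedPoints P Ω, b' ≠ a := by
    by_contra hcon
    push Not at hcon
    have h5 : fixedPoints P Ω = {a} := by
      ext x
      exact ⟨fun hx => hcon x hx, fun hx => hx ▸ ha⟩
    rw [h5, Nat.card_unique] at h2
    norm_num at h2
  obtain ⟨b', hb', hb'a⟩ := h4
  rw [c.index_eq hab hb'a]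
  intro hdvd
  have h6 : (P : Subgroup (S F)) ≤ Xs (ρ a) b' := fun g hg => hb' ⟨g, hg⟩
  exact P.not_dvd_index (hdvd.trans (Subgroup.index_dvd_of_le h6))

theorem tri (c : Cfg ρ) {a b : Ω} (hab : b ≠ a) :
    (∃ v, Pt (Xs (ρ a) b) v) ∨ (∃ φ, Ln (Xs (ρ a) b) φ) ∨ ∃ v φ, Fl (Xs (ρ a) b) v φ :=
  trichotomy (c.odd hab) (c.ne_top hab)

/-- `X` contains the unipotent radical of a Borel subgroup -/
theorem exists_unip (c : Cfg ρ) {a b : Ω} (hab : b ≠ a) :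
    ∃ v φ : Fin 3 → F, v ≠ 0 ∧ φ ≠ 0 ∧ φ ⬝ᵥ v = 0 ∧ Ce (Xs (ρ a) b) v ∧ Ax (Xs (ρ a) b) φ := by
  rcases c.tri hab with ⟨v, hv⟩ | ⟨φ, hφ⟩ | ⟨v, φ, h⟩
  · obtain ⟨φ, hφ0, hφ, -⟩ := exists_common v v
    rw [dotProduct_comm] at hφ
    exact ⟨v, φ, hv.1, hφ0, hφ, hv.ce, hv.ax hφ⟩
  · obtain ⟨v, hv0, hv, -⟩ := exists_common φ φ
    exact ⟨v, φ, hv0, hφ.1, hv, hφ.ce hv, hφ.ax⟩
  · exact ⟨v, φ, h.1, h.2.1, h.2.2.1, h.2.2.2.2.2.1, h.2.2.2.2.2.2⟩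

/-- If `y` fixes `a` and centralises `ρ a (U)` then it induces on `N a` an element of `Z(U)`. -/
theorem exists_root (c : Cfg ρ) {a : Ω} {y : G} (hy : y • a = a) {v φ : Fin 3 → F}
    (hv : v ≠ 0) (hφ : φ ≠ 0) (hd : φ ⬝ᵥ v = 0)
    (hC : ∀ ψ : Fin 3 → F, ψ ⬝ᵥ v = 0 → y * ρ a (tv v ψ) * y⁻¹ = ρ a (tv v ψ))
    (hA : ∀ w : Fin 3 → F, φ ⬝ᵥ w = 0 → y * ρ a (tv w φ) * y⁻¹ = ρ a (tv w φ)) :
    ∃ k : F, (ρ a (tv v (k • φ)))⁻¹ * y ∈ K ρ a := by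
  have : Fact (Nat.Prime 2) := ⟨Nat.prime_two⟩
  have h1 := c.conj y a
  have h2 := c.conj' y a
  rw [hy] at h1 h2
  obtain ⟨k, hk⟩ := exists_root_of_comm 2 (c.rep a) h1 h2 hv hφ hd hC hA
  refine ⟨k, ?_⟩
  rw [mem_K]
  intro g
  have h3 := hk g
  have h4 : y * ρ a g = ρ a (tv v (k • φ)) * ρ a g * (ρ a (tv v (k • φ)))⁻¹ * y := by
    rw [← h3]; group
  rw [mul_assoc, h4]
  group

theorem comm_mem (c : Cfg ρ) {a b : Ω} {x y : G} (hx : x ∈ N ρ a) (hxb : x • b = b) (hy : y ∈ N ρ b) (hya : y • a = a) :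
    y * x * y⁻¹ * x⁻¹ ∈ N ρ a ∧ y * x * y⁻¹ * x⁻¹ ∈ N ρ b := by
  constructor
  · exact (N ρ a).mul_mem (c.N_conj_fix hya hx) ((N ρ a).inv_mem hx)
  · have h1 := c.N_conj_fix hxb ((N ρ b).inv_mem hy)
    have h2 := (N ρ b).mul_mem hy h1
    have h3 : y * (x * y⁻¹ * x⁻¹) = y * x * y⁻¹ * x⁻¹ := by group
    rwa [h3] at h2

/-- **Claim 1.** -/
theorem meet (c : Cfg ρ) {a b : Ω} (hab : b ≠ a) : ∃ x, x ∈ N ρ a ∧ x ∈ N ρ b ∧ x ≠ 1 := by
  by_contra hcon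
  push Not at hcon
  have hall : ∀ a' b' : Ω, b' ≠ a' → ∀ x, x ∈ N ρ a' → x ∈ N ρ b' → x = 1 := by
    intro a' b' hab' x hx1 hx2
    obtain ⟨y, hy1, hy2⟩ := c.two a b a' b' hab.symm hab'.symm
    have h1 := hcon (y⁻¹ * x * y) (c.N_conj' (by rw [hy1]; exact hx1)) (c.N_conj' (by rw [hy2]; exact hx2))
    have h2 : x = y * (y⁻¹ * x * y) * y⁻¹ := by group
    rw [h2, h1]
    group
  have hK : ∀ x, x ∈ N ρ b → x ∈ K ρ a → x = 1 := by
    intro x hx hxK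
    by_contra hx1
    obtain ⟨g, hg⟩ := c.not_fix hab
    have h1 := c.N_conj (y := ρ a g) hx
    have h2 : ρ a g * x * (ρ a g)⁻¹ = x := by rw [← mem_K.1 hxK g]; group
    rw [h2] at h1
    exact hx1 (hall _ _ hg x hx h1)
  obtain ⟨v, φ, hv, hφ, hd, hC, hA⟩ := c.exists_unip hab
  obtain ⟨v', φ', hv', hφ', hd', hC', hA'⟩ := c.exists_unip hab.symm
  obtain ⟨w, ψ, hw, hψ, hψw⟩ := exists_second hv' hφ' hd'
  -- an element of order four
  set t := tv v' ψ * tv w φ' with ht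
  have htX : t ∈ Xs (ρ b) a := (Xs (ρ b) a).mul_mem (hC' ψ hψ) (hA' w hw)
  have htt : t * t = tv v' φ' := by
    rw [ht]
    have h2F : (2 : F) = 0 := CharTwo.two_eq_zero
    apply ext_smul
    intro u
    rw [mul_smul, mul_smul, mul_smul, tv_smul hw, tv_smul hψ, tv_smul hw, tv_smul hψ, tv_smul hd']
    funext i
    simp only [Pi.add_apply, smul_ap, dotProduct_add, dotProduct_smul, smul_dotProduct, hd', hw, hψ, hψw,
      smul_eq_mul]
    linear_combination (φ' ⬝ᵥ u * w i + ψ ⬝ᵥ u * v' i + φ' ⬝ᵥ u * v' i) * h2F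
  set y := ρ b t with hy
  have hya : y • a = a := htX
  have hyb : y ∈ N ρ b := rho_mem b t
  have hcomm : ∀ g, g ∈ Xs (ρ a) b → y * ρ a g * y⁻¹ = ρ a g := by
    intro g hg
    obtain ⟨h1, h2⟩ := c.comm_mem (rho_mem a g) hg hyb hya
    have h3 := hcon _ h1 h2
    rw [mul_inv_eq_one] at h3
    exact h3
  obtain ⟨k, hk⟩ := c.exists_root hya hv hφ hd (fun ψ hψ => hcomm _ (hC ψ hψ)) (fun w hw => hcomm _ (hA w hw))
  have hkd : (k • φ) ⬝ᵥ v = 0 := by rw [smul_dotProduct, hd, smul_zero]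
  set z := ρ a (tv v (k • φ)) with hz
  have hzz : z * z = 1 := by rw [hz, ← map_mul, tv_sq hkd, map_one]
  have hyy : y * y ∈ K ρ a := by
    have h1 : y = z * (z⁻¹ * y) := by group
    have h2 : z * (z⁻¹ * y) = (z⁻¹ * y) * z := (mem_K.1 hk (tv v (k • φ))).symm
    have h3 : y * y = (z⁻¹ * y) * (z⁻¹ * y) := by
      calc y * y = (z * (z⁻¹ * y)) * (z * (z⁻¹ * y)) := by rw [← h1]
        _ = ((z⁻¹ * y) * z) * (z * (z⁻¹ * y)) := by rw [← h2]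
        _ = (z⁻¹ * y) * (z * z) * (z⁻¹ * y) := by group
        _ = _ := by rw [hzz, mul_one]
    rw [h3]
    exact (K ρ a).mul_mem hk hk
  have h1 := hK _ ((N ρ b).mul_mem hyb hyb) hyy
  rw [hy, ← map_mul, htt] at h1
  exact (c.rep b).tv_ne hd' hv' hφ' h1

end Cfg

end Cfsg.Agent.H438.SLThree
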