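import Mathlib
import Cfsg.Agent.H438.SLThreeI

/-!
# `C(N a) ∩ C(N b) = 1` (helper438, S3727)
-/

set_option autoImplicit false
set_option linter.unusedSectionVars false
set_option linter.unusedSimpArgs false

namespace Cfsg.Agent.H438.SLThree

open Matrix MulAction

variable {F : Type*} [Field F] {G Ω : Type*} [Group G] [MulAction G Ω] {ρ : Ω → (S F →* G)}

/-- `C(N a) ∩ C(N b)` -/
def KK (ρ : Ω → (S F →* G)) (a b : Ω) : Subgroup G := K ρ a ⊓ K ρ b

namespace Cfg

variable [Finite F] [CharP F 2] [Finite (S F)] [Finite G] [Finite Ω] (c : Cfg ρ)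

include c

theorem K_smul (y : G) (a : Ω) : (K ρ a).map (MulAut.conj y).toMonoidHom = K ρ (y • a) := by
  ext x
  constructor
  · rintro ⟨z, hz, rfl⟩
    exact c.K_conj hz
  · intro hx
    exact ⟨y⁻¹ * x * y, c.K_conj' hx, by
      change y * (y⁻¹ * x * y) * y⁻¹ = x
      group⟩

theorem KK_smul (y : G) (a b : Ω) : (KK ρ a b).map (MulAut.conj y).toMonoidHom = KK ρ (y • a) (y • b) := by
  ext x
  constructor
  · rintro ⟨z, hz, rfl⟩
    exact ⟨c.K_conj hz.1, c.K_conj hz.2⟩
  · rintro ⟨hx1, hx2⟩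
    exact ⟨y⁻¹ * x * y, ⟨c.K_conj' hx1, c.K_conj' hx2⟩, by
      change y * (y⁻¹ * x * y) * y⁻¹ = x
      group⟩

theorem KK_card {a b a' b' : Ω} (hab : b ≠ a) (hab' : b' ≠ a') : Nat.card (KK ρ a b) = Nat.card (KK ρ a' b') := by
  obtain ⟨y, hy1, hy2⟩ := c.two a b a' b' hab.symm hab'.symm
  have h1 := c.KK_smul y a b
  rw [hy1, hy2] at h1
  rw [← h1]
  exact Nat.card_congr ((KK ρ a b).equivMapOfInjective _ (MulAut.conj y).injective).toEquiv

theorem KK_eq_of_le {a b a' b' : Ω} (hab : b ≠ a) (hab' : b' ≠ a') (h : KK ρ a b ≤ KK ρ a' b') :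
    KK ρ a b = KK ρ a' b' := Subgroup.eq_of_le_of_card_ge h (c.KK_card hab' hab).le

/-- an element of `N a` normalises `KK a b` -/
theorem KK_move {a b : Ω} {x : G} (hx : x ∈ N ρ a) : KK ρ a (x • b) = KK ρ a b := by
  have h1 := c.KK_smul x a b
  rw [c.N_fix hx] at h1
  rw [← h1]
  obtain ⟨g, rfl⟩ := hx
  ext z
  constructor
  · rintro ⟨w, hw, rfl⟩
    change ρ a g * w * (ρ a g)⁻¹ ∈ _
    rw [← mem_K.1 hw.1 g]
    simpa using hw
  · intro hz
    refine ⟨z, hz, ?_⟩
    change ρ a g * z * (ρ a g)⁻¹ = z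
    rw [← mem_K.1 hz.1 g]
    group

theorem K_inf {a b : Ω} (hab : b ≠ a) {x : G} (hx : x ∈ K ρ a) (hx' : x ∈ K ρ b) : x = 1 := by
  by_contra hx1
  -- the subgroups `KK` are nontrivial
  have hsym : ∀ a b : Ω, KK ρ a b = KK ρ b a := fun a b => inf_comm _ _
  have hcard : 1 < Nat.card (KK ρ a b) := by
    rw [Subgroup.one_lt_card_iff_ne_bot]
    intro hbot
    have : x ∈ KK ρ a b := ⟨hx, hx'⟩
    rw [hbot, Subgroup.mem_bot] at this
    exact hx1 this
  -- not everything centralises
  have hout : ∀ a' b' : Ω, b' ≠ a' → ∃ d, ¬ KK ρ a' b' ≤ K ρ d := by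
    intro a' b' hab'
    by_contra hcon
    push Not at hcon
    have h1 : KK ρ a' b' = ⊥ := by
      rw [eq_bot_iff]
      intro z hz
      rw [Subgroup.mem_bot]
      exact c.faith z fun d => c.K_fix (hcon d hz)
    have h2 := c.KK_card hab hab'
    rw [h1, Subgroup.card_bot] at h2
    omega
  obtain ⟨g, hgN, hgN', hg1⟩ := c.meet hab
  have hga : g • a = a := c.N_fix hgN
  have hgb : g • b = b := c.N_fix hgN'
  -- (1) points outside the line are fixed
  have h1 : ∀ d : Ω, ¬ KK ρ a b ≤ K ρ d → g • d = d := by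
    intro d hd
    by_contra hgd
    have hda : d ≠ a := by
      rintro rfl
      exact hgd hga
    have hdb : d ≠ b := by
      rintro rfl
      exact hgd hgb
    have e1 : KK ρ a d ≤ KK ρ d (g • d) := by
      refine le_inf inf_le_right ?_
      rw [← c.KK_move (b := d) hgN]
      exact inf_le_right
    have e2 : KK ρ b d ≤ KK ρ d (g • d) := by
      refine le_inf inf_le_right ?_
      rw [← c.KK_move (b := d) hgN']
      exact inf_le_right
    have e1' := c.KK_eq_of_le hda hgd e1
    have e2' := c.KK_eq_of_le hdb hgd e2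
    have e3 : KK ρ a d ≤ KK ρ a b := by
      refine le_inf inf_le_left ?_
      rw [e1', ← e2']
      exact inf_le_left
    have e4 := c.KK_eq_of_le hda hab e3
    apply hd
    rw [← e4]
    exact inf_le_right
  -- (2) all points are fixed
  have h2 : ∀ e : Ω, g • e = e := by
    intro e
    by_cases he : KK ρ a b ≤ K ρ e
    swap
    · exact h1 e he
    by_contra hge
    obtain ⟨d, hd⟩ := hout a b hab
    have hde : d ≠ e := by
      rintro rfl
      exact hd he
    obtain ⟨n, hn, hnd⟩ := c.exists_move hde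
    have hne : n • e = e := c.N_fix hn
    have e1 : KK ρ e (n • d) = KK ρ e d := c.KK_move hn
    have hnde : n • d ≠ e := by
      intro h0
      apply hde
      rw [← hne] at h0
      exact smul_left_cancel _ h0
    have hd' : ¬ KK ρ a b ≤ K ρ (n • d) := by
      intro h3
      have e2 : KK ρ a b ≤ KK ρ e (n • d) := le_inf he h3
      have e3 := c.KK_eq_of_le hab hnde e2
      apply hd
      rw [e3, e1]
      exact inf_le_right
    have hgd := h1 d hd
    have hgd' := h1 _ hd'
    have e2 : KK ρ e d ≤ KK ρ d (n • d) := by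
      refine le_inf inf_le_right ?_
      rw [← e1]
      exact inf_le_right
    have e2' := c.KK_eq_of_le hde hnd e2
    have e3 : KK ρ (g • e) d = KK ρ e d := by
      have h3 := c.KK_smul g d (n • d)
      rw [hgd, hgd', ← e2', c.KK_smul, hgd] at h3
      exact h3
    have e4 : KK ρ e d ≤ KK ρ e (g • e) := by
      refine le_inf inf_le_left ?_
      rw [← e3]
      exact inf_le_left
    have e4' := c.KK_eq_of_le hde hge e4
    have e5 : KK ρ a b ≤ KK ρ e (g • e) := by
      refine le_inf he ?_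
      intro z hz
      obtain ⟨gg, rfl⟩ := hgN
      have h3 := c.K_conj (y := ρ a gg) (he hz)
      rw [← mem_K.1 hz.1 gg] at h3
      simpa using h3
    have e5' := c.KK_eq_of_le hab hge e5
    apply hd
    rw [e5', ← e4']
    exact inf_le_right
  exact hg1 (c.faith g h2)

end Cfg

end Cfsg.Agent.H438.SLThree
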