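import Mathlib
import Cfsg.Agent.H438.SLThreeJ

/-!
# The two types of configurations (helper438, S3727)
-/

set_option autoImplicit false
set_option linter.unusedSectionVars false
set_option linter.unusedSimpArgs false

namespace Cfsg.Agent.H438.SLThree

open Matrix MulAction

variable {F : Type*} [Field F] {G Ω : Type*} [Group G] [MulAction G Ω] {ρ : Ω → (S F →* G)}

/-- all stabilisers are of type `Pt` -/
def TypePt (ρ : Ω → (S F →* G)) : Prop := ∀ a b : Ω, b ≠ a → ∃ v, Pt (Xs (ρ a) b) v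

/-- all stabilisers are of type `Fl` -/
def TypeFl (ρ : Ω → (S F →* G)) : Prop := ∀ a b : Ω, b ≠ a → ∃ v φ, Fl (Xs (ρ a) b) v φ

theorem Pt.toDual {X : Subgroup (S F)} {v : Fin 3 → F} (h : Pt X v) : Ln (X.comap SLThree.dual) v := by
  refine ⟨h.1, ?_, ?_⟩
  · intro g hg
    obtain ⟨μ, hμ⟩ := h.2.1 _ hg
    rw [dual_smul] at hμ
    have hμ0 : μ ≠ 0 := by
      rintro rfl
      rw [zero_smul] at hμ
      exact row_ne h.1 _ hμ
    refine ⟨μ⁻¹, ?_⟩
    have h1 := congrArg (fun x => row x g) hμ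
    simp only [row_smul, row_inv_row] at h1
    exact (eq_inv_smul_iff₀ hμ0).2 h1.symm
  · intro g hg
    rw [Subgroup.mem_comap]
    apply h.2.2
    rw [dual_smul]
    have h1 := congrArg (fun x => row x g⁻¹) hg
    simp only [row_row_inv] at h1
    exact h1.symm

theorem Fl.toDual {X : Subgroup (S F)} {v φ : Fin 3 → F} (h : Fl X v φ) : Fl (X.comap SLThree.dual) φ v := by
  obtain ⟨h1, h2, h3, h4, h5, h6, h7⟩ := h
  refine ⟨h2, h1, by rw [dotProduct_comm, h3], ?_, ?_, ?_, ?_⟩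
  · intro g hg
    obtain ⟨μ, hμ⟩ := h5 _ hg
    rw [row_dual, inv_smul_eq_iff, smul_smul_comm'] at hμ
    have hμ0 : μ ≠ 0 := by
      rintro rfl
      rw [zero_smul] at hμ
      exact h2 hμ
    exact ⟨μ⁻¹, (eq_inv_smul_iff₀ hμ0).2 hμ.symm⟩
  · intro g hg
    obtain ⟨μ, hμ⟩ := h4 _ hg
    rw [dual_smul] at hμ
    have hμ0 : μ ≠ 0 := by
      rintro rfl
      rw [zero_smul] at hμ
      exact row_ne h1 _ hμ
    refine ⟨μ⁻¹, ?_⟩
    have h1 := congrArg (fun x => row x g) hμ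
    simp only [row_smul, row_inv_row] at h1
    exact (eq_inv_smul_iff₀ hμ0).2 h1.symm
  · intro ψ hψ
    have hψ' : φ ⬝ᵥ ψ = 0 := by rw [dotProduct_comm, hψ]
    rw [Subgroup.mem_comap, dual_tv hψ, ← tv_inv hψ']
    exact X.inv_mem (h7 ψ hψ')
  · intro w hw
    have hw' : w ⬝ᵥ v = 0 := by rw [dotProduct_comm, hw]
    rw [Subgroup.mem_comap, dual_tv hw, ← tv_inv hw']
    exact X.inv_mem (h6 w hw')

theorem Pt.not_ln {X : Subgroup (S F)} {v φ : Fin 3 → F} (h : Pt X v) (h' : Ln X φ) : False :=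
  h.not_row h'.1 h'.2.1

namespace Cfg

variable [Finite F] [CharP F 2] [Finite (S F)] [Finite G] [Finite Ω]

theorem parity (c : Cfg ρ) (a : Ω) (hall : ∀ b : Ω, b ≠ a → (∃ v, Pt (Xs (ρ a) b) v) ∨ ∃ φ, Ln (Xs (ρ a) b) φ) :
    (∀ b : Ω, b ≠ a → ∃ v, Pt (Xs (ρ a) b) v) ∨ ∀ b : Ω, b ≠ a → ∃ φ, Ln (Xs (ρ a) b) φ := by
  classical
  have : Fact (Nat.Prime 2) := ⟨Nat.prime_two⟩
  have : Fintype Ω := Fintype.ofFinite Ω
  by_contra hcon
  rw [not_or] at hcon
  obtain ⟨h1, h2⟩ := hcon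
  rw [not_forall] at h1 h2
  obtain ⟨b2, h1⟩ := h1
  obtain ⟨b1, h2⟩ := h2
  rw [Classical.not_imp] at h1 h2
  obtain ⟨hb2, h1⟩ := h1
  obtain ⟨hb1, h2⟩ := h2
  have h1' := (hall b2 hb2).resolve_left h1
  have h2' := (hall b1 hb1).resolve_right h2
  obtain ⟨y, hy1, hy2⟩ := c.two a b1 a b2 hb1.symm hb2.symm
  rcases c.tr 2 y a with ⟨C, σ, hT⟩ | ⟨C, σ, hT⟩
  · rw [hy1] at hT
    obtain ⟨v, hv⟩ := h2'
    have := hT.pt hv
    rw [hy2] at this
    exact h1 ⟨_, this⟩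
  · rw [hy1] at hT
    have e1 : ∀ b : Ω, (∃ v, Pt (Xs (ρ a) b) v) → ∃ φ, Ln (Xs (ρ a) (y • b)) φ := by
      rintro b ⟨v, hv⟩
      exact ⟨_, hT.ln (b := b) (φ := v) hv.toDual⟩
    have e2 : ∀ b : Ω, (∃ φ, Ln (Xs (ρ a) b) φ) → ∃ v, Pt (Xs (ρ a) (y • b)) v := by
      rintro b ⟨v, hv⟩
      exact ⟨_, hT.pt (b := b) (v := v) hv.toDual⟩
    have hyb : ∀ b : Ω, y • b ≠ a ↔ b ≠ a := by
      intro b
      constructor
      · rintro h rfl
        exact h hy1
      · intro h h0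
        apply h
        rw [← hy1] at h0
        exact smul_left_cancel _ h0
    have hcard : Nat.card {b : Ω // b ≠ a ∧ ∃ v, Pt (Xs (ρ a) b) v} =
        Nat.card {b : Ω // b ≠ a ∧ ∃ φ, Ln (Xs (ρ a) b) φ} := by
      apply Nat.card_congr
      refine (MulAction.toPerm y).subtypeEquiv ?_
      intro b
      rw [MulAction.toPerm_apply, hyb]
      constructor
      · rintro ⟨h3, h4⟩
        exact ⟨h3, e1 b h4⟩
      · rintro ⟨h3, φ, h4⟩
        refine ⟨h3, ?_⟩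
        rcases hall b h3 with h5 | h5
        · exact h5
        · obtain ⟨v, h6⟩ := e2 b h5
          exact (h6.not_ln h4).elim
    have htot : Nat.card Ω = 1 + (Nat.card {b : Ω // b ≠ a ∧ ∃ v, Pt (Xs (ρ a) b) v} +
        Nat.card {b : Ω // b ≠ a ∧ ∃ φ, Ln (Xs (ρ a) b) φ}) := by
      have h3 : Nat.card {b : Ω // (b ≠ a ∧ ∃ v, Pt (Xs (ρ a) b) v) ∨ (b ≠ a ∧ ∃ φ, Ln (Xs (ρ a) b) φ)} =
          Nat.card {b : Ω // b ≠ a ∧ ∃ v, Pt (Xs (ρ a) b) v} + Nat.card {b : Ω // b ≠ a ∧ ∃ φ, Ln (Xs (ρ a) b) φ} := by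
        rw [Nat.card_eq_fintype_card, Nat.card_eq_fintype_card, Nat.card_eq_fintype_card,
          Fintype.card_subtype_or_disjoint]
        rw [Pi.disjoint_iff]
        intro b
        rw [Prop.disjoint_iff]
        rintro ⟨⟨-, v, h4⟩, -, φ, h5⟩
        exact h4.not_ln h5
      rw [← h3, ← card_or a]
      · symm
        apply Nat.card_congr
        refine Equiv.subtypeUnivEquiv ?_
        intro b
        by_cases hb : b = a
        · exact Or.inl hb
        · right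
          rcases hall b hb with h5 | h5
          · exact Or.inl ⟨hb, h5⟩
          · exact Or.inr ⟨hb, h5⟩
      · rintro (h4 | h4)
        · exact h4.1 rfl
        · exact h4.1 rfl
    have heven := c.even
    rw [htot, hcard] at heven
    rw [Nat.even_iff] at heven
    omega

/-- **The two types.** -/
theorem types (c : Cfg ρ) : TypeFl ρ ∨ ∃ ρ' : Ω → (S F →* G), Cfg ρ' ∧ (∀ a, N ρ' a = N ρ a) ∧ TypePt ρ' := by
  classical
  have : Fact (Nat.Prime 2) := ⟨Nat.prime_two⟩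
  by_cases hF : ∃ a0 b0 : Ω, b0 ≠ a0 ∧ ∃ v φ, Fl (Xs (ρ a0) b0) v φ
  · left
    obtain ⟨a0, b0, hab0, v, φ, hfl⟩ := hF
    intro a b hab
    obtain ⟨y, hy1, hy2⟩ := c.two a0 b0 a b hab0.symm hab.symm
    rcases c.tr 2 y a0 with ⟨C, σ, hT⟩ | ⟨C, σ, hT⟩
    · rw [hy1] at hT
      have := hT.fl hfl
      rw [hy2] at this
      exact ⟨_, _, this⟩
    · rw [hy1] at hT
      have := hT.fl (b := b0) hfl.toDual
      rw [hy2] at this
      exact ⟨_, _, this⟩
  · right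
    have hall : ∀ a b : Ω, b ≠ a → (∃ v, Pt (Xs (ρ a) b) v) ∨ ∃ φ, Ln (Xs (ρ a) b) φ := by
      intro a b hab
      rcases c.tri hab with h | h | h
      · exact Or.inl h
      · exact Or.inr h
      · exact (hF ⟨a, b, hab, h⟩).elim
    let ρ' : Ω → (S F →* G) := fun a =>
      if ∀ b : Ω, b ≠ a → ∃ v, Pt (Xs (ρ a) b) v then ρ a else (ρ a).comp dual
    have hρ' : ∀ a, ρ' a = ρ a ∨ ρ' a = (ρ a).comp dual := by
      intro a
      by_cases h : ∀ b : Ω, b ≠ a → ∃ v, Pt (Xs (ρ a) b) v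
      · exact Or.inl (if_pos h)
      · exact Or.inr (if_neg h)
    have hN : ∀ a, N ρ' a = N ρ a := by
      intro a
      unfold N
      rcases hρ' a with h | h
      · rw [h]
      · rw [h, range_comp_dual]
    refine ⟨ρ', ⟨c.two, c.faith, c.even, ?_, ?_, ?_⟩, hN, ?_⟩
    · intro a
      rcases hρ' a with h | h
      · rw [h]; exact c.rep a
      · rw [h]; exact (c.rep a).toDual
    · intro a g
      have h1 : ρ' a g ∈ N ρ' a := rho_mem a g
      rw [hN] at h1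
      exact c.N_fix h1
    · intro y a g
      have h1 : ρ' a g ∈ N ρ' a := rho_mem a g
      rw [hN] at h1
      have h2 := c.N_conj (y := y) h1
      rw [← hN] at h2
      obtain ⟨g', hg'⟩ := h2
      exact ⟨g', hg'.symm⟩
    · intro a b hab
      by_cases h : ∀ b : Ω, b ≠ a → ∃ v, Pt (Xs (ρ a) b) v
      · have h1 : ρ' a = ρ a := if_pos h
        rw [h1]
        exact h b hab
      · have h1 : ρ' a = (ρ a).comp dual := if_neg h
        rw [h1]
        obtain ⟨φ, hφ⟩ := (c.parity a (hall a)).resolve_left h b hab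
        exact ⟨φ, hφ.toDual⟩

end Cfg

end Cfsg.Agent.H438.SLThree
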