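import Mathlib
import Cfsg.Agent.H438.SLThreeK
import Cfsg.Agent.StdRank2.OutField

/-!
# The configurations of type `Pt`, I (helper438, S3727)

`Qs ρ v` : the group of the transvections with centre `v`; `Qs (ρ a) v_b = Qs (ρ b) v_a`; the stabiliser of `v_b` in
`N a` lies in `N b`.
-/

set_option autoImplicit false
set_option linter.unusedSectionVars false
set_option linter.unusedSimpArgs false

namespace Cfsg.Agent.H438.SLThree

open Matrix MulAction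
open Cfsg.Agent.ClassicalGeometry.AutPSL.Auto

variable {F : Type*} [Field F] {G Ω : Type*} [Group G] [MulAction G Ω]

/-- the transvections with centre `v` -/
def Qs (ρ : S F →* G) (v : Fin 3 → F) : Subgroup G where
  carrier := {x | ∃ ψ : Fin 3 → F, ψ ⬝ᵥ v = 0 ∧ ρ (tv v ψ) = x}
  one_mem' := ⟨0, by simp, by rw [tv_zero_right, map_one]⟩
  mul_mem' := by
    rintro _ _ ⟨ψ, h1, rfl⟩ ⟨χ, h2, rfl⟩
    exact ⟨ψ + χ, by rw [add_dotProduct, h1, h2, add_zero], by rw [← tv_mul h1 h2, map_mul]⟩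
  inv_mem' := by
    rintro _ ⟨ψ, h1, rfl⟩
    exact ⟨-ψ, by rw [neg_dotProduct, h1, neg_zero], by rw [← tv_inv h1, map_inv]⟩

theorem mem_Qs {ρ : S F →* G} {v : Fin 3 → F} {x : G} :
    x ∈ Qs ρ v ↔ ∃ ψ : Fin 3 → F, ψ ⬝ᵥ v = 0 ∧ ρ (tv v ψ) = x := Iff.rfl

theorem Qs_smul (ρ : S F →* G) (v : Fin 3 → F) {k : F} (hk : k ≠ 0) : Qs ρ (k • v) = Qs ρ v := by
  ext x
  constructor
  · rintro ⟨ψ, h1, rfl⟩
    have h2 : ψ ⬝ᵥ v = 0 := by
      rw [dotProduct_smul, smul_eq_mul] at h1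
      exact (mul_eq_zero.1 h1).resolve_left hk
    exact ⟨k • ψ, by rw [smul_dotProduct, h2, smul_zero], by rw [tv_smul_left h2]⟩
  · rintro ⟨ψ, h1, rfl⟩
    have h2 : (k⁻¹ • ψ) ⬝ᵥ v = 0 := by rw [smul_dotProduct, h1, smul_zero]
    refine ⟨k⁻¹ • ψ, by rw [dotProduct_smul, h2, smul_zero], ?_⟩
    rw [tv_smul_left h2, smul_smul, mul_inv_cancel₀ hk, one_smul]

/-- a transvection stabilising a point -/
theorem dot_of_fix {w φ v : Fin 3 → F} (h : φ ⬝ᵥ w = 0) (hw : w ≠ 0) {μ : F} (hμ : tv w φ • v = μ • v) :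
    φ ⬝ᵥ v = 0 := by
  by_contra hne
  rw [tv_smul h] at hμ
  have h1 : (φ ⬝ᵥ v) • w = (μ - 1) • v := by
    rw [sub_smul, one_smul, ← hμ]; simp
  have h2 : φ ⬝ᵥ ((φ ⬝ᵥ v) • w) = φ ⬝ᵥ ((μ - 1) • v) := by rw [h1]
  rw [dotProduct_smul, h, smul_zero, dotProduct_smul, smul_eq_mul] at h2
  have h3 : μ - 1 = 0 := (mul_eq_zero.1 h2.symm).resolve_right hne
  rw [h3, zero_smul] at h1
  exact smul_ne_zero hne hw h1

theorem tv_fix {w φ v : Fin 3 → F} (h : φ ⬝ᵥ w = 0) (hv : φ ⬝ᵥ v = 0) : tv w φ • v = v := by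
  rw [tv_smul h, hv, zero_smul, add_zero]

variable {ρ : Ω → (S F →* G)}

/-- the part of `N a` in `N b` -/
def Y (ρ : Ω → (S F →* G)) (a b : Ω) : Subgroup (S F) := (N ρ b).comap (ρ a)

theorem mem_Y {a b : Ω} {g : S F} : g ∈ Y ρ a b ↔ ρ a g ∈ N ρ b := Iff.rfl

/-- an involution fixes a second point -/
theorem exists_second_fix [Finite G] [Finite Ω] (heven : Even (Nat.card Ω)) {x : G} (hx : x * x = 1) {a : Ω}
    (ha : x • a = a) : ∃ b : Ω, b ≠ a ∧ x • b = b := by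
  classical
  have : Fact (Nat.Prime 2) := ⟨Nat.prime_two⟩
  have : Fintype Ω := Fintype.ofFinite Ω
  have hP : IsPGroup 2 (Subgroup.zpowers x) := by
    rintro ⟨_, k, rfl⟩
    refine ⟨1, ?_⟩
    apply Subtype.ext
    change (x ^ k) ^ (2 ^ 1) = 1
    rw [pow_one, ← zpow_natCast, ← _root_.zpow_mul, mul_comm, _root_.zpow_mul, zpow_natCast, pow_two, hx, _root_.one_zpow]
  have h1 := hP.card_modEq_card_fixedPoints (α := Ω)
  have h2 : 2 ∣ Nat.card (fixedPoints (Subgroup.zpowers x) Ω) :=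
    Nat.modEq_zero_iff_dvd.1 (h1.symm.trans (Nat.modEq_zero_iff_dvd.2 heven.two_dvd))
  have h3 : ∀ b : Ω, b ∈ fixedPoints (Subgroup.zpowers x) Ω ↔ x • b = b := by
    intro b
    constructor
    · intro h
      exact h ⟨x, Subgroup.mem_zpowers x⟩
    · rintro h ⟨_, k, rfl⟩
      have h4 : x ∈ stabilizer G b := h
      exact (stabilizer G b).zpow_mem h4 k
  by_contra hcon
  push Not at hcon
  have h5 : fixedPoints (Subgroup.zpowers x) Ω = {a} := by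
    ext b
    rw [h3]
    constructor
    · intro h
      by_contra hb
      exact hcon b hb h
    · intro h
      rw [Set.mem_singleton_iff] at h
      rw [h, ha]
  rw [h5, Nat.card_unique] at h2
  norm_num at h2

/-! ### composition of `Tr` -/

/-- field automorphism applied to an invertible matrix -/
def mapG (σ : F ≃+* F) (C : GL (Fin 3) F) : GL (Fin 3) F := Matrix.GeneralLinearGroup.map (σ : F →+* F) C

theorem cv_mapG (σ τ : F ≃+* F) (C D : GL (Fin 3) F) (v : Fin 3 → F) :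
    cv D τ (cv C σ v) = cv (D * mapG τ C) (τ * σ) v := by
  unfold cv
  rw [Units.val_mul, ← mulVec_mulVec]
  congr 1
  funext i
  have h1 : ((mapG τ C : GL (Fin 3) F) : Matrix (Fin 3) (Fin 3) F) = (C : Matrix (Fin 3) (Fin 3) F).map τ := rfl
  change τ ((C.1 *ᵥ fun i => σ (v i)) i) = ((mapG τ C : GL (Fin 3) F) : Matrix (Fin 3) (Fin 3) F).mulVec _ i
  rw [h1]
  simp [mulVec, dotProduct, map_sum]

theorem th_mapG (σ τ : F ≃+* F) (C D : GL (Fin 3) F) (g : S F) :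
    th D τ (th C σ g) = th (D * mapG τ C) (τ * σ) g := by
  apply ext_smul
  intro u
  obtain ⟨u, rfl⟩ := cv_surj (D * mapG τ C) (τ * σ) u
  rw [th_smul, ← cv_mapG, ← cv_mapG, th_smul, th_smul]

theorem Tr.comp {ρ ρ' ρ'' : S F →* G} {y z : G} {C D : GL (Fin 3) F} {σ τ : F ≃+* F} (h : Tr ρ ρ' y C σ)
    (h' : Tr ρ' ρ'' z D τ) : Tr ρ ρ'' (z * y) (D * mapG τ C) (τ * σ) := by
  intro g
  rw [← th_mapG, ← h', ← h]
  group

/-- the field automorphism is unique -/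
theorem Tr.unique {ρ ρ' : S F →* G} {y : G} {C D : GL (Fin 3) F} {σ τ : F ≃+* F} (hρ : IsRep ρ')
    (h : Tr ρ ρ' y C σ) (h' : Tr ρ ρ' y D τ) : σ = τ := by
  have hd : (e3 : Fin 3 → F) ⬝ᵥ e1 = 0 := by rw [dot_e1]; rfl
  have key : ∀ x : F, x ≠ 0 → ∃ k : F, k ≠ 0 ∧ cv D τ e1 = k • cv C σ e1 ∧ τ x • cr D τ e3 = (k⁻¹ * σ x) • cr C σ e3 := by
    intro x hx
    have hdx : (x • e3 : Fin 3 → F) ⬝ᵥ e1 = 0 := by rw [smul_dotProduct, hd, smul_zero]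
    have h1 : ρ' (tv (cv C σ e1) (cr C σ (x • e3))) = ρ' (tv (cv D τ e1) (cr D τ (x • e3))) := by
      rw [← th_tv C σ hdx, ← th_tv D τ hdx, ← h, ← h']
    have d1 : cr C σ (x • e3) ⬝ᵥ cv C σ e1 = 0 := by rw [cr_dot_cv, hdx, map_zero]
    have d2 : cr D τ (x • e3) ⬝ᵥ cv D τ e1 = 0 := by rw [cr_dot_cv, hdx, map_zero]
    obtain ⟨k, hk, hk1, hk2⟩ := tv_inj d1 d2 (cv_ne C σ e1_ne) (cr_ne C σ (smul_ne_zero hx e3_ne))
      (hρ.tv_eq d1 d2 h1)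
    refine ⟨k, hk, hk1, ?_⟩
    rw [← cr_smul, hk2, cr_smul, smul_smul]
  obtain ⟨k, hk, hk1, hk2⟩ := key 1 one_ne_zero
  apply RingEquiv.ext
  intro x
  by_cases hx : x = 0
  · rw [hx, map_zero, map_zero]
  obtain ⟨l, hl, hl1, hl2⟩ := key x hx
  have hkl : l = k := smul_left_injective F (cv_ne C σ e1_ne) (show l • cv C σ e1 = k • cv C σ e1 by rw [← hk1, hl1])
  rw [hkl] at hl2
  rw [map_one, map_one, one_smul, mul_one] at hk2
  rw [hk2, smul_smul] at hl2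
  have h3 := smul_left_injective F (cr_ne C σ e3_ne) hl2
  rw [mul_comm (τ x)] at h3
  exact (mul_left_cancel₀ (inv_ne_zero hk) h3).symm

theorem Tr.of_eq {ρ ρ' : S F →* G} {y z : G} {C : GL (Fin 3) F} {σ : F ≃+* F} (h : Tr ρ ρ' y C σ) (hyz : y = z) :
    Tr ρ ρ' z C σ := hyz ▸ h

/-- commutators induce the trivial field automorphism -/
theorem Tr.comm_field [Finite F] [CharP F 2] {ρ : S F →* G} {y z : G} {C D E : GL (Fin 3) F} {σ τ ω : F ≃+* F}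
    (hρ : IsRep ρ) (hy : Tr ρ ρ y C σ) (hz : Tr ρ ρ z D τ) (hw : Tr ρ ρ (y * z * y⁻¹ * z⁻¹) E ω) : ω = 1 := by
  have h2 : Tr ρ ρ ((y * z * y⁻¹ * z⁻¹) * (z * y)) _ _ := (hy.comp hz).comp hw
  have h3 : Tr ρ ρ (y * z) _ _ := hz.comp hy
  have h4 := h2.of_eq (show (y * z * y⁻¹ * z⁻¹) * (z * y) = y * z by group)
  have h5 := h3.unique hρ h4
  rw [StdRank2.OutField.comm σ τ] at h5
  exact (mul_eq_right.1 h5.symm)

namespace Cfg

section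

variable (c : Cfg ρ)

include c

theorem Y_le {a b : Ω} : Y ρ a b ≤ Xs (ρ a) b := fun _ hg => c.N_fix hg

theorem center_le_Y {a b : Ω} : Subgroup.center (S F) ≤ Y ρ a b := by
  intro g hg
  rw [mem_Y, ((c.rep a) g).2 hg]
  exact (N ρ b).one_mem

theorem Y_normal {a b : Ω} {g y : S F} (hg : g ∈ Xs (ρ a) b) (hy : y ∈ Y ρ a b) : g * y * g⁻¹ ∈ Y ρ a b := by
  rw [mem_Y, map_mul, map_mul, map_inv]
  exact c.N_conj_fix hg hy

theorem Y_ne [Finite F] [CharP F 2] [Finite (S F)] [Finite G] [Finite Ω] {a b : Ω} (hab : b ≠ a) :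
    ∃ y ∈ Y ρ a b, y ∉ Subgroup.center (S F) := by
  obtain ⟨x, ⟨g, rfl⟩, hx2, hx1⟩ := c.meet hab
  exact ⟨g, hx2, fun h => hx1 (((c.rep a) g).2 h)⟩

end

variable [Finite F] [CharP F 2] [Finite (S F)] [Finite G] [Finite Ω]

/-- `Q_{ab}` lies in `N b` -/
theorem Q_le (c : Cfg ρ) {a b : Ω} (hab : b ≠ a) {v : Fin 3 → F} (hv : Pt (Xs (ρ a) b) v) : Ce (Y ρ a b) v :=
  hv.normal_ce c.Y_le c.center_le_Y (fun _ hg _ hy => c.Y_normal hg hy) (c.Y_ne hab)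

/-- the elements fixing `a` and `b` normalise `Q_{ab}` -/
theorem Q_inv (c : Cfg ρ) {a b : Ω} {v : Fin 3 → F} (hv : Pt (Xs (ρ a) b) v) {d : G}
    (hda : d • a = a) (hdb : d • b = b) : ∃ C σ, Tr (ρ a) (ρ a) d C σ ∧ ∃ k : F, k ≠ 0 ∧ cv C σ v = k • v := by
  have : Fact (Nat.Prime 2) := ⟨Nat.prime_two⟩
  rcases c.tr 2 d a with ⟨C, σ, hT⟩ | ⟨C, σ, hT⟩
  · rw [hda] at hT
    have h1 := hT.pt hv
    rw [hdb] at h1
    obtain ⟨k, hk⟩ := cen_unique hv.1 hv.ce h1.2.1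
    refine ⟨C, σ, hT, k, ?_, hk⟩
    rintro rfl
    rw [zero_smul] at hk
    exact cv_ne C σ hv.1 hk
  · rw [hda] at hT
    have h1 := hT.ln (b := b) hv.toDual
    rw [hdb] at h1
    exact (hv.not_ln h1).elim

theorem Q_conj (c : Cfg ρ) {a b : Ω} {v : Fin 3 → F} (hv : Pt (Xs (ρ a) b) v) {d : G}
    (hda : d • a = a) (hdb : d • b = b) {x : G} (hx : x ∈ Qs (ρ a) v) : d * x * d⁻¹ ∈ Qs (ρ a) v := by
  obtain ⟨C, σ, hT, k, hk, hkv⟩ := c.Q_inv hv hda hdb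
  obtain ⟨ψ, hψ, rfl⟩ := hx
  have h1 : cr C σ ψ ⬝ᵥ cv C σ v = 0 := by rw [cr_dot_cv, hψ, map_zero]
  rw [hT, th_tv C σ hψ, ← Qs_smul (ρ a) v hk, ← hkv]
  exact ⟨_, h1, rfl⟩

/-- **`Q_{ab} = Q_{ba}`** -/
theorem Q_eq_le (c : Cfg ρ) {a b : Ω} (hab : b ≠ a) {v v' : Fin 3 → F} (hv : Pt (Xs (ρ a) b) v)
    (hv' : Pt (Xs (ρ b) a) v') : Qs (ρ a) v ≤ Qs (ρ b) v' := by
  rintro _ ⟨ψ, hψ, rfl⟩
  by_cases hψ0 : ψ = 0
  · rw [hψ0, tv_zero_right, map_one]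
    exact Subgroup.one_mem _
  have h1 : ρ a (tv v ψ) ∈ N ρ b := c.Q_le hab hv ψ hψ
  obtain ⟨g, hg⟩ := h1
  obtain ⟨w, χ, hχ, he⟩ := (c.rep b).exists_tv (g := g) (by rw [hg, ← map_mul, tv_sq hψ, map_one])
  rw [hg] at he
  have hx1 : ρ a (tv v ψ) ≠ 1 := (c.rep a).tv_ne hψ hv.1 hψ0
  have hw : w ≠ 0 := by
    rintro rfl
    rw [tv_zero_left, map_one] at he
    exact hx1 he
  have hχ0 : χ ≠ 0 := by
    rintro rfl
    rw [tv_zero_right, map_one] at he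
    exact hx1 he
  have hfix : tv w χ ∈ Xs (ρ b) a := by
    rw [mem_Xs, ← he]
    exact c.fix a _
  obtain ⟨μ, hμ⟩ := hv'.2.1 _ hfix
  have hχv : χ ⬝ᵥ v' = 0 := dot_of_fix hχ hw hμ
  rw [he]
  -- it remains to show that `w` is a multiple of `v'`
  by_cases hpar : ∃ k : F, w = k • v'
  · obtain ⟨k, rfl⟩ := hpar
    rw [tv_smul_left hχv]
    exact ⟨_, by rw [smul_dotProduct, hχv, smul_zero], rfl⟩
  exfalso
  obtain ⟨ξ, hξv, hξw⟩ := exists_ker' hv'.1 hpar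
  -- a vector `z` with `ξ z = 0`, `χ z ≠ 0`
  have hnp : ¬ ∃ k : F, χ = k • ξ := by
    rintro ⟨k, hk⟩
    have : k * (ξ ⬝ᵥ w) = 0 := by rw [← smul_eq_mul, ← smul_dotProduct, ← hk, hχ]
    rcases mul_eq_zero.1 this with h2 | h2
    · exact hχ0 (by rw [hk, h2, zero_smul])
    · exact hξw h2
  have hξ0 : ξ ≠ 0 := by
    rintro rfl
    exact hξw (zero_dotProduct _)
  obtain ⟨z, hz, hχz⟩ := exists_ker hξ0 hnp
  have hgfix : tv z ξ • v' = v' := tv_fix hz hξv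
  have hgX : tv z ξ ∈ Xs (ρ b) a := hv'.2.2 _ hgfix
  have hx : ρ b (tv w χ) ∈ Qs (ρ a) v := he ▸ ⟨ψ, hψ, rfl⟩
  have h2 := c.Q_conj hv (d := ρ b (tv z ξ)) hgX (c.fix b _) hx
  -- the two elements commute
  have h3 : ∀ x ∈ Qs (ρ a) v, ∀ y ∈ Qs (ρ a) v, x * y * x⁻¹ = y := by
    rintro _ ⟨ψ1, hψ1, rfl⟩ _ ⟨ψ2, hψ2, rfl⟩
    have : tv v ψ1 * tv v ψ2 = tv v ψ2 * tv v ψ1 := by rw [tv_mul hψ1 hψ2, tv_mul hψ2 hψ1, add_comm]
    rw [← map_mul, this, map_mul]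
    group
  have h4 := h3 _ h2 _ hx
  set g1 := tv z ξ * tv w χ * (tv z ξ)⁻¹ with hg1
  have h5 : ρ b (tv z ξ) * ρ b (tv w χ) * (ρ b (tv z ξ))⁻¹ = ρ b g1 := by
    rw [hg1, map_mul, map_mul, map_inv]
  rw [h5, ← map_mul, ← map_inv, ← map_mul, conj_tv hχ] at h4
  have h6 : row χ g1⁻¹ ⬝ᵥ (g1 • w) = 0 := by rw [dot_inv, hχ]
  obtain ⟨k, -, hk, -⟩ := tv_inj h6 hχ (smul_ne' hw _) (row_ne hχ0 _) ((c.rep b).tv_eq h6 hχ h4)
  -- apply `χ`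
  have h7 : χ ⬝ᵥ (g1 • w) = 0 := by
    by_cases hk0 : k = 0
    · rw [hk0, zero_smul] at hk
      exact (hw hk).elim
    · have : g1 • w = k⁻¹ • w := by
        nth_rewrite 2 [hk]
        rw [smul_smul, inv_mul_cancel₀ hk0, one_smul]
      rw [this, dotProduct_smul, hχ, smul_zero]
  have h8 : g1 = tv (tv z ξ • w) (row χ (tv z ξ)⁻¹) := by rw [hg1, conj_tv hχ]
  have h9 : row χ (tv z ξ)⁻¹ ⬝ᵥ (tv z ξ • w) = 0 := by rw [dot_inv, hχ]
  have h10 : row χ (tv z ξ)⁻¹ = χ + -(χ ⬝ᵥ z) • ξ := by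
    rw [tv_inv hz, row_tv (by rw [neg_dotProduct, hz, neg_zero])]
    funext i
    simp [smul_ap]
  rw [h8, tv_smul h9, tv_smul hz, h10] at h7
  simp only [dotProduct_add, dotProduct_smul, smul_eq_mul, hχ, add_dotProduct, smul_dotProduct, neg_smul,
    neg_dotProduct, dotProduct_neg, zero_add, mul_neg, neg_mul, hz, mul_zero] at h7
  have h11 : (χ ⬝ᵥ z) * (ξ ⬝ᵥ w) * ((ξ ⬝ᵥ w) * (χ ⬝ᵥ z)) = 0 := by
    linear_combination -h7
  have h12 : (χ ⬝ᵥ z) * (ξ ⬝ᵥ w) ≠ 0 := mul_ne_zero hχz hξw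
  exact h12 (by
    rcases mul_eq_zero.1 h11 with h13 | h13
    · exact h13
    · rw [mul_comm]; exact h13)

theorem Q_eq (c : Cfg ρ) {a b : Ω} (hab : b ≠ a) {v v' : Fin 3 → F} (hv : Pt (Xs (ρ a) b) v)
    (hv' : Pt (Xs (ρ b) a) v') : Qs (ρ a) v = Qs (ρ b) v' :=
  le_antisymm (c.Q_eq_le hab hv hv') (c.Q_eq_le hab.symm hv' hv)

end Cfg

end Cfsg.Agent.H438.SLThree
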