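import Mathlib
import Cfsg.Agent.H438.SLThreeL

/-!
# The configurations of type `Pt`, II (helper438, S3727)
-/

set_option autoImplicit false
set_option linter.unusedSectionVars false
set_option linter.unusedSimpArgs false

namespace Cfsg.Agent.H438.SLThree

open Matrix MulAction
open Cfsg.Agent.ClassicalGeometry.AutPSL.Auto

variable {F : Type*} [Field F] {G Ω : Type*} [Group G] [MulAction G Ω]

theorem mem_center_of_all {g : S F} (h : ∀ u : Fin 3 → F, ∃ c : F, g • u = c • u) : g ∈ Subgroup.center (S F) := by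
  obtain ⟨c, hc⟩ := scalar_of_all (fun u => g • u) (fun u w => smul_add _ _ _) (fun c u => smul_smul_comm' c u g) h
  rw [mem_center_iff']
  refine ⟨c, ?_, hc⟩
  have h1 := hc ![1, 0, 0]
  have h2 := hc ![0, 1, 0]
  have h3 := hc ![0, 0, 1]
  have a0 := congrFun h1 0
  have a1 := congrFun h1 1
  have a2 := congrFun h1 2
  have b0 := congrFun h2 0
  have b1 := congrFun h2 1
  have b2 := congrFun h2 2
  have d0 := congrFun h3 0
  have d1 := congrFun h3 1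
  have d2 := congrFun h3 2
  rw [smul_apply] at a0 a1 a2 b0 b1 b2 d0 d1 d2
  simp [smul_ap] at a0 a1 a2 b0 b1 b2 d0 d1 d2
  have hdet := g.2
  rw [det_fin_three] at hdet
  change g.1 0 0 * g.1 1 1 * g.1 2 2 - g.1 0 0 * g.1 1 2 * g.1 2 1 - g.1 0 1 * g.1 1 0 * g.1 2 2 +
    g.1 0 1 * g.1 1 2 * g.1 2 0 + g.1 0 2 * g.1 1 0 * g.1 2 1 - g.1 0 2 * g.1 1 1 * g.1 2 0 = 1 at hdet
  simp only [a0, a1, a2, b0, b1, b2, d0, d1, d2] at hdet
  linear_combination hdet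

/-- the quotient by the centre has trivial centre -/
theorem IsRep.center_one {ρ : S F →* G} (hρ : IsRep ρ) {g : S F} (h : ∀ h, ρ g * ρ h * (ρ g)⁻¹ = ρ h) : ρ g = 1 := by
  rw [hρ]
  apply mem_center_of_all
  intro u
  by_cases hu : u = 0
  · exact ⟨0, by rw [hu, smul_zero, smul_zero]⟩
  obtain ⟨φ, hφ, hφu, -⟩ := exists_common u u
  rw [dotProduct_comm] at hφu
  have h1 := h (tv u φ)
  rw [← map_mul, ← map_inv, ← map_mul, conj_tv hφu] at h1
  have h2 : row φ g⁻¹ ⬝ᵥ (g • u) = 0 := by rw [dot_inv, hφu]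
  obtain ⟨k, -, hk, -⟩ := tv_inj hφu h2 hu hφ (hρ.tv_eq hφu h2 h1.symm)
  exact ⟨k, hk⟩

variable {ρ : Ω → (S F →* G)}

namespace Cfg

theorem NK_one (c : Cfg ρ) {a : Ω} {x : G} (hx : x ∈ N ρ a) (hxK : x ∈ K ρ a) : x = 1 := by
  obtain ⟨g, rfl⟩ := hx
  apply (c.rep a).center_one
  intro h
  rw [mem_K.1 hxK h]
  group

variable [Finite F] [CharP F 2] [Finite (S F)] [Finite G] [Finite Ω]

/-- `C(N a) ∩ N b` is a normal subgroup of the stabiliser -/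
theorem W_pt (c : Cfg ρ) {a b : Ω} {x : G} (hx : x ∈ K ρ a) (hxb : x ∈ N ρ b) (hx1 : x ≠ 1) :
    ∃ W : Subgroup (S F), W ≤ Xs (ρ b) a ∧ Subgroup.center (S F) ≤ W ∧
      (∀ g ∈ Xs (ρ b) a, ∀ y ∈ W, g * y * g⁻¹ ∈ W) ∧ (∃ y ∈ W, y ∉ Subgroup.center (S F)) ∧
      ∀ g ∈ W, ρ b g ∈ K ρ a := by
  refine ⟨(K ρ a).comap (ρ b), ?_, ?_, ?_, ?_, fun g hg => hg⟩
  · intro g hg
    exact c.K_fix hg
  · intro g hg
    rw [Subgroup.mem_comap, ((c.rep b) g).2 hg]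
    exact (K ρ a).one_mem
  · intro g hg y hy
    rw [Subgroup.mem_comap, map_mul, map_mul, map_inv]
    exact c.K_conj_fix hg hy
  · obtain ⟨g, rfl⟩ := hxb
    exact ⟨g, hx, fun h => hx1 (((c.rep b) g).2 h)⟩

/-- (B2a) -/
theorem KN_one (c : Cfg ρ) (hP : TypePt ρ) {a b : Ω} (hab : b ≠ a) {x : G} (hx : x ∈ K ρ a) (hxb : x ∈ N ρ b) :
    x = 1 := by
  by_contra hx1
  obtain ⟨v, hv⟩ := hP a b hab
  obtain ⟨v', hv'⟩ := hP b a hab.symm
  obtain ⟨W, hW1, hW2, hW3, hW4, hW5⟩ := c.W_pt hx hxb hx1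
  have h1 := hv'.normal_ce hW1 hW2 hW3 hW4
  obtain ⟨ψ, hψ0, hψ, -⟩ := exists_common v' v'
  rw [dotProduct_comm] at hψ
  have h2 := hW5 _ (h1 ψ hψ)
  have h3 : ρ b (tv v' ψ) ∈ Qs (ρ a) v := by
    rw [c.Q_eq hab hv hv']
    exact ⟨ψ, hψ, rfl⟩
  obtain ⟨χ, hχ, he⟩ := h3
  have h4 : ρ b (tv v' ψ) ∈ N ρ a := ⟨_, he⟩
  exact (c.rep b).tv_ne hψ hv'.1 hψ0 (c.NK_one h4 h2)

/-- (B2b) `C(N a) ∩ G_b = 1` -/
theorem KG_one (c : Cfg ρ) (hP : TypePt ρ) {a b : Ω} (hab : b ≠ a) {x : G} (hx : x ∈ K ρ a) (hxb : x • b = b) :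
    x = 1 := by
  obtain ⟨v', hv'⟩ := hP b a hab.symm
  have hxa : x • a = a := c.K_fix hx
  have hcomm : ∀ g ∈ Xs (ρ b) a, x * ρ b g * x⁻¹ = ρ b g := by
    intro g hg
    have h1 : x * ρ b g * x⁻¹ * (ρ b g)⁻¹ ∈ N ρ b :=
      (N ρ b).mul_mem (c.N_conj_fix hxb (rho_mem b g)) ((N ρ b).inv_mem (rho_mem b g))
    have h2 : x * (ρ b g * x⁻¹ * (ρ b g)⁻¹) ∈ K ρ a :=
      (K ρ a).mul_mem hx (c.K_conj_fix hg ((K ρ a).inv_mem hx))
    have h3 : x * (ρ b g * x⁻¹ * (ρ b g)⁻¹) = x * ρ b g * x⁻¹ * (ρ b g)⁻¹ := by group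
    rw [h3] at h2
    have h4 := c.KN_one hP hab h2 h1
    rwa [mul_inv_eq_one] at h4
  obtain ⟨φ, hφ0, hφ, -⟩ := exists_common v' v'
  rw [dotProduct_comm] at hφ
  obtain ⟨k, hk⟩ := c.exists_root hxb hv'.1 hφ0 hφ (fun ψ hψ => hcomm _ (hv'.ce ψ hψ))
    (fun w hw => hcomm _ (hv'.ax hφ w hw))
  have hkd : (k • φ) ⬝ᵥ v' = 0 := by rw [smul_dotProduct, hφ, smul_zero]
  -- the element of `Z(U)` is centralised by the stabiliser
  have hk0 : k = 0 := by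
    by_contra hk0
    obtain ⟨w, ψ, hw, hψ, hψw⟩ := exists_second hv'.1 hφ0 hφ
    obtain ⟨u0, hu0⟩ := exists_dot hφ0
    set u := u0 - (ψ ⬝ᵥ u0) • w with hu
    have hψu : ψ ⬝ᵥ u = 0 := by
      rw [hu, dotProduct_sub, dotProduct_smul, hψw, smul_eq_mul, mul_one, sub_self]
    have hφu : φ ⬝ᵥ u = 1 := by
      rw [hu, dotProduct_sub, dotProduct_smul, hw, smul_zero, sub_zero, hu0]
    have hg : tv u ψ • v' = v' := tv_fix hψu hψ
    have hgX := hv'.2.2 _ hg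
    have h1 := hcomm _ hgX
    set z := ρ b (tv v' (k • φ)) with hz
    have h2 : z * ρ b (tv u ψ) * z⁻¹ = ρ b (tv u ψ) := by
      have h3 := mem_K.1 hk (tv u ψ)
      have h4 : ρ b (tv u ψ) = (z⁻¹ * x) * ρ b (tv u ψ) * (z⁻¹ * x)⁻¹ := by
        rw [h3]; group
      have h5 : (z⁻¹ * x) * ρ b (tv u ψ) * (z⁻¹ * x)⁻¹ = z⁻¹ * (x * ρ b (tv u ψ) * x⁻¹) * z := by group
      rw [h5, h1] at h4
      nth_rewrite 1 [h4]
      group
    rw [hz, ← map_mul, ← map_inv, ← map_mul, conj_tv hψu] at h2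
    have h6 : row ψ (tv v' (k • φ))⁻¹ ⬝ᵥ (tv v' (k • φ) • u) = 0 := by rw [dot_inv, hψu]
    have hu0' : u ≠ 0 := by
      intro h0
      rw [h0, dotProduct_zero] at hφu
      exact zero_ne_one hφu
    have hψ0 : ψ ≠ 0 := by
      rintro rfl
      rw [zero_dotProduct] at hψw
      exact zero_ne_one hψw
    obtain ⟨l, hl0, hl, -⟩ := tv_inj hψu h6 hu0' hψ0 ((c.rep b).tv_eq hψu h6 h2.symm)
    rw [tv_smul hkd, smul_dotProduct, hφu, smul_eq_mul, mul_one] at hl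
    have h7 : φ ⬝ᵥ (u + k • v') = φ ⬝ᵥ (l • u) := by rw [hl]
    rw [dotProduct_add, dotProduct_smul, hφ, smul_zero, add_zero, dotProduct_smul, hφu, smul_eq_mul, mul_one] at h7
    rw [← h7, one_smul] at hl
    have h8 : k • v' = 0 := by simpa using hl
    exact smul_ne_zero hk0 hv'.1 h8
  rw [hk0, zero_smul, tv_zero_right, map_one, inv_one, one_mul] at hk
  exact c.K_inf hab hx hk

/-- (B2c) `C(N a)` has odd order -/
theorem K_sq_one (c : Cfg ρ) (hKG : ∀ a b : Ω, b ≠ a → ∀ x ∈ K ρ a, x • b = b → x = 1) {a : Ω} {x : G}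
    (hx : x ∈ K ρ a) (hxx : x * x = 1) : x = 1 := by
  obtain ⟨b, hb, hxb⟩ := exists_second_fix c.even hxx (c.K_fix hx)
  exact hKG a b hb x hx hxb

/-- an involution fixing `b` and inducing a linear automorphism of `N b` lies in `N b` -/
theorem mem_N_of_linear (c : Cfg ρ) (hKG : ∀ a b : Ω, b ≠ a → ∀ x ∈ K ρ a, x • b = b → x = 1) {b : Ω} {x : G}
    (hxx : x * x = 1) {C : GL (Fin 3) F} {σ : F ≃+* F} (hT : Tr (ρ b) (ρ b) x C σ) (hσ : ∀ c, σ c = c) :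
    x ∈ N ρ b := by
  obtain ⟨t, htt, ht⟩ := exists_inner (c.rep b) hT hσ hxx
  have h1 : (ρ b t)⁻¹ * x ∈ K ρ b := by
    rw [mem_K]
    intro g
    have h2 := ht g
    have h3 : x * ρ b g = ρ b t * ρ b g * (ρ b t)⁻¹ * x := by rw [← h2]; group
    rw [mul_assoc, h3]
    group
  have htt' : ρ b t * ρ b t = 1 := by rw [← map_mul, htt, map_one]
  have h2 : x * ρ b t * x⁻¹ = ρ b t := by rw [ht t]; group
  have h3 : ((ρ b t)⁻¹ * x) * ((ρ b t)⁻¹ * x) = 1 := by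
    have h4 : x * (ρ b t)⁻¹ = (ρ b t)⁻¹ * x := by
      have : x * (ρ b t)⁻¹ * x⁻¹ = (ρ b t)⁻¹ := by
        have h5 := congrArg (fun y => y⁻¹) h2
        simp only [_root_.mul_inv_rev, inv_inv] at h5
        rw [mul_assoc]
        exact h5
      nth_rewrite 2 [← this]
      group
    calc ((ρ b t)⁻¹ * x) * ((ρ b t)⁻¹ * x) = (ρ b t)⁻¹ * (x * (ρ b t)⁻¹) * x := by group
      _ = (ρ b t * ρ b t)⁻¹ * (x * x) := by rw [h4]; group
      _ = 1 := by rw [htt', hxx, inv_one, one_mul]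
  have h4 := c.K_sq_one hKG h1 h3
  rw [inv_mul_eq_one] at h4
  rw [← h4]
  exact rho_mem b t

end Cfg

/-- a basis adapted to two vectors and a row -/
theorem exists_adapted {v w φ : Fin 3 → F} (hv : v ≠ 0) (hφ : φ ≠ 0) (hd : φ ⬝ᵥ v = 0) (hw : φ ⬝ᵥ w = 0)
    (hnp : ¬ ∃ k : F, w = k • v) : ∃ (k : S F) (β : F), β ≠ 0 ∧ k • (e1 : Fin 3 → F) = v ∧ row e3 k⁻¹ = φ ∧
      k • (![0, 1, 0] : Fin 3 → F) = β • w := by
  obtain ⟨k0, h1, h2⟩ := exists_flag hv hφ hd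
  set w0 := k0⁻¹ • w with hw0
  have h3 : w0 2 = 0 := by
    rw [← e3_dot w0, hw0, ← row_dot, h2, hw]
  have h4 : w0 1 ≠ 0 := by
    intro h0
    apply hnp
    refine ⟨w0 0, ?_⟩
    have : w0 = w0 0 • e1 := ext3 (by simp [smul_ap]) (by rw [h0]; simp [smul_ap]) (by rw [h3]; simp [smul_ap])
    rw [← h1, ← smul_smul_comm', ← this, hw0, smul_inv_smul]
  have hr2 : ((w0 0 / w0 1) • r2 : Fin 3 → F) ⬝ᵥ e1 = 0 := by rw [dot_e1]; simp [r2, smul_ap]
  refine ⟨k0 * tv e1 ((w0 0 / w0 1) • r2), (w0 1)⁻¹, inv_ne_zero h4, ?_, ?_, ?_⟩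
  · rw [mul_smul, tv_fix hr2 hr2, h1]
  · rw [_root_.mul_inv_rev, row_mul, tv_inv hr2, row_tv (by rw [neg_dotProduct, hr2, neg_zero])]
    have : (e3 : Fin 3 → F) ⬝ᵥ e1 = 0 := by rw [dot_e1]; rfl
    rw [this, zero_smul, add_zero, h2]
  · rw [mul_smul, tv_smul hr2]
    have h5 : (![0, 1, 0] : Fin 3 → F) + (((w0 0 / w0 1) • r2 : Fin 3 → F) ⬝ᵥ ![0, 1, 0]) • e1 = (w0 1)⁻¹ • w0 := by
      rw [dot_apply]
      apply ext3
      · simp [r2, smul_ap]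
        field_simp
      · simp [r2, smul_ap, h4]
      · simp [r2, smul_ap, h3]
    rw [h5, smul_smul_comm', hw0, smul_inv_smul]

namespace Cfg

variable [Finite F] [CharP F 2] [Finite (S F)] [Finite G] [Finite Ω]

/-- (B3) the stabiliser of `v_b` in `N a` lies in `N b` -/
theorem P_le (c : Cfg ρ) (hP : TypePt ρ) {a b : Ω} (hab : b ≠ a) {v : Fin 3 → F} (hv : Pt (Xs (ρ a) b) v) {g : S F}
    (hg : g • v = v) : ρ a g ∈ N ρ b := by
  rw [← mem_Y]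
  refine stab_of_ax' hv.1 ?_ hg
  intro φ hφ w hw
  by_cases hφ0 : φ = 0
  · rw [hφ0, tv_zero_right]
    exact Subgroup.one_mem _
  by_cases hpar : ∃ k : F, w = k • v
  · obtain ⟨k, rfl⟩ := hpar
    rw [tv_smul_left hφ]
    exact c.Q_le hab hv _ (by rw [smul_dotProduct, hφ, smul_zero])
  rw [mem_Y]
  obtain ⟨v', hv'⟩ := hP b a hab.symm
  have hfix : ∀ x : S F, x • v = v → ρ a x • b = b := fun x hx => hv.2.2 x hx
  have hwφ : tv w φ • v = v := tv_fix hw hφ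
  obtain ⟨C, σ, hT, -⟩ := c.Q_inv hv' (hfix _ hwφ) (c.fix a (tv w φ))
  refine c.mem_N_of_linear (fun a b hab x hx hxb => c.KG_one hP hab hx hxb) (by rw [← map_mul, tv_sq hw, map_one]) hT ?_
  by_cases hq : ∀ l : F, l = 0 ∨ l = 1
  · intro l
    rcases hq l with rfl | rfl
    · exact map_zero σ
    · exact map_one σ
  · push Not at hq
    obtain ⟨l, hl0, hl1⟩ := hq
    obtain ⟨k, β, hβ, hk1, hk2, hk3⟩ := exists_adapted hv.1 hφ0 hφ hw hpar
    set δ := k * dg 1 l l⁻¹ (by rw [one_mul, mul_inv_cancel₀ hl0]) * k⁻¹ with hδ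
    have hδv : δ • v = v := by
      rw [hδ, mul_smul, mul_smul]
      nth_rewrite 1 [← hk1]
      rw [inv_smul_smul, dg_apply]
      have : (![1 * (e1 : Fin 3 → F) 0, l * (e1 : Fin 3 → F) 1, l⁻¹ * (e1 : Fin 3 → F) 2] : Fin 3 → F) = e1 := by
        apply ext3 <;> simp
      rw [this, hk1]
    have hδw : δ • w = l • w := by
      have h1 : w = β⁻¹ • k • (![0, 1, 0] : Fin 3 → F) := by rw [hk3, smul_smul, inv_mul_cancel₀ hβ, one_smul]
      have h2 : δ • (k • (![0, 1, 0] : Fin 3 → F)) = l • (k • ![0, 1, 0]) := by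
        rw [hδ, mul_smul, mul_smul, inv_smul_smul, dg_apply, ← smul_smul_comm']
        congr 1
        apply ext3 <;> simp [smul_ap]
      rw [h1, smul_smul_comm', h2, smul_comm]
    have hδφ : row φ δ⁻¹ = l • φ := by
      rw [← hk2]
      have h1 : δ⁻¹ = k * dg 1 l⁻¹ l (by rw [one_mul, inv_mul_cancel₀ hl0]) * k⁻¹ := by
        rw [hδ, _root_.mul_inv_rev, _root_.mul_inv_rev, inv_inv]
        have h2 : (dg 1 l l⁻¹ (by rw [one_mul, mul_inv_cancel₀ hl0]) : S F)⁻¹ =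
            dg 1 l⁻¹ l (by rw [one_mul, inv_mul_cancel₀ hl0]) := by
          rw [inv_eq_iff_mul_eq_one]
          apply ext_smul
          intro u
          rw [mul_smul, dg_apply, dg_apply, one_smul]
          apply ext3 <;> simp [hl0]
        rw [h2]
        group
      rw [h1, row_mul, row_mul, row_inv_row, row_dg, ← row_smul]
      congr 1
      apply ext3 <;> simp [smul_ap]
    -- the commutator
    have hll : l * l - 1 ≠ 0 := by
      intro h0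
      apply hl1
      have h2F : (2 : F) = 0 := CharTwo.two_eq_zero
      have h3 : (l - 1) * (l - 1) = 0 := by linear_combination h0 - (l - 1) * h2F
      exact sub_eq_zero.1 (mul_self_eq_zero.1 h3)
    set s := (l * l - 1)⁻¹ with hs
    have hws : (s • φ) ⬝ᵥ w = 0 := by rw [smul_dotProduct, hw, smul_zero]
    have hwn : (-(s • φ)) ⬝ᵥ w = 0 := by rw [neg_dotProduct, hws, neg_zero]
    have hcom : δ * tv w (s • φ) * δ⁻¹ * (tv w (s • φ))⁻¹ = tv w φ := by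
      have h1 : (l • φ) ⬝ᵥ w = 0 := by rw [smul_dotProduct, hw, smul_zero]
      have h2 : (s • l • φ) ⬝ᵥ w = 0 := by rw [smul_dotProduct, h1, smul_zero]
      have h3 : (l • s • l • φ) ⬝ᵥ w = 0 := by rw [smul_dotProduct, h2, smul_zero]
      rw [conj_tv hws, hδw, row_smul, hδφ, tv_inv hws, tv_smul_left h2, tv_mul h3 hwn]
      congr 1
      funext i
      simp only [Pi.add_apply, Pi.neg_apply, smul_ap]
      have h4 : s * (l * l - 1) = 1 := inv_mul_cancel₀ hll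
      linear_combination (φ i) * h4
    have hwsφ : tv w (s • φ) • v = v := tv_fix hws (by rw [smul_dotProduct, hφ, smul_zero])
    obtain ⟨C1, σ1, hT1, -⟩ := c.Q_inv hv' (hfix _ hδv) (c.fix a δ)
    obtain ⟨C2, σ2, hT2, -⟩ := c.Q_inv hv' (hfix _ hwsφ) (c.fix a (tv w (s • φ)))
    have h5 := hT1.comm_field (c.rep b) hT2 (hT.of_eq (by rw [← hcom, map_mul, map_mul, map_mul, map_inv, map_inv]))
    rw [h5]
    intro c
    rfl

end Cfg

end Cfsg.Agent.H438.SLThree
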