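import Mathlib
import Cfsg.Agent.H438.SLThreeM

/-!
# The configurations of type `Pt`, III: counting (helper438, S3727)
-/

set_option autoImplicit false
set_option linter.unusedSectionVars false
set_option linter.unusedSimpArgs false

namespace Cfsg.Agent.H438.SLThree

open Matrix MulAction
open Cfsg.Agent.ClassicalGeometry.AutPSL.Auto

variable {F : Type*} [Field F] {G Ω : Type*} [Group G] [MulAction G Ω]

theorem Pt.ne_top {X : Subgroup (S F)} {v : Fin 3 → F} (hp : Pt X v) : X ≠ ⊤ := by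
  rintro rfl
  have key : ∀ w : Fin 3 → F, w ≠ 0 → ∃ c : F, w = c • v := by
    intro w hw
    obtain ⟨g, hg⟩ := exists_smul hp.1
    obtain ⟨k, hk⟩ := exists_smul hw
    obtain ⟨μ, hμ⟩ := hp.2.1 (k * g⁻¹) (Subgroup.mem_top _)
    refine ⟨μ, ?_⟩
    rw [← hμ, mul_smul, ← hg, inv_smul_smul, hk]
  obtain ⟨c1, h1⟩ := key e1 e1_ne
  obtain ⟨c3, h3⟩ := key e3 e3_ne
  have a1 := congrFun h1 0
  have a2 := congrFun h1 2
  have a4 := congrFun h3 2
  simp only [smul_ap, e1_zero, e1_two] at a1 a2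
  have h5 : v 2 = 0 := by
    rcases mul_eq_zero.1 a2.symm with h6 | h6
    · rw [h6, zero_mul] at a1
      exact (one_ne_zero a1).elim
    · exact h6
  rw [smul_ap, h5, mul_zero] at a4
  exact one_ne_zero (α := F) a4

/-- two vectors belonging to the same group -/
theorem Pt.par {X : Subgroup (S F)} {v w : Fin 3 → F} (h : Pt X v) (h' : Pt X w) : ∃ k : F, k ≠ 0 ∧ w = k • v := by
  obtain ⟨k, hk⟩ := cen_unique h.1 h.ce h'.2.1
  refine ⟨k, ?_, hk⟩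
  rintro rfl
  rw [zero_smul] at hk
  exact h'.1 hk

variable {ρ : Ω → (S F →* G)}

namespace Cfg

theorem not_pt (c : Cfg ρ) (a : Ω) (v : Fin 3 → F) : ¬ Pt (Xs (ρ a) a) v := by
  intro h
  apply h.ne_top
  rw [eq_top_iff]
  intro g _
  exact c.fix a g

variable [Finite F] [Finite (S F)] [Finite G] [Finite Ω]

/-- the number of points: `(q³ - 1) A = (|Ω| - 1) (q - 1)` -/
theorem count_all (c : Cfg ρ) (hP : TypePt ρ) (a : Ω) :
    (Nat.card F ^ 3 - 1) * Nat.card {b : Ω // Pt (Xs (ρ a) b) e1} = Nat.card {b : Ω // b ≠ a} * (Nat.card F - 1) := by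
  have hc := dcount (fun (x : Fin 3 → F) (b : Ω) => Pt (Xs (ρ a) b) x) (fun x => x ≠ 0)
    (c := Nat.card {b : Ω // Pt (Xs (ρ a) b) e1}) (m := Nat.card F - 1) (fun x hx => pt_count x hx)
    (fun b hb => pt_fiber _ (fun c x hc hx => smul_ne_zero hc hx) b hb)
  rw [card_ne] at hc
  rw [hc]
  congr 1
  apply Nat.card_congr
  refine Equiv.subtypeEquivRight ?_
  intro b
  constructor
  · rintro ⟨x, -, hx⟩ rfl
    exact c.not_pt b x hx
  · intro hb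
    obtain ⟨v, hv⟩ := hP a b hb
    exact ⟨v, hv.1, hv⟩

omit [Finite F] [Finite (S F)] [Finite G] in
theorem card_ne' (a : Ω) : Nat.card Ω = 1 + Nat.card {b : Ω // b ≠ a} := by
  rw [← card_or a (fun b => b ≠ a) (fun h => h rfl)]
  symm
  apply Nat.card_congr
  exact Equiv.subtypeUnivEquiv (fun b => eq_or_ne b a)

/-- `|Ω| = 1 + (q² + q + 1) A` -/
theorem card_eq (c : Cfg ρ) (hP : TypePt ρ) (a : Ω) :
    Nat.card Ω = 1 + (Nat.card F ^ 2 + Nat.card F + 1) * Nat.card {b : Ω // Pt (Xs (ρ a) b) e1} := by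
  have hq := q_sub F
  have h1 := c.count_all hP a
  have h2 : Nat.card F ^ 3 - 1 = (Nat.card F - 1) * (Nat.card F ^ 2 + Nat.card F + 1) := by
    obtain ⟨r, hr⟩ : ∃ r, Nat.card F = r + 1 := ⟨Nat.card F - 1, by omega⟩
    rw [hr, Nat.add_sub_cancel]
    have : (r + 1) ^ 3 = r * ((r + 1) ^ 2 + (r + 1) + 1) + 1 := by ring
    rw [this, Nat.add_sub_cancel]
  rw [h2, mul_assoc, mul_comm (Nat.card {b : Ω // b ≠ a})] at h1
  have h3 := Nat.eq_of_mul_eq_mul_left hq h1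
  rw [card_ne' a, ← h3]

theorem A_eq (c : Cfg ρ) (hP : TypePt ρ) (a a' : Ω) :
    Nat.card {b : Ω // Pt (Xs (ρ a) b) e1} = Nat.card {b : Ω // Pt (Xs (ρ a') b) e1} := by
  have h1 := c.card_eq hP a
  rw [c.card_eq hP a'] at h1
  have h2 := Nat.add_left_cancel h1
  exact (Nat.eq_of_mul_eq_mul_left (by positivity) h2).symm

theorem A_odd (c : Cfg ρ) (hP : TypePt ρ) (a : Ω) : Odd (Nat.card {b : Ω // Pt (Xs (ρ a) b) e1}) := by
  have h1 := c.card_eq hP a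
  have h2 := c.even
  rw [h1] at h2
  by_contra h3
  rw [Nat.not_odd_iff_even] at h3
  have h4 : Even ((Nat.card F ^ 2 + Nat.card F + 1) * Nat.card {b : Ω // Pt (Xs (ρ a) b) e1}) := h3.mul_left _
  rw [Nat.even_iff] at h2 h4
  omega

theorem A_pos (c : Cfg ρ) (hP : TypePt ρ) (a : Ω) {x : Fin 3 → F} (hx : x ≠ 0) : ∃ b : Ω, Pt (Xs (ρ a) b) x := by
  have h1 := c.A_odd hP a
  rw [← pt_count x hx] at h1
  have h2 := h1.pos
  have : Nonempty {b : Ω // Pt (Xs (ρ a) b) x} := (Nat.card_pos_iff.1 h2).1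
  obtain ⟨⟨b, hb⟩⟩ := this
  exact ⟨b, hb⟩

omit [Finite F] [Finite (S F)] [Finite G] [Finite Ω] in
theorem ne_of_pt (c : Cfg ρ) {a b : Ω} {v : Fin 3 → F} (h : Pt (Xs (ρ a) b) v) : b ≠ a := by
  rintro rfl
  exact c.not_pt b v h

end Cfg

/-- three collinear points -/
def Col (ρ : Ω → (S F →* G)) (a b d : Ω) : Prop := ∃ v, Pt (Xs (ρ a) b) v ∧ Pt (Xs (ρ a) d) v

theorem Col.swap {a b d : Ω} (h : Col ρ a b d) : Col ρ a d b := by
  obtain ⟨v, h1, h2⟩ := h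
  exact ⟨v, h2, h1⟩

theorem Col.trans {a b d e : Ω} (h : Col ρ a b d) (h' : Col ρ a b e) : Col ρ a d e := by
  obtain ⟨v, h1, h2⟩ := h
  obtain ⟨w, h3, h4⟩ := h'
  obtain ⟨k, hk, rfl⟩ := h3.par h1
  exact ⟨_, h2, h4.smul hk⟩

theorem Qs_fix {ρ : S F →* G} {b : Ω} {v : Fin 3 → F} : (∀ x ∈ Qs ρ v, x • b = b) ↔ Ce (Xs ρ b) v := by
  constructor
  · intro h ψ hψ
    exact h _ ⟨ψ, hψ, rfl⟩
  · rintro h _ ⟨ψ, hψ, rfl⟩
    exact h ψ hψ

namespace Cfg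

variable [Finite F] [CharP F 2] [Finite (S F)] [Finite G] [Finite Ω]

/-- `Col` is symmetric -/
theorem col_rot (c : Cfg ρ) (hP : TypePt ρ) {a b d : Ω} (hbd : b ≠ d) (h : Col ρ a b d) : Col ρ b a d := by
  obtain ⟨v, h1, h2⟩ := h
  have hab := c.ne_of_pt h1
  have had := c.ne_of_pt h2
  obtain ⟨v', h3⟩ := hP b a hab.symm
  obtain ⟨u, h4⟩ := hP b d hbd.symm
  have h5 : ∀ x ∈ Qs (ρ b) v', x • d = d := by
    rw [← c.Q_eq hab h1 h3]
    exact Qs_fix.2 h2.ce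
  have h6 := Qs_fix.1 h5
  obtain ⟨k, hk⟩ := cen_unique h3.1 h6 h4.2.1
  have hk0 : k ≠ 0 := by
    rintro rfl
    rw [zero_smul] at hk
    exact h4.1 hk
  refine ⟨u, ?_, h4⟩
  rw [hk]
  exact h3.smul hk0

/-- points fixed by a transvection of `N a` -/
theorem fix_tv_iff (c : Cfg ρ) (hP : TypePt ρ) {a : Ω} {w φ : Fin 3 → F} (hd : φ ⬝ᵥ w = 0) (hw : w ≠ 0) (d : Ω) :
    ρ a (tv w φ) • d = d ↔ d = a ∨ ∃ v, Pt (Xs (ρ a) d) v ∧ φ ⬝ᵥ v = 0 := by
  constructor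
  · intro h
    by_cases hda : d = a
    · exact Or.inl hda
    right
    obtain ⟨v, hv⟩ := hP a d hda
    obtain ⟨μ, hμ⟩ := hv.2.1 _ (mem_Xs.2 h)
    exact ⟨v, hv, dot_of_fix hd hw hμ⟩
  · rintro (rfl | ⟨v, hv, hφ⟩)
    · exact c.fix d _
    · exact hv.2.2 _ (tv_fix hd hφ)

end Cfg

end Cfsg.Agent.H438.SLThree
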