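import Mathlib
import Cfsg.Agent.H438.SLThreeP

/-!
# The configurations of type `Pt`, IV: the eigenvalue group (helper438, S3727)
-/

set_option autoImplicit false
set_option linter.unusedSectionVars false
set_option linter.unusedSimpArgs false

namespace Cfsg.Agent.H438.SLThree

open Matrix MulAction
open Cfsg.Agent.ClassicalGeometry.AutPSL.Auto

theorem cyclic_eq {A : Type*} [CommGroup A] [Finite A] [IsCyclic A] {M M' : Subgroup A}
    (h : Nat.card M = Nat.card M') : M = M' := by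
  classical
  have : Fintype A := Fintype.ofFinite A
  have key : ∀ M : Subgroup A, ∀ x : A, x ∈ M ↔ x ^ Nat.card M = 1 := by
    intro M
    have h1 := IsCyclic.card_pow_eq_one_le (α := A) (n := Nat.card M) Nat.card_pos
    have h2 : (Finset.univ.filter (fun x : A => x ∈ M)) ⊆ Finset.univ.filter (fun x : A => x ^ Nat.card M = 1) := by
      intro x hx
      rw [Finset.mem_filter] at hx ⊢
      refine ⟨hx.1, ?_⟩
      have := congrArg Subtype.val (pow_card_eq_one' (x := (⟨x, hx.2⟩ : M)))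
      exact this
    have h3 : (Finset.univ.filter (fun x : A => x ∈ M)).card = Nat.card M := by
      rw [Nat.card_eq_fintype_card, Fintype.card_subtype]
    have h4 := Finset.eq_of_subset_of_card_le h2 (by rw [h3]; exact h1)
    intro x
    have h5 : x ∈ Finset.univ.filter (fun x : A => x ∈ M) ↔ x ∈ Finset.univ.filter (fun x : A => x ^ Nat.card M = 1) := by
      rw [h4]
    simpa using h5
  ext x
  rw [key M, key M', h]

variable {F : Type*} [Field F] {G Ω : Type*} [Group G] [MulAction G Ω]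

/-- the group of the eigenvalues -/
def Mg [Finite F] [Finite Ω] (ρ : S F →* G) (b : Ω) (v : Fin 3 → F) (hv : v ≠ 0) : Subgroup Fˣ where
  carrier := {u | EV ρ b v (u : F)}
  one_mem' := EV.one
  mul_mem' := fun h1 h2 => EV.mul h1 h2
  inv_mem' := by
    intro u hu
    change EV ρ b v ((u⁻¹ : Fˣ) : F)
    rw [Units.val_inv_eq_inv_val]
    exact EV.inv hv hu

theorem card_Xs [Finite F] [Finite Ω] [Finite (S F)] {ρ : S F →* G} {b : Ω} {v : Fin 3 → F} (h : Pt (Xs ρ b) v) :
    Nat.card (Xs ρ b) = Nat.card (stabilizer (S F) v) * Nat.card (Mg ρ b v h.1) := by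
  classical
  have h1 : ∀ g : Xs ρ b, ∃ μ : F, g.1 • v = μ • v := fun g => h.2.1 g.1 g.2
  choose f hf using h1
  have hf0 : ∀ g, f g ≠ 0 := by
    intro g h0
    have := hf g
    rw [h0, zero_smul] at this
    exact smul_ne' h.1 _ this
  let χ : Xs ρ b →* Fˣ := MonoidHom.mk' (fun g => Units.mk0 (f g) (hf0 g)) (by
    intro g k
    apply Units.ext
    change f (g * k) = f g * f k
    have h2 := hf (g * k)
    have h3 : (g * k).1 • v = (f g * f k) • v := by
      change (g.1 * k.1) • v = _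
      rw [mul_smul, hf k, smul_smul_comm', hf g, smul_smul, mul_comm]
    rw [h3] at h2
    exact (smul_left_injective F h.1 h2).symm)
  have hχ : ∀ g, ((χ g : Fˣ) : F) = f g := fun g => rfl
  have hr : χ.range = Mg ρ b v h.1 := by
    ext u
    constructor
    · rintro ⟨g, rfl⟩
      exact ⟨g.1, g.2, hf g⟩
    · rintro ⟨g, hg, hgv⟩
      refine ⟨⟨g, hg⟩, ?_⟩
      apply Units.ext
      rw [hχ]
      have := hf ⟨g, hg⟩
      rw [hgv] at this
      exact (smul_left_injective F h.1 this).symm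
  have hk : Nat.card χ.ker = Nat.card (stabilizer (S F) v) := by
    apply Nat.card_congr
    refine
      { toFun := fun g => ⟨g.1.1, ?_⟩
        invFun := fun g => ⟨⟨g.1, h.2.2 g.1 g.2⟩, ?_⟩
        left_inv := fun g => rfl
        right_inv := fun g => rfl }
    · have h2 : χ g.1 = 1 := g.2
      have h3 : f g.1 = 1 := by rw [← hχ, h2]; rfl
      have h4 := hf g.1
      rw [h3, one_smul] at h4
      exact h4
    · rw [MonoidHom.mem_ker]
      apply Units.ext
      rw [hχ]
      have h2 := hf ⟨g.1, h.2.2 g.1 g.2⟩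
      have h3 : g.1 • v = v := g.2
      change g.1 • v = _ at h2
      rw [h3] at h2
      have h4 : (1 : F) • v = f ⟨g.1, h.2.2 g.1 g.2⟩ • v := by rw [one_smul]; exact h2
      exact (smul_left_injective F h.1 h4).symm
  rw [← hr, ← hk, ← Subgroup.index_ker, Subgroup.card_mul_index]

theorem card_stab_eq [Finite (S F)] {v v' : Fin 3 → F} (hv : v ≠ 0) (hv' : v' ≠ 0) :
    Nat.card (stabilizer (S F) v) = Nat.card (stabilizer (S F) v') := by
  obtain ⟨g, hg⟩ := exists_smul hv
  obtain ⟨k, hk⟩ := exists_smul hv'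
  have h1 : v' = (k * g⁻¹) • v := by
    rw [mul_smul, ← hg, inv_smul_smul, hk]
  rw [h1, stabilizer_smul_eq_stabilizer_map_conj]
  exact Nat.card_congr ((stabilizer (S F) v).equivMapOfInjective _ (MulAut.conj (k * g⁻¹)).injective).toEquiv

variable {ρ : Ω → (S F →* G)}

namespace Cfg

variable [Finite F] [CharP F 2] [Finite (S F)] [Finite G] [Finite Ω]

/-- the eigenvalue groups of all pairs coincide -/
theorem ev_iff (c : Cfg ρ) {a b a' b' : Ω} {v v' : Fin 3 → F} (h : Pt (Xs (ρ a) b) v) (h' : Pt (Xs (ρ a') b') v')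
    (μ : F) : EV (ρ a) b v μ ↔ EV (ρ a') b' v' μ := by
  have hi := c.index_eq (c.ne_of_pt h) (c.ne_of_pt h')
  have h1 := Subgroup.card_mul_index (Xs (ρ a) b)
  have h2 := Subgroup.card_mul_index (Xs (ρ a') b')
  rw [← h2, hi] at h1
  have h3 : Nat.card (Xs (ρ a) b) = Nat.card (Xs (ρ a') b') := by
    refine Nat.eq_of_mul_eq_mul_right ?_ h1
    exact Nat.pos_of_ne_zero Subgroup.index_ne_zero_of_finite
  rw [card_Xs h, card_Xs h', card_stab_eq h.1 h'.1] at h3
  have h4 : Nat.card (Mg (ρ a) b v h.1) = Nat.card (Mg (ρ a') b' v' h'.1) :=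
    Nat.eq_of_mul_eq_mul_left Nat.card_pos h3
  have h5 := cyclic_eq h4
  by_cases hμ : μ = 0
  · constructor
    · rintro ⟨g, -, hg⟩
      rw [hμ, zero_smul] at hg
      exact (smul_ne' h.1 g hg).elim
    · rintro ⟨g, -, hg⟩
      rw [hμ, zero_smul] at hg
      exact (smul_ne' h'.1 g hg).elim
  · have h6 : Units.mk0 μ hμ ∈ Mg (ρ a) b v h.1 ↔ Units.mk0 μ hμ ∈ Mg (ρ a') b' v' h'.1 := by rw [h5]
    exact h6

/-- If the eigenvalue group is not trivial then there is only one point over each vector. -/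
theorem A_one (c : Cfg ρ) (hP : TypePt ρ) {a0 b0 : Ω} {v0 : Fin 3 → F} (h0 : Pt (Xs (ρ a0) b0) v0) {μ : F}
    (hμ : EV (ρ a0) b0 v0 μ) (hμ1 : μ ≠ 1) (a : Ω) : Nat.card {b : Ω // Pt (Xs (ρ a) b) e1} = 1 := by
  classical
  have : Fintype Ω := Fintype.ofFinite Ω
  have hμ0 : μ ≠ 0 := by
    rintro rfl
    obtain ⟨g, -, hg⟩ := hμ
    rw [zero_smul] at hg
    exact smul_ne' h0.1 g hg
  have hμμ : μ * μ ≠ 1 := by
    intro h1
    apply hμ1
    have h2F : (2 : F) = 0 := CharTwo.two_eq_zero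
    have h3 : (μ - 1) * (μ - 1) = 0 := by linear_combination h1 - (μ - 1) * h2F
    exact sub_eq_zero.1 (mul_self_eq_zero.1 h3)
  have hdet : 1 * μ * μ⁻¹ = 1 := by rw [one_mul, mul_inv_cancel₀ hμ0]
  set η := dg 1 μ μ⁻¹ hdet with hη
  have hev : ∀ {b : Ω} {v : Fin 3 → F}, Pt (Xs (ρ a) b) v → EV (ρ a) b v μ := fun h => (c.ev_iff h0 h μ).1 hμ
  -- the three lines
  have e2_ne : (![0, 1, 0] : Fin 3 → F) ≠ 0 := fun h => by simpa using congrFun h 1
  have e3'_ne : (![0, 0, 1] : Fin 3 → F) ≠ 0 := fun h => by simpa using congrFun h 2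
  have hη1 : η • (e1 : Fin 3 → F) = e1 := by
    rw [hη, dg_apply]; apply ext3 <;> simp
  have hη2 : η • (![0, 1, 0] : Fin 3 → F) = μ • ![0, 1, 0] := by
    rw [hη, dg_apply]; apply ext3 <;> simp [smul_ap]
  have hη3 : η • (![0, 0, 1] : Fin 3 → F) = μ⁻¹ • ![0, 0, 1] := by
    rw [hη, dg_apply]; apply ext3 <;> simp [smul_ap]
  have hcase : ∀ d : Ω, ρ a η • d = d → d = a ∨ Pt (Xs (ρ a) d) e1 ∨ Pt (Xs (ρ a) d) ![0, 1, 0] ∨
      Pt (Xs (ρ a) d) ![0, 0, 1] := by
    intro d hd
    by_cases hda : d = a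
    · exact Or.inl hda
    right
    obtain ⟨v, hv⟩ := hP a d hda
    obtain ⟨l, hl⟩ := hv.2.1 _ (mem_Xs.2 hd)
    rw [hη, dg_apply] at hl
    have c0 : 1 * v 0 = l * v 0 := congrFun hl 0
    have c1 : μ * v 1 = l * v 1 := congrFun hl 1
    have c2 : μ⁻¹ * v 2 = l * v 2 := congrFun hl 2
    have key : ∀ (i : Fin 3) (e : Fin 3 → F), (v i ≠ 0) → (∀ j, v j = v i * e j) → Pt (Xs (ρ a) d) e := by
      intro i e hi hj
      have : e = (v i)⁻¹ • v := by
        funext j
        rw [smul_ap, hj j, inv_mul_cancel_left₀ hi]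
      rw [this]
      exact hv.smul (inv_ne_zero hi)
    by_cases hv0 : v 0 = 0
    · by_cases hv1 : v 1 = 0
      · right; right
        have hv2 : v 2 ≠ 0 := fun h => hv.1 (ext3 hv0 hv1 h)
        refine key 2 _ hv2 ?_
        intro j
        fin_cases j
        · simp [hv0]
        · simp [hv1]
        · simp
      · right; left
        have hlμ : μ = l := mul_right_cancel₀ hv1 c1
        have hv2 : v 2 = 0 := by
          by_contra hv2
          have := mul_right_cancel₀ hv2 c2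
          rw [← hlμ] at this
          apply hμμ
          nth_rewrite 1 [← this]
          exact inv_mul_cancel₀ hμ0
        refine key 1 _ hv1 ?_
        intro j
        fin_cases j
        · simp [hv0]
        · simp
        · simp [hv2]
    · left
      have hl1 : 1 = l := mul_right_cancel₀ hv0 c0
      have hv1 : v 1 = 0 := by
        by_contra hv1
        exact hμ1 ((mul_right_cancel₀ hv1 c1).trans hl1.symm)
      have hv2 : v 2 = 0 := by
        by_contra hv2
        have := (mul_right_cancel₀ hv2 c2).trans hl1.symm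
        exact hμ1 (by simpa using this)
      refine key 0 _ hv0 ?_
      intro j
      fin_cases j
      · simp
      · simp [hv1]
      · simp [hv2]
  obtain ⟨c0, hc0⟩ := c.A_pos hP a e1_ne
  obtain ⟨b, hb⟩ := c.A_pos hP a e2_ne
  have hbc : b ≠ c0 := by
    rintro rfl
    obtain ⟨k, -, hk⟩ := hc0.par hb
    have := congrFun hk 1
    simp [smul_ap] at this
  have hηN := c.P_le hP (c.ne_of_pt hc0) hc0 hη1
  obtain ⟨η', hη'⟩ := hηN
  obtain ⟨u, hu⟩ := hP c0 b hbc
  have hbfix : η' ∈ Xs (ρ c0) b := by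
    rw [mem_Xs, hη']
    exact hb.mem (hev hb) hη2
  obtain ⟨l, hl⟩ := hu.2.1 _ hbfix
  have hlev : EV (ρ c0) b u l := ⟨η', hbfix, hl⟩
  have hdfix : ∀ d : Ω, Pt (Xs (ρ c0) d) u → ρ a η • d = d := by
    intro d hd
    rw [← hη']
    exact hd.mem ((c.ev_iff hu hd l).1 hlev) hl
  have hac0 : a ≠ c0 := (c.ne_of_pt hc0).symm
  have hab : a ≠ b := (c.ne_of_pt hb).symm
  have hnab : ¬ Col ρ c0 a b := by
    intro h1
    obtain ⟨v, h3, h4⟩ := c.col_rot hP hab h1
    obtain ⟨k, -, hk⟩ := hc0.par h3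
    obtain ⟨k', -, hk'⟩ := hb.par h4
    rw [hk] at hk'
    have := congrFun hk' 1
    have h5 := congrFun hk' 0
    have hv1 := h3.1
    rw [hk] at hv1
    simp [smul_ap] at this h5
    exact hv1 (by rw [h5, zero_smul])
  have hnot : ∀ d : Ω, Pt (Xs (ρ c0) d) u → d ≠ a ∧ ¬ Pt (Xs (ρ a) d) e1 := by
    intro d hd
    constructor
    · rintro rfl
      exact hnab ⟨u, hd, hu⟩
    · intro h1
      have h2 : Col ρ c0 a d := c.col_rot hP (c.ne_of_pt hd).symm ⟨e1, hc0, h1⟩
      exact hnab (h2.swap.trans ⟨u, hd, hu⟩)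
  have hinj : ∀ (e : Fin 3 → F), (¬ ∃ k : F, e = k • e1) → ∀ d d' : Ω, Pt (Xs (ρ c0) d) u → Pt (Xs (ρ c0) d') u →
      Pt (Xs (ρ a) d) e → Pt (Xs (ρ a) d') e → d = d' := by
    intro e he d d' h1 h2 h3 h4
    by_contra hne
    have h5 : Col ρ d a d' := c.col_rot hP hne ⟨e, h3, h4⟩
    have h6 : Col ρ d c0 d' := c.col_rot hP hne ⟨u, h1, h2⟩
    have h7 : Col ρ d a c0 := h5.swap.trans h6.swap
    obtain ⟨v, h8, h9⟩ := c.col_rot hP hac0 h7
    -- `d` over `e` and over `v`
    obtain ⟨k1, hk1, hk1'⟩ := h8.par h3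
    obtain ⟨k2, hk2, hk2'⟩ := hc0.par h9
    exact he ⟨k1 * k2, by rw [hk1', hk2', smul_smul]⟩
  -- conclusion
  have hle : Nat.card {d : Ω // Pt (Xs (ρ c0) d) u} ≤ 2 := by
    have h2 : Nat.card Bool = 2 := by simp
    rw [← h2]
    apply Nat.card_le_card_of_injective (fun d => decide (Pt (Xs (ρ a) d.1) ![0, 1, 0]))
    rintro ⟨d, hd⟩ ⟨d', hd'⟩ hdd
    apply Subtype.ext
    change d = d'
    have hiff : Pt (Xs (ρ a) d) ![0, 1, 0] ↔ Pt (Xs (ρ a) d') ![0, 1, 0] := by
      simpa using hdd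
    have hn2 : ¬ ∃ k : F, (![0, 1, 0] : Fin 3 → F) = k • e1 := by
      rintro ⟨k, hk⟩
      have := congrFun hk 1
      simp [smul_ap] at this
    have hn3 : ¬ ∃ k : F, (![0, 0, 1] : Fin 3 → F) = k • e1 := by
      rintro ⟨k, hk⟩
      have := congrFun hk 2
      simp [smul_ap] at this
    have h3 := ((hcase d (hdfix d hd)).resolve_left (hnot d hd).1).resolve_left (hnot d hd).2
    have h4 := ((hcase d' (hdfix d' hd')).resolve_left (hnot d' hd').1).resolve_left (hnot d' hd').2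
    rcases h3 with h3 | h3
    · exact hinj _ hn2 d d' hd hd' h3 (hiff.1 h3)
    · rcases h4 with h4 | h4
      · exact hinj _ hn2 d d' hd hd' (hiff.2 h4) h4
      · exact hinj _ hn3 d d' hd hd' h3 h4
  rw [pt_count u hu.1, c.A_eq hP c0 a] at hle
  have hodd := c.A_odd hP a
  rw [Nat.odd_iff] at hodd
  omega

end Cfg

end Cfsg.Agent.H438.SLThree
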