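import Mathlib
import Cfsg.Agent.H438.SLThreeX

/-!
# Type `Fl`, IV: transvections of `N b` fixing `a` are in `N a` (helper438, S3727)
-/

set_option autoImplicit false
set_option linter.unusedSectionVars false
set_option linter.unusedSimpArgs false

namespace Cfsg.Agent.H438.SLThree

open Matrix MulAction

variable {F : Type*} [Field F] {G Ω : Type*} [Group G] [MulAction G Ω]

theorem card_perp [Finite F] {v : Fin 3 → F} (hv : v ≠ 0) :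
    Nat.card {ψ : Fin 3 → F // ψ ⬝ᵥ v = 0} = Nat.card F ^ 2 := by
  have h1 := card_or (Ω := Fin 3 → F) 0 (fun ψ => ψ ≠ 0 ∧ ψ ⬝ᵥ v = 0) (fun h => h.1 rfl)
  rw [card_ker' hv] at h1
  have h2 : 1 ≤ Nat.card F ^ 2 := Nat.one_le_pow _ _ (by have := q_sub F; omega)
  rw [show 1 + (Nat.card F ^ 2 - 1) = Nat.card F ^ 2 by omega] at h1
  rw [← h1]
  apply Nat.card_congr
  refine Equiv.subtypeEquivRight fun ψ => ?_
  constructor
  · intro h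
    by_cases h0 : ψ = 0
    · exact Or.inl h0
    · exact Or.inr ⟨h0, h⟩
  · rintro (rfl | h)
    · exact zero_dotProduct _
    · exact h.2

theorem Qs_inj {ρ : S F →* G} (hρ : IsRep ρ) {v : Fin 3 → F} (hv : v ≠ 0) {ψ ψ' : Fin 3 → F} (h : ψ ⬝ᵥ v = 0)
    (h' : ψ' ⬝ᵥ v = 0) (he : ρ (tv v ψ) = ρ (tv v ψ')) : ψ = ψ' := by
  by_contra hne
  have h1 : (ψ - ψ') ⬝ᵥ v = 0 := by rw [sub_dotProduct, h, h', sub_zero]
  apply hρ.tv_ne h1 hv (sub_ne_zero.2 hne)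
  have h2 : (-ψ') ⬝ᵥ v = 0 := by rw [neg_dotProduct, h', neg_zero]
  rw [sub_eq_add_neg, ← tv_mul h h2, ← tv_inv h', map_mul, map_inv, he, mul_inv_cancel]

theorem card_Qs [Finite F] {ρ : S F →* G} (hρ : IsRep ρ) {v : Fin 3 → F} (hv : v ≠ 0) :
    Nat.card (Qs ρ v) = Nat.card F ^ 2 := by
  rw [← card_perp hv]
  symm
  refine Nat.card_congr (Equiv.ofBijective (fun ψ => ⟨ρ (tv v ψ.1), ψ.1, ψ.2, rfl⟩) ⟨?_, ?_⟩)
  · rintro ⟨ψ, hψ⟩ ⟨ψ', hψ'⟩ h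
    exact Subtype.ext (Qs_inj hρ hv hψ hψ' (congrArg Subtype.val h))
  · rintro ⟨_, ψ, hψ, rfl⟩
    exact ⟨⟨ψ, hψ⟩, rfl⟩

theorem Qs_comm {ρ : S F →* G} {v : Fin 3 → F} {x y : G} (hx : x ∈ Qs ρ v) (hy : y ∈ Qs ρ v) : x * y = y * x := by
  obtain ⟨ψ, hψ, rfl⟩ := hx
  obtain ⟨ψ', hψ', rfl⟩ := hy
  rw [← map_mul, ← map_mul, tv_mul hψ hψ', tv_mul hψ' hψ, add_comm]

theorem plane_basis {v w φ u : Fin 3 → F} (hv : v ≠ 0) (hφ : φ ≠ 0) (hnp : ¬ ∃ k : F, w = k • v)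
    (h1 : φ ⬝ᵥ v = 0) (h2 : φ ⬝ᵥ w = 0) (h3 : φ ⬝ᵥ u = 0) : ∃ α β : F, u = α • v + β • w := by
  obtain ⟨k, β, hβ, hk, hkφ, hkw⟩ := exists_adapted hv hφ h1 h2 hnp
  have e0 : (k⁻¹ • u) 2 = 0 := by
    rw [← e3_dot (k⁻¹ • u), ← row_dot, hkφ, h3]
  have h4 : k⁻¹ • u = ((k⁻¹ • u) 0) • e1 + ((k⁻¹ • u) 1) • ![0, 1, 0] := by
    apply ext3
    · simp
    · simp
    · rw [e0]; simp
  refine ⟨(k⁻¹ • u) 0, (k⁻¹ • u) 1 * β, ?_⟩
  have h5 := congrArg (fun z => k • z) h4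
  simp only [smul_inv_smul] at h5
  rw [smul_add, smul_smul_comm', smul_smul_comm', hk, hkw, smul_smul _ β] at h5
  exact h5

theorem cv_one (u : Fin 3 → F) : cv (1 : GL (Fin 3) F) (1 : F ≃+* F) u = u := by
  unfold cv
  rw [Units.val_one, one_mulVec]
  rfl

theorem tr_one (ρ : S F →* G) : Tr ρ ρ 1 1 1 := by
  intro g
  have : th (1 : GL (Fin 3) F) 1 g = g := by
    apply ext_smul
    intro u
    have := th_smul (1 : GL (Fin 3) F) (1 : F ≃+* F) g u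
    rwa [cv_one, cv_one] at this
  rw [this]; group

theorem Tr.sq {ρ : S F →* G} (hρ : IsRep ρ) {x : G} (hxx : x * x = 1) {C : GL (Fin 3) F} {σ : F ≃+* F}
    (hT : Tr ρ ρ x C σ) : σ * σ = 1 :=
  ((hT.comp hT).of_eq hxx).unique hρ (tr_one ρ)

theorem Tr.sq' {ρ : S F →* G} (hρ : IsRep ρ) {x : G} (hxx : x * x = 1) {C : GL (Fin 3) F} {σ : F ≃+* F}
    (hT : Tr (ρ.comp dual) ρ x C σ) : σ * σ = 1 :=
  ((hT.flip.comp hT).of_eq hxx).unique hρ (tr_one ρ)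

/-- few elements of `Qs` commute with a field automorphism -/
theorem fix_bound [Finite F] [CharP F 2] {ρ : S F →* G} (hρ : IsRep ρ) {x : G} {C : GL (Fin 3) F} {σ : F ≃+* F}
    (hσσ : σ * σ = 1) (hσ1 : σ ≠ 1) {u : Fin 3 → F} (hu : u ≠ 0) (hT : Tr ρ ρ x C σ ∨ Tr (ρ.comp dual) ρ x C σ)
    {H : Subgroup G} (hH : H ≤ Qs ρ u) (hcomm : ∀ h ∈ H, x * h * x⁻¹ = h) : Nat.card H ≤ Nat.card F := by
  classical
  have hle : Nat.card H ≤ Nat.card {ψ : Fin 3 → F // ψ ⬝ᵥ u = 0 ∧ ρ (tv u ψ) ∈ H} := by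
    have hs : Function.Surjective (fun ψ : {ψ : Fin 3 → F // ψ ⬝ᵥ u = 0 ∧ ρ (tv u ψ) ∈ H} =>
        (⟨ρ (tv u ψ.1), ψ.2.2⟩ : H)) := by
      rintro ⟨y, hy⟩
      obtain ⟨ψ, hψ, rfl⟩ := hH hy
      exact ⟨⟨ψ, hψ, hy⟩, rfl⟩
    exact Nat.card_le_card_of_surjective _ hs
  refine hle.trans ?_
  rcases hT with hT | hT
  · have key : ∀ ψ : Fin 3 → F, ψ ⬝ᵥ u = 0 → ψ ≠ 0 → ρ (tv u ψ) ∈ H →
        ∃ k : F, k ≠ 0 ∧ cv C σ u = k • u ∧ cr C σ ψ = k⁻¹ • ψ := by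
      intro ψ hψ hψ0 hψH
      have h1 := hcomm _ hψH
      rw [hT, th_tv _ _ hψ] at h1
      have hd2 : cr C σ ψ ⬝ᵥ cv C σ u = 0 := by rw [cr_dot_cv, hψ, map_zero]
      exact tv_inj hψ hd2 hu hψ0 (hρ.tv_eq hψ hd2 h1.symm)
    by_cases h0 : ∀ ψ : Fin 3 → F, ψ ⬝ᵥ u = 0 ∧ ρ (tv u ψ) ∈ H → ψ = 0
    · have hsub : Subsingleton {ψ : Fin 3 → F // ψ ⬝ᵥ u = 0 ∧ ρ (tv u ψ) ∈ H} :=
        ⟨fun x y => Subtype.ext ((h0 _ x.2).trans (h0 _ y.2).symm)⟩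
      have := Finite.card_le_one_iff_subsingleton.2 hsub
      have := q_sub F
      omega
    · push Not at h0
      obtain ⟨ψ1, ⟨h1, h1'⟩, h10⟩ := h0
      obtain ⟨k, hk, hk1, hk2⟩ := key ψ1 h1 h10 h1'
      have key2 : ∀ ψ : Fin 3 → F, ψ ⬝ᵥ u = 0 → ρ (tv u ψ) ∈ H → cr C σ ψ = k⁻¹ • ψ := by
        intro ψ hψ hψH
        by_cases hψ0 : ψ = 0
        · rw [hψ0, cr_zero, smul_zero]
        obtain ⟨k', hk', hk1', hk2'⟩ := key ψ hψ hψ0 hψH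
        have : k' = k := smul_left_injective F hu (show k' • u = k • u by rw [← hk1', hk1])
        rw [hk2', this]
      by_cases h2 : ∀ ψ : Fin 3 → F, ψ ⬝ᵥ u = 0 ∧ ρ (tv u ψ) ∈ H → ∃ α : F, ψ = α • ψ1
      · choose f hf using h2
        apply Nat.card_le_card_of_injective (fun ψ : {ψ : Fin 3 → F // ψ ⬝ᵥ u = 0 ∧ ρ (tv u ψ) ∈ H} => f ψ.1 ψ.2)
        rintro ⟨ψ, h⟩ ⟨ψ', h'⟩ he
        apply Subtype.ext
        change f ψ h = f ψ' h' at he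
        change ψ = ψ'
        rw [hf ψ h, hf ψ' h', he]
      · push Not at h2
        obtain ⟨ψ2, ⟨h2, h2'⟩, h20⟩ := h2
        have hnp : ¬ ∃ α : F, ψ2 = α • ψ1 := by
          rintro ⟨α, hα⟩
          exact h20 α hα
        have h3 : ∀ ψ : {ψ : Fin 3 → F // ψ ⬝ᵥ u = 0 ∧ ρ (tv u ψ) ∈ H},
            ∃ p : {x : F // σ x = x} × {x : F // σ x = x}, ψ.1 = p.1.1 • ψ1 + p.2.1 • ψ2 := by
          rintro ⟨ψ, hψ, hψH⟩
          obtain ⟨α, β, hαβ⟩ := plane_basis h10 hu hnp (by rw [dotProduct_comm, h1]) (by rw [dotProduct_comm, h2])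
            (by rw [dotProduct_comm, hψ])
          have h4 := key2 ψ hψ hψH
          rw [hαβ, cr_add, cr_smul, cr_smul, key2 ψ1 h1 h1', key2 ψ2 h2 h2', smul_add, smul_smul, smul_smul,
            smul_smul, smul_smul] at h4
          have h5 : (σ β * k⁻¹ - k⁻¹ * β) • ψ2 = (k⁻¹ * α - σ α * k⁻¹) • ψ1 := by
            rw [sub_smul, sub_smul, sub_eq_sub_iff_add_eq_add, add_comm, h4, add_comm]
          have h6 : σ β * k⁻¹ - k⁻¹ * β = 0 := by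
            by_contra h6
            apply hnp
            refine ⟨(σ β * k⁻¹ - k⁻¹ * β)⁻¹ * (k⁻¹ * α - σ α * k⁻¹), ?_⟩
            rw [mul_smul, ← h5, smul_smul, inv_mul_cancel₀ h6, one_smul]
          rw [h6, zero_smul] at h5
          have h7 := (smul_eq_zero.1 h5.symm).resolve_right h10
          have h8 : σ α = α := by
            rw [mul_comm, ← sub_mul] at h7
            exact (sub_eq_zero.1 ((mul_eq_zero.1 h7).resolve_right (inv_ne_zero hk))).symm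
          have h9 : σ β = β := by
            rw [mul_comm k⁻¹, ← sub_mul] at h6
            exact (sub_eq_zero.1 ((mul_eq_zero.1 h6).resolve_right (inv_ne_zero hk)))
          exact ⟨⟨⟨α, h8⟩, ⟨β, h9⟩⟩, hαβ⟩
        choose f hf using h3
        have hinj : Function.Injective f := by
          intro ψ ψ' he
          apply Subtype.ext
          rw [hf ψ, hf ψ', he]
        have h4 := Nat.card_le_card_of_injective f hinj
        rwa [Nat.card_prod, StdRank2.OutField.card_fix hσσ hσ1] at h4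
  · have h3 : ∀ ψ : {ψ : Fin 3 → F // ψ ⬝ᵥ u = 0 ∧ ρ (tv u ψ) ∈ H}, ∃ k : F, cv C σ ψ.1 = k • u := by
      rintro ⟨ψ, hψ, hψH⟩
      by_cases hψ0 : ψ = 0
      · exact ⟨0, by change cv C σ ψ = _; rw [hψ0, cv_zero, zero_smul]⟩
      have h1 := hT (dual (tv u ψ))
      rw [MonoidHom.comp_apply, dual_dual, hcomm _ hψH, dual_tv hψ] at h1
      have hd1 : (-u) ⬝ᵥ ψ = 0 := by rw [neg_dotProduct, dotProduct_comm, hψ, neg_zero]
      rw [th_tv _ _ hd1] at h1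
      have hd2 : cr C σ (-u) ⬝ᵥ cv C σ ψ = 0 := by rw [cr_dot_cv, hd1, map_zero]
      obtain ⟨k, hk, hk1, -⟩ := tv_inj hψ hd2 hu hψ0 (hρ.tv_eq hψ hd2 h1)
      exact ⟨k, hk1⟩
    choose f hf using h3
    apply Nat.card_le_card_of_injective f
    intro ψ ψ' he
    apply Subtype.ext
    apply cv_inj C σ
    rw [hf ψ, hf ψ', he]

variable {ρ : Ω → (S F →* G)}

/-- the dual configuration -/
theorem Cfg.dualize (c : Cfg ρ) : Cfg (fun a => (ρ a).comp dual) := by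
  have hN : ∀ a, N (fun a => (ρ a).comp (dual (F := F))) a = N ρ a := fun a => range_comp_dual _
  refine ⟨c.two, c.faith, c.even, fun a => (c.rep a).toDual, fun a g => c.fix a _, ?_⟩
  intro y a g
  have h1 : (ρ a).comp dual g ∈ N (fun a => (ρ a).comp (dual (F := F))) a := rho_mem (ρ := fun a => (ρ a).comp dual) a g
  rw [hN] at h1
  have h2 := c.N_conj (y := y) h1
  rw [← hN] at h2
  obtain ⟨g', hg'⟩ := h2
  exact ⟨g', hg'.symm⟩

theorem TypeFl.dualize (hP : TypeFl ρ) : TypeFl (fun a => (ρ a).comp (dual (F := F))) := by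
  intro a b hab
  obtain ⟨v, φ, h⟩ := hP a b hab
  exact ⟨φ, v, fl_dual_iff.2 h⟩

namespace Cfg

variable [Finite F] [CharP F 2] [Finite (S F)] [Finite G] [Finite Ω]

theorem exists_type (c : Cfg ρ) {a : Ω} {x : G} (hx : x • a = a) :
    (∃ C σ, Tr (ρ a) (ρ a) x C σ) ∨ ∃ C σ, Tr ((ρ a).comp dual) (ρ a) x C σ := by
  have : Fact (Nat.Prime 2) := ⟨Nat.prime_two⟩
  have h := c.tr 2 x a
  rwa [hx] at h

/-- type of an involution of `N b` outside `N a` -/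
theorem field_ne (c : Cfg ρ) (hP : TypeFl ρ) {a b : Ω} (hab : b ≠ a) {x : G} (hxx : x * x = 1) (hxb : x ∈ N ρ b)
    (hxa : x • a = a) (hxN : x ∉ N ρ a) {C : GL (Fin 3) F} {σ : F ≃+* F}
    (hT : Tr (ρ a) (ρ a) x C σ ∨ Tr ((ρ a).comp dual) (ρ a) x C σ) : σ ≠ 1 := by
  rintro rfl
  rcases hT with hT | hT
  · exact hxN (c.mem_N_of_linear (fun a b hab x hx hxb => c.KG_one_fl hP hab hx hxb) hxx hT (fun _ => rfl))
  · have hx1 : x ≠ 1 := by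
      rintro rfl
      exact hxN (N ρ a).one_mem
    exact c.no_polarity hP hab hx1 hxx hxb hT (fun _ => rfl) hxa

theorem index_two (c : Cfg ρ) (hP : TypeFl ρ) {a b : Ω} (hab : b ≠ a) {x y : G} (hxx : x * x = 1) (hyy : y * y = 1)
    (hxy : x * y = y * x) (hxb : x ∈ N ρ b) (hyb : y ∈ N ρ b) (hxa : x • a = a) (hya : y • a = a)
    (hxN : x ∉ N ρ a) (hyN : y ∉ N ρ a) : x * y ∈ N ρ a := by
  have hs : (x * y) * (x * y) = 1 := by
    calc (x * y) * (x * y) = x * (y * x) * y := by group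
      _ = (x * x) * (y * y) := by rw [← hxy]; group
      _ = 1 := by rw [hxx, hyy, one_mul]
  have hxya : (x * y) • a = a := by rw [mul_smul, hya, hxa]
  have hxyb : x * y ∈ N ρ b := (N ρ b).mul_mem hxb hyb
  by_contra hcon
  have hf := fun {C : GL (Fin 3) F} {σ : F ≃+* F} => c.field_ne hP hab (C := C) (σ := σ) hs hxyb hxya hcon
  rcases c.exists_type hxa with ⟨C, σ, hx⟩ | ⟨C, σ, hx⟩ <;> rcases c.exists_type hya with ⟨D, τ, hy⟩ | ⟨D, τ, hy⟩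
  · have h1 := StdRank2.OutField.unique_invol (hx.sq (c.rep a) hxx) (hy.sq (c.rep a) hyy)
      (c.field_ne hP hab hxx hxb hxa hxN (Or.inl hx)) (c.field_ne hP hab hyy hyb hya hyN (Or.inl hy))
    apply hf (Or.inl (hy.comp hx))
    rw [← h1, hx.sq (c.rep a) hxx]
  · have h1 := StdRank2.OutField.unique_invol (hx.sq (c.rep a) hxx) (hy.sq' (c.rep a) hyy)
      (c.field_ne hP hab hxx hxb hxa hxN (Or.inl hx)) (c.field_ne hP hab hyy hyb hya hyN (Or.inr hy))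
    apply hf (Or.inr (hy.comp hx))
    rw [← h1, hx.sq (c.rep a) hxx]
  · have h1 := StdRank2.OutField.unique_invol (hx.sq' (c.rep a) hxx) (hy.sq (c.rep a) hyy)
      (c.field_ne hP hab hxx hxb hxa hxN (Or.inr hx)) (c.field_ne hP hab hyy hyb hya hyN (Or.inl hy))
    apply hf (Or.inr (hy.flip'.comp hx))
    rw [← h1, hx.sq' (c.rep a) hxx]
  · have h1 := StdRank2.OutField.unique_invol (hx.sq' (c.rep a) hxx) (hy.sq' (c.rep a) hyy)
      (c.field_ne hP hab hxx hxb hxa hxN (Or.inr hx)) (c.field_ne hP hab hyy hyb hya hyN (Or.inr hy))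
    apply hf (Or.inl (hy.flip.comp hx))
    rw [← h1, hx.sq' (c.rep a) hxx]

theorem tv_mem_dual {ρ : S F →* G} {w φ : Fin 3 → F} (hd : φ ⬝ᵥ w = 0) : ρ (tv w φ) ∈ Qs (ρ.comp dual) φ := by
  refine ⟨-w, by rw [neg_dotProduct, dotProduct_comm, hd, neg_zero], ?_⟩
  rw [MonoidHom.comp_apply, dual_tv (by rw [neg_dotProduct, dotProduct_comm, hd, neg_zero]), tv_neg_neg hd]

/-- involutions of `N a` fixing `b` -/
theorem mem_union (c : Cfg ρ) {a b : Ω} {v φ : Fin 3 → F} (hfl : Fl (Xs (ρ a) b) v φ) {y : G} (hy : y ∈ N ρ a)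
    (hyy : y * y = 1) (hyb : y • b = b) : y ∈ Qs (ρ a) v ∨ y ∈ Qs ((ρ a).comp dual) φ := by
  by_cases hy1 : y = 1
  · rw [hy1]; exact Or.inl (Qs (ρ a) v).one_mem
  obtain ⟨g, rfl⟩ := hy
  obtain ⟨w, χ, hd, hg⟩ := (c.rep a).exists_tv hyy
  rw [hg] at hy1 hyb ⊢
  have hw : w ≠ 0 := by rintro rfl; exact hy1 (by rw [tv_zero_left, map_one])
  have hχ : χ ≠ 0 := by rintro rfl; exact hy1 (by rw [tv_zero_right, map_one])
  rcases (hfl.tv_mem hw hχ hd).1 hyb with ⟨k, hk, rfl⟩ | ⟨k, hk, rfl⟩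
  · left
    rw [← Qs_smul _ _ hk]
    exact ⟨χ, hd, rfl⟩
  · right
    rw [← Qs_smul _ _ hk]
    exact tv_mem_dual hd

/-- **the transvections of `N b` fixing `a` lie in `N a`** -/
theorem unip_mem (c : Cfg ρ) (hP : TypeFl ρ) {a b : Ω} (hab : b ≠ a) {v φ : Fin 3 → F} (hfl : Fl (Xs (ρ b) a) v φ)
    {ψ : Fin 3 → F} (hψ : ψ ⬝ᵥ v = 0) : ρ b (tv v ψ) ∈ N ρ a := by
  classical
  by_contra hxN
  have hQ : ∀ y ∈ Qs (ρ b) v, y * y = 1 ∧ y ∈ N ρ b ∧ y • a = a := by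
    rintro _ ⟨ψ', hψ', rfl⟩
    exact ⟨by rw [← map_mul, tv_sq hψ', map_one], rho_mem _ _, hfl.2.2.2.2.2.1 ψ' hψ'⟩
  have hx : ρ b (tv v ψ) ∈ Qs (ρ b) v := ⟨ψ, hψ, rfl⟩
  obtain ⟨hxx, hxb, hxa⟩ := hQ _ hx
  have hxi : (ρ b (tv v ψ))⁻¹ = ρ b (tv v ψ) := inv_eq_of_mul_eq_one_left hxx
  have h1 := StdRank2.OutField.ncard_le_two (S := (Qs (ρ b) v : Set G)) (H := (Qs (ρ b) v ⊓ N ρ a : Subgroup G))
    (ρ b (tv v ψ)) (by
      intro y hy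
      by_cases hyN : y ∈ N ρ a
      · exact Or.inl ⟨hy, hyN⟩
      · right
        obtain ⟨hyy, hyb, hya⟩ := hQ _ hy
        rw [hxi]
        exact ⟨(Qs (ρ b) v).mul_mem hx hy,
          c.index_two hP hab hxx hyy (Qs_comm hx hy) hxb hyb hxa hya hxN hyN⟩)
  have h2 : (Qs (ρ b) v : Set G).ncard = Nat.card F ^ 2 := by
    rw [← card_Qs (c.rep b) hfl.1]; rfl
  have h3 : ((Qs (ρ b) v ⊓ N ρ a : Subgroup G) : Set G).ncard = Nat.card ↥(Qs (ρ b) v ⊓ N ρ a) := rfl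
  rw [h2, h3] at h1
  have hcomm : ∀ h ∈ Qs (ρ b) v ⊓ N ρ a, ρ b (tv v ψ) * h * (ρ b (tv v ψ))⁻¹ = h := by
    intro h hh
    rw [Qs_comm hx hh.1, mul_inv_cancel_right]
  obtain ⟨v1, φ1, hfl1⟩ := hP a b hab
  have h4 : ((Qs (ρ b) v ⊓ N ρ a : Subgroup G) : Set G) ⊆ (Qs (ρ a) v1 : Set G) ∪ (Qs ((ρ a).comp dual) φ1 : Set G) := by
    intro y hy
    obtain ⟨hyy, hyb, hya⟩ := hQ _ hy.1
    exact c.mem_union hfl1 hy.2 hyy (c.N_fix hyb)
  have key : ∃ C : GL (Fin 3) F, ∃ σ : F ≃+* F, σ * σ = 1 ∧ σ ≠ 1 ∧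
      (Tr (ρ a) (ρ a) (ρ b (tv v ψ)) C σ ∨ Tr ((ρ a).comp dual) (ρ a) (ρ b (tv v ψ)) C σ) := by
    rcases c.exists_type hxa with ⟨C, σ, hT⟩ | ⟨C, σ, hT⟩
    · exact ⟨C, σ, hT.sq (c.rep a) hxx, c.field_ne hP hab hxx hxb hxa hxN (Or.inl hT), Or.inl hT⟩
    · exact ⟨C, σ, hT.sq' (c.rep a) hxx, c.field_ne hP hab hxx hxb hxa hxN (Or.inr hT), Or.inr hT⟩
  obtain ⟨C, σ, hσσ, hσ1, hT⟩ := key
  have h5 : Nat.card ↥(Qs (ρ b) v ⊓ N ρ a) ≤ Nat.card F := by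
    rcases (SubgroupClass.subset_union (H := Qs (ρ b) v ⊓ N ρ a)).1 h4 with h5 | h5
    · exact fix_bound (c.rep a) hσσ hσ1 hfl1.1 hT h5 hcomm
    · refine fix_bound (ρ := (ρ a).comp dual) (c.rep a).toDual hσσ hσ1 hfl1.2.1 (C := st C) ?_ h5 hcomm
      rcases hT with hT | hT
      · exact Or.inl hT.flip'
      · right
        rw [comp_dual_dual]
        exact hT.flip
  have h6 := StdRank2.OutField.card_fix hσσ hσ1
  have h7 : 2 ≤ Nat.card {x : F // σ x = x} := by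
    have : Nontrivial {x : F // σ x = x} := ⟨⟨⟨0, map_zero σ⟩, ⟨1, map_one σ⟩, fun h => zero_ne_one (congrArg Subtype.val h)⟩⟩
    exact Finite.one_lt_card
  have h8 : 4 ≤ Nat.card F := by rw [← h6]; nlinarith
  nlinarith

/-- the dual statement -/
theorem unip_mem' (c : Cfg ρ) (hP : TypeFl ρ) {a b : Ω} (hab : b ≠ a) {v φ : Fin 3 → F} (hfl : Fl (Xs (ρ b) a) v φ)
    {w : Fin 3 → F} (hw : φ ⬝ᵥ w = 0) : ρ b (tv w φ) ∈ N ρ a := by
  have hN : N (fun a => (ρ a).comp (dual (F := F))) a = N ρ a := range_comp_dual _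
  obtain ⟨ψ, hψ, he⟩ := tv_mem_dual (ρ := ρ b) hw
  rw [← hN, ← he]
  exact c.dualize.unip_mem hP.dualize hab (fl_dual_iff.2 hfl) hψ

end Cfg

end Cfsg.Agent.H438.SLThree
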