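import Mathlib
import Cfsg.Agent.H438.SLThreeY

/-!
# Type `Fl`, V: type `Fl` does not occur (helper438, S3727)
-/

set_option autoImplicit false
set_option linter.unusedSectionVars false
set_option linter.unusedSimpArgs false

namespace Cfsg.Agent.H438.SLThree

open Matrix MulAction

variable {F : Type*} [Field F] {G Ω : Type*} [Group G] [MulAction G Ω]

theorem exists_perp_ne [Finite F] {v φ : Fin 3 → F} (hv : v ≠ 0) :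
    ∃ ψ : Fin 3 → F, ψ ⬝ᵥ v = 0 ∧ ¬ ∃ α : F, ψ = α • φ := by
  by_contra hcon
  push Not at hcon
  have h1 := card_perp (F := F) hv
  have h2 : Nat.card {ψ : Fin 3 → F // ψ ⬝ᵥ v = 0} ≤ Nat.card F := by
    choose f hf using hcon
    apply Nat.card_le_card_of_injective (fun ψ : {ψ : Fin 3 → F // ψ ⬝ᵥ v = 0} => f ψ.1 ψ.2)
    rintro ⟨ψ, h⟩ ⟨ψ', h'⟩ he
    apply Subtype.ext
    change f ψ h = f ψ' h' at he
    change ψ = ψ'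
    rw [hf ψ h, hf ψ' h', he]
  have h3 := q_sub F
  have h4 : 2 ≤ Nat.card F := by omega
  rw [h1] at h2
  nlinarith

/-- `t` belongs to only one group `Qs ρ v` -/
theorem Qs_unique {ρ : S F →* G} (hρ : IsRep ρ) {v w χ : Fin 3 → F} (hw : w ≠ 0) (hχ : χ ≠ 0)
    (hd : χ ⬝ᵥ w = 0) (h : ρ (tv w χ) ∈ Qs ρ v) : Qs ρ v = Qs ρ w := by
  obtain ⟨ψ, hψ, he⟩ := h
  obtain ⟨k, hk, rfl, -⟩ := tv_inj hd hψ hw hχ (hρ.tv_eq hd hψ he.symm)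
  exact Qs_smul ρ w hk

theorem dual_tv' {w χ : Fin 3 → F} (hd : χ ⬝ᵥ w = 0) : dual (tv χ (-w)) = tv w χ := by
  rw [dual_tv (by rw [neg_dotProduct, dotProduct_comm, hd, neg_zero]), tv_neg_neg hd]

theorem tv_dual_eq {ρ : S F →* G} {w χ : Fin 3 → F} (hd : χ ⬝ᵥ w = 0) : ρ (tv w χ) = (ρ.comp dual) (tv χ (-w)) := by
  rw [MonoidHom.comp_apply, dual_tv' hd]

theorem Qs_unique' {ρ : S F →* G} (hρ : IsRep ρ) {φ w χ : Fin 3 → F} (hw : w ≠ 0) (hχ : χ ≠ 0)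
    (hd : χ ⬝ᵥ w = 0) (h : ρ (tv w χ) ∈ Qs (ρ.comp dual) φ) : Qs (ρ.comp dual) φ = Qs (ρ.comp dual) χ := by
  rw [tv_dual_eq hd] at h
  exact Qs_unique hρ.toDual hχ (neg_ne_zero.2 hw) (by rw [neg_dotProduct, dotProduct_comm, hd, neg_zero]) h

theorem Qs_ne [Finite F] {ρ : S F →* G} (hρ : IsRep ρ) {v φ : Fin 3 → F} (hv : v ≠ 0) :
    Qs ρ v ≠ Qs (ρ.comp dual) φ := by
  intro he
  obtain ⟨ψ, hψ, hne⟩ := exists_perp_ne (F := F) (φ := φ) hv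
  have hψ0 : ψ ≠ 0 := by
    rintro rfl
    exact hne ⟨0, by rw [zero_smul]⟩
  have h1 : ρ (tv v ψ) ∈ Qs ρ v := ⟨ψ, hψ, rfl⟩
  rw [he] at h1
  obtain ⟨w, hw, h2⟩ := h1
  have hw' : φ ⬝ᵥ w = 0 := by rw [dotProduct_comm, hw]
  have h3 : ρ (tv v ψ) = ρ (tv w (-φ)) := by
    rw [← h2, MonoidHom.comp_apply, dual_tv hw]
  have hd2 : (-φ) ⬝ᵥ w = 0 := by rw [neg_dotProduct, hw', neg_zero]
  obtain ⟨k, hk, -, h4⟩ := tv_inj hψ hd2 hv hψ0 (hρ.tv_eq hψ hd2 h3)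
  apply hne
  refine ⟨-k, ?_⟩
  have h5 : ψ = k • (-φ) := by rw [h4, smul_smul, mul_inv_cancel₀ hk, one_smul]
  rw [h5, smul_neg, neg_smul]

theorem Qs_fix_eq {ρ : S F →* G} {b : Ω} {v v1 φ1 : Fin 3 → F} (h : Fl (Xs ρ b) v1 φ1) (hv : v ≠ 0)
    (hfix : ∀ x ∈ Qs ρ v, x • b = b) : Qs ρ v = Qs ρ v1 := by
  have h1 : Ce (Xs ρ b) v := Qs_fix.1 hfix
  obtain ⟨k, hk⟩ := cen_unique hv h1 h.2.2.2.1
  have hk0 : k ≠ 0 := by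
    rintro rfl
    exact h.1 (by rw [hk, zero_smul])
  rw [hk, Qs_smul _ _ hk0]

/-- fixed points of a subgroup -/
def Fx (Ω : Type*) {G : Type*} [Group G] [MulAction G Ω] (Q : Subgroup G) : Set Ω := {d | ∀ x ∈ Q, x • d = d}

theorem mem_Fx {Q : Subgroup G} {d : Ω} : d ∈ Fx Ω Q ↔ ∀ x ∈ Q, x • d = d := Iff.rfl

theorem Fx_Qs {ρ : S F →* G} {a : Ω} (hfix : ∀ g, ρ g • a = a) (hFl : ∀ b, b ≠ a → ∃ v φ, Fl (Xs ρ b) v φ)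
    {w : Fin 3 → F} (hw : w ≠ 0) : Fx Ω (Qs ρ w) = insert a {b | ∃ φ, Fl (Xs ρ b) w φ} := by
  ext d
  rw [mem_Fx, Set.mem_insert_iff, Set.mem_ofPred_eq]
  constructor
  · intro h
    by_cases hda : d = a
    · exact Or.inl hda
    right
    obtain ⟨v, φ, h1⟩ := hFl d hda
    obtain ⟨k, hk⟩ := cen_unique hw (Qs_fix.1 h) h1.2.2.2.1
    have hk0 : k ≠ 0 := by
      rintro rfl
      exact h1.1 (by rw [hk, zero_smul])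
    refine ⟨φ, ?_⟩
    have h2 := h1.smul_left (inv_ne_zero hk0)
    rwa [hk, smul_smul, inv_mul_cancel₀ hk0, one_smul] at h2
  · rintro (rfl | ⟨φ, h⟩)
    · rintro _ ⟨ψ, -, rfl⟩
      exact hfix _
    · exact Qs_fix.2 h.2.2.2.2.2.1

theorem card_Fx_Qs [Finite F] [Finite Ω] {ρ : S F →* G} {a : Ω} (hfix : ∀ g, ρ g • a = a)
    (hFl : ∀ b, b ≠ a → ∃ v φ, Fl (Xs ρ b) v φ) {w : Fin 3 → F} (hw : w ≠ 0) :
    (Fx Ω (Qs ρ w)).ncard = 1 + (Nat.card F + 1) * Nat.card {b : Ω // Fl (Xs ρ b) e1 e3} := by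
  rw [Fx_Qs hfix hFl hw, Set.ncard_insert_of_notMem, ncard_F1 hw, add_comm]
  rintro ⟨φ, h⟩
  exact not_fl a hfix _ _ h

theorem card_Fx_Qs' [Finite F] [Finite Ω] {ρ : S F →* G} {a : Ω} (hfix : ∀ g, ρ g • a = a)
    (hFl : ∀ b, b ≠ a → ∃ v φ, Fl (Xs ρ b) v φ) {χ : Fin 3 → F} (hχ : χ ≠ 0) :
    (Fx Ω (Qs (ρ.comp dual) χ)).ncard = 1 + (Nat.card F + 1) * Nat.card {b : Ω // Fl (Xs ρ b) e1 e3} := by
  rw [card_Fx_Qs (ρ := ρ.comp dual) (fun g => hfix _) (fun b hb => by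
    obtain ⟨v, φ, h⟩ := hFl b hb
    exact ⟨φ, v, fl_dual_iff.2 h⟩) hχ]
  congr 2
  have h := fl_count (ρ := ρ) (Ω := Ω) (fun _ => True) (fun _ _ => Iff.rfl) e3_ne e1_ne (by rw [dot_apply]; simp)
  simp only [true_and] at h
  rw [← h]
  apply Nat.card_congr
  refine Equiv.subtypeEquivRight fun x => ?_
  rw [fl_dual_iff]

theorem Fx_tv [Finite F] [Finite Ω] {ρ : S F →* G} {a : Ω} (hfix : ∀ g, ρ g • a = a)
    (hFl : ∀ b, b ≠ a → ∃ v φ, Fl (Xs ρ b) v φ) {w χ : Fin 3 → F} (hw : w ≠ 0) (hχ : χ ≠ 0) (hd : χ ⬝ᵥ w = 0) :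
    {d : Ω | ρ (tv w χ) • d = d} = Fx Ω (Qs ρ w) ∪ Fx Ω (Qs (ρ.comp dual) χ) := by
  have hF2 := Fx_Qs (ρ := ρ.comp dual) (fun g => hfix _) (fun b hb => by
    obtain ⟨v, φ, h⟩ := hFl b hb
    exact ⟨φ, v, fl_dual_iff.2 h⟩) hχ
  simp only [fl_dual_iff] at hF2
  rw [fix_count a hfix hFl hw hχ hd, Fx_Qs hfix hFl hw, hF2, Set.insert_union_distrib]

theorem card_Fx_inter [Finite F] [Finite Ω] {ρ : S F →* G} {a : Ω} (hfix : ∀ g, ρ g • a = a)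
    (hFl : ∀ b, b ≠ a → ∃ v φ, Fl (Xs ρ b) v φ) {w χ : Fin 3 → F} (hw : w ≠ 0) (hχ : χ ≠ 0) (hd : χ ⬝ᵥ w = 0) :
    (Fx Ω (Qs ρ w) ∩ Fx Ω (Qs (ρ.comp dual) χ)).ncard = 1 + Nat.card {b : Ω // Fl (Xs ρ b) e1 e3} := by
  have hF2 := Fx_Qs (ρ := ρ.comp dual) (fun g => hfix _) (fun b hb => by
    obtain ⟨v, φ, h⟩ := hFl b hb
    exact ⟨φ, v, fl_dual_iff.2 h⟩) hχ
  simp only [fl_dual_iff] at hF2
  rw [Fx_Qs hfix hFl hw, hF2, ← Set.insert_inter_distrib, Set.ncard_insert_of_notMem, ncard_F12 hw hχ hd, add_comm]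
  rintro ⟨⟨φ, h⟩, -⟩
  exact not_fl a hfix _ _ h

variable {ρ : Ω → (S F →* G)}

/-- the groups of centres and axes at `a` -/
def FQ (ρ : Ω → (S F →* G)) (a : Ω) : Set (Subgroup G) :=
  {Q | (∃ v : Fin 3 → F, v ≠ 0 ∧ Q = Qs (ρ a) v) ∨ ∃ φ : Fin 3 → F, φ ≠ 0 ∧ Q = Qs ((ρ a).comp dual) φ}

theorem FQ_le {a : Ω} {Q : Subgroup G} (hQ : Q ∈ FQ ρ a) : Q ≤ N ρ a := by
  rcases hQ with ⟨v, -, rfl⟩ | ⟨v, -, rfl⟩
  · rintro _ ⟨ψ, -, rfl⟩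
    exact rho_mem _ _
  · rintro _ ⟨ψ, -, rfl⟩
    exact rho_mem _ _

namespace Cfg

variable [Finite F] [CharP F 2] [Finite (S F)] [Finite G] [Finite Ω]

theorem Q_sets (c : Cfg ρ) (hP : TypeFl ρ) {a b : Ω} (hab : b ≠ a) {v1 φ1 v2 φ2 : Fin 3 → F}
    (h1 : Fl (Xs (ρ a) b) v1 φ1) (h2 : Fl (Xs (ρ b) a) v2 φ2) :
    (Qs (ρ a) v1 = Qs (ρ b) v2 ∧ Qs ((ρ a).comp dual) φ1 = Qs ((ρ b).comp dual) φ2) ∨
    (Qs (ρ a) v1 = Qs ((ρ b).comp dual) φ2 ∧ Qs ((ρ a).comp dual) φ1 = Qs (ρ b) v2) := by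
  have hc1 := card_Qs (c.rep a) h1.1
  have hc2 := card_Qs (c.rep a).toDual h1.2.1
  have hc3 := card_Qs (c.rep b) h2.1
  have hc4 := card_Qs (c.rep b).toDual h2.2.1
  have k1 : (Qs (ρ b) v2 : Set G) ⊆ (Qs (ρ a) v1 : Set G) ∪ (Qs ((ρ a).comp dual) φ1 : Set G) := by
    rintro _ ⟨ψ, hψ, rfl⟩
    exact c.mem_union h1 (c.unip_mem hP hab h2 hψ) (by rw [← map_mul, tv_sq hψ, map_one]) (c.fix b _)
  have k2 : (Qs ((ρ b).comp dual) φ2 : Set G) ⊆ (Qs (ρ a) v1 : Set G) ∪ (Qs ((ρ a).comp dual) φ1 : Set G) := by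
    rintro _ ⟨w, hw, rfl⟩
    have hw' : φ2 ⬝ᵥ (-w) = 0 := by rw [dotProduct_neg, dotProduct_comm, hw, neg_zero]
    have h3 : ((ρ b).comp dual) (tv φ2 w) = ρ b (tv (-w) φ2) := by
      rw [tv_dual_eq hw', neg_neg]
    have h4 : ((ρ b).comp dual) (tv φ2 w) ∈ N ρ a := by
      rw [h3]
      exact c.unip_mem' hP hab h2 hw'
    exact c.mem_union h1 h4 (by rw [← map_mul, tv_sq hw, map_one]) (c.fix b _)
  have hne1 := Qs_ne (φ := φ2) (c.rep b) h2.1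
  rcases SubgroupClass.subset_union.1 k1 with k1 | k1 <;> rcases SubgroupClass.subset_union.1 k2 with k2 | k2
  · have e1 := Subgroup.eq_of_le_of_card_ge k1 (by rw [hc1, hc3])
    have e2 := Subgroup.eq_of_le_of_card_ge k2 (by rw [hc1, hc4])
    exact (hne1 (e1.trans e2.symm)).elim
  · have e1 := Subgroup.eq_of_le_of_card_ge k1 (by rw [hc1, hc3])
    have e2 := Subgroup.eq_of_le_of_card_ge k2 (by rw [hc2, hc4])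
    exact Or.inl ⟨e1.symm, e2.symm⟩
  · have e1 := Subgroup.eq_of_le_of_card_ge k1 (by rw [hc2, hc3])
    have e2 := Subgroup.eq_of_le_of_card_ge k2 (by rw [hc1, hc4])
    exact Or.inr ⟨e2.symm, e1.symm⟩
  · have e1 := Subgroup.eq_of_le_of_card_ge k1 (by rw [hc2, hc3])
    have e2 := Subgroup.eq_of_le_of_card_ge k2 (by rw [hc2, hc4])
    exact (hne1 (e1.trans e2.symm)).elim

theorem FQ_of_fix (c : Cfg ρ) (hP : TypeFl ρ) {a b : Ω} {Q : Subgroup G} (hQ : Q ∈ FQ ρ a)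
    (hfix : b ∈ Fx Ω Q) : Q ∈ FQ ρ b := by
  by_cases hab : b = a
  · rw [hab]; exact hQ
  obtain ⟨v1, φ1, h1⟩ := hP a b hab
  obtain ⟨v2, φ2, h2⟩ := hP b a (Ne.symm hab)
  have h3 := c.Q_sets hP hab h1 h2
  rcases hQ with ⟨v, hv, rfl⟩ | ⟨φ, hφ, rfl⟩
  · rw [Qs_fix_eq h1 hv hfix]
    rcases h3 with ⟨h3, -⟩ | ⟨h3, -⟩
    · exact Or.inl ⟨v2, h2.1, h3⟩
    · exact Or.inr ⟨φ2, h2.2.1, h3⟩
  · rw [Qs_fix_eq (fl_dual_iff.2 h1) hφ hfix]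
    rcases h3 with ⟨-, h3⟩ | ⟨-, h3⟩
    · exact Or.inr ⟨φ2, h2.2.1, h3⟩
    · exact Or.inl ⟨v2, h2.1, h3⟩

theorem two_Q (c : Cfg ρ) (hP : TypeFl ρ) (a : Ω) {t : G} (ht : t ∈ N ρ a) (htt : t * t = 1) (ht1 : t ≠ 1) :
    ∃ Q1 Q2 : Subgroup G, Q1 ∈ FQ ρ a ∧ Q2 ∈ FQ ρ a ∧ t ∈ Q1 ∧ t ∈ Q2 ∧
      (∀ Q ∈ FQ ρ a, t ∈ Q → Q = Q1 ∨ Q = Q2) ∧
      {d : Ω | t • d = d} = Fx Ω Q1 ∪ Fx Ω Q2 ∧
      (Fx Ω Q1).ncard = 1 + (Nat.card F + 1) * Nat.card {b : Ω // Fl (Xs (ρ a) b) e1 e3} ∧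
      (Fx Ω Q2).ncard = 1 + (Nat.card F + 1) * Nat.card {b : Ω // Fl (Xs (ρ a) b) e1 e3} ∧
      (Fx Ω Q1 ∩ Fx Ω Q2).ncard = 1 + Nat.card {b : Ω // Fl (Xs (ρ a) b) e1 e3} := by
  obtain ⟨g, rfl⟩ := ht
  obtain ⟨w, χ, hd, hg⟩ := (c.rep a).exists_tv htt
  rw [hg] at ht1 ⊢
  have hw : w ≠ 0 := by rintro rfl; exact ht1 (by rw [tv_zero_left, map_one])
  have hχ : χ ≠ 0 := by rintro rfl; exact ht1 (by rw [tv_zero_right, map_one])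
  refine ⟨Qs (ρ a) w, Qs ((ρ a).comp dual) χ, Or.inl ⟨w, hw, rfl⟩, Or.inr ⟨χ, hχ, rfl⟩, ⟨χ, hd, rfl⟩,
    tv_mem_dual hd, ?_, Fx_tv (c.fix a) (hP a) hw hχ hd, card_Fx_Qs (c.fix a) (hP a) hw,
    card_Fx_Qs' (c.fix a) (hP a) hχ, card_Fx_inter (c.fix a) (hP a) hw hχ hd⟩
  rintro Q (⟨v, hv, rfl⟩ | ⟨φ, hφ, rfl⟩) hQ
  · exact Or.inl (Qs_unique (c.rep a) hw hχ hd hQ)
  · exact Or.inr (Qs_unique' (c.rep a) hw hχ hd hQ)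

/-- `q = 2` and `A = 1` -/
theorem fl_small (c : Cfg ρ) (hP : TypeFl ρ) {a b0 : Ω} (hab0 : b0 ≠ a) :
    Nat.card F = 2 ∧ Nat.card {b : Ω // Fl (Xs (ρ a) b) e1 e3} = 1 := by
  classical
  have hd : (e3 : Fin 3 → F) ⬝ᵥ e1 = 0 := by rw [dot_e1]; rfl
  have hA := c.Af_pos hP hab0
  have hq := q_sub F
  set A := Nat.card {b : Ω // Fl (Xs (ρ a) b) e1 e3} with hAdef
  have htt : ρ a (tv e1 e3) * ρ a (tv e1 e3) = 1 := by rw [← map_mul, tv_sq hd, map_one]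
  have ht1 : ρ a (tv e1 e3) ≠ 1 := (c.rep a).tv_ne hd e1_ne e3_ne
  have htN : ρ a (tv e1 e3) ∈ N ρ a := rho_mem _ _
  revert htt ht1 htN
  generalize ρ a (tv e1 e3) = t
  intro htt ht1 htN
  obtain ⟨Q1, Q2, hQ1, hQ2, ht1', ht2', -, hfix, hn1, hn2, hn12⟩ := c.two_Q hP a htN htt ht1
  rw [← hAdef] at hn1 hn2 hn12
  have hqA : 0 < Nat.card F * A := Nat.mul_pos (by omega) hA
  have hexp : (Nat.card F + 1) * A = Nat.card F * A + A := by ring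
  -- a point of `Fix Q1` outside `Fix Q2`
  obtain ⟨b, hb1, hb2⟩ : ∃ b, b ∈ Fx Ω Q1 ∧ b ∉ Fx Ω Q2 := by
    by_contra hcon
    push Not at hcon
    have h1 : Fx Ω Q1 ∩ Fx Ω Q2 = Fx Ω Q1 := Set.inter_eq_left.2 hcon
    rw [h1, hn1] at hn12
    omega
  obtain ⟨d, hd2, hd1⟩ : ∃ b, b ∈ Fx Ω Q2 ∧ b ∉ Fx Ω Q1 := by
    by_contra hcon
    push Not at hcon
    have h1 : Fx Ω Q1 ∩ Fx Ω Q2 = Fx Ω Q2 := Set.inter_eq_right.2 hcon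
    rw [h1, hn2] at hn12
    omega
  have hQ1b := c.FQ_of_fix hP hQ1 hb1
  have hQ2d := c.FQ_of_fix hP hQ2 hd2
  have htb : t ∈ N ρ b := FQ_le hQ1b ht1'
  have htd : t ∈ N ρ d := FQ_le hQ2d ht2'
  -- the other group at `b`
  obtain ⟨Q3, hQ3, ht3, hfix3⟩ : ∃ Q3 : Subgroup G, Q3 ∈ FQ ρ b ∧ t ∈ Q3 ∧
      {d : Ω | t • d = d} = Fx Ω Q1 ∪ Fx Ω Q3 := by
    obtain ⟨P1, P2, hP1, hP2, h1, h2, h3, h4, -, -, -⟩ := c.two_Q hP b htb htt ht1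
    rcases h3 Q1 hQ1b ht1' with h5 | h5
    · exact ⟨P2, hP2, h2, by rw [h5, h4]⟩
    · exact ⟨P1, hP1, h1, by rw [h5, h4, Set.union_comm]⟩
  have hsub : ∀ e, e ∈ Fx Ω Q2 → e ∉ Fx Ω Q1 → e ∈ Fx Ω Q3 := by
    intro e he2 he1
    have h1 : e ∈ {d : Ω | t • d = d} := by
      rw [hfix]; exact Or.inr he2
    rw [hfix3] at h1
    exact h1.resolve_left he1
  have hQ3d := c.FQ_of_fix hP hQ3 (hsub d hd2 hd1)
  have hne : Q2 ≠ Q3 := by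
    rintro rfl
    apply hb2
    intro x hx
    exact c.N_fix (FQ_le hQ3 hx)
  have h23 : (Fx Ω Q2 ∩ Fx Ω Q3).ncard = 1 + A := by
    obtain ⟨P1, P2, hP1, hP2, h1, h2, h3, -, -, -, h5⟩ := c.two_Q hP d htd htt ht1
    rw [c.Af_eq hP d a, ← hAdef] at h5
    rcases h3 Q2 hQ2d ht2' with h6 | h6 <;> rcases h3 Q3 hQ3d ht3 with h7 | h7
    · exact (hne (h6.trans h7.symm)).elim
    · rw [h6, h7, h5]
    · rw [h6, h7, Set.inter_comm, h5]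
    · exact (hne (h6.trans h7.symm)).elim
  have h1 : Fx Ω Q2 ⊆ (Fx Ω Q1 ∩ Fx Ω Q2) ∪ (Fx Ω Q2 ∩ Fx Ω Q3) := by
    intro e he
    by_cases he1 : e ∈ Fx Ω Q1
    · exact Or.inl ⟨he1, he⟩
    · exact Or.inr ⟨he, hsub e he he1⟩
  have h2 := (Set.ncard_le_ncard h1 (Set.toFinite _)).trans (Set.ncard_union_le _ _)
  rw [hn2, hn12, h23, hexp] at h2
  have h3 : Nat.card F * A ≤ A + 1 := by omega
  have h4 : 2 ≤ Nat.card F := by omega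
  have h5 : A ≤ 1 := by nlinarith
  have h6 : A = 1 := by omega
  refine ⟨?_, h6⟩
  rw [h6] at h3
  omega

end Cfg

end Cfsg.Agent.H438.SLThree
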